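import Mathlib.GroupTheory.Sylow
import Mathlib.GroupTheory.PGroup
import Mathlib.GroupTheory.Nilpotent
import Mathlib.GroupTheory.Frattini
import Mathlib.GroupTheory.IndexNormal
import Mathlib.Tactic.Ring
import Mathlib.Tactic.NormNum

/-!
# S3204: abstract 2-groups, upper central series and fixed points (helper309)
-/

set_option autoImplicit false

namespace Cfsg.Agent.H309.Ru

open Subgroup
open scoped commutatorElement

section ucs

variable {P : Type*} [Group P]

/-- A normal subgroup not inside `Z_i` has an element of `Z_{i+1} \ Z_i`. -/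
theorem exists_mem_succ (hn : Group.IsNilpotent P) (N : Subgroup P) (hN : N.Normal) (i : ℕ)
    (h : ¬ N ≤ Subgroup.upperCentralSeries P i) :
    ∃ x ∈ N, x ∈ Subgroup.upperCentralSeries P (i + 1) ∧ x ∉ Subgroup.upperCentralSeries P i := by
  obtain ⟨n, hn⟩ := hn.nilpotent
  have key : ∀ n : ℕ, (∃ x ∈ N, x ∈ Subgroup.upperCentralSeries P n ∧ x ∉ Subgroup.upperCentralSeries P i) →
      ∃ x ∈ N, x ∈ Subgroup.upperCentralSeries P (i + 1) ∧ x ∉ Subgroup.upperCentralSeries P i := by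
    intro n
    induction n with
    | zero =>
      rintro ⟨x, hx, h0, hi⟩
      rw [Subgroup.upperCentralSeries_zero, mem_bot] at h0
      exact absurd (h0 ▸ one_mem _) hi
    | succ n ih =>
      rintro ⟨x, hx, h0, hi⟩
      by_cases hall : ∀ y : P, ⁅x, y⁆ ∈ Subgroup.upperCentralSeries P i
      · exact ⟨x, hx, Subgroup.mem_upperCentralSeries_succ_iff.2 hall, hi⟩
      · push Not at hall
        obtain ⟨y, hy⟩ := hall
        apply ih
        refine ⟨⁅x, y⁆, ?_, Subgroup.mem_upperCentralSeries_succ_iff.1 h0 y, hy⟩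
        rw [commutatorElement_def]
        have := hN.conj_mem x⁻¹ (inv_mem hx) y
        have h2 := mul_mem hx this
        simpa [mul_assoc] using h2
  rw [SetLike.not_le_iff_exists] at h
  obtain ⟨x, hx, hi⟩ := h
  exact key n ⟨x, hx, by rw [hn]; trivial, hi⟩

theorem ucs_lt (hn : Group.IsNilpotent P) (i : ℕ) (h : Subgroup.upperCentralSeries P (i + 1) ≠ ⊤) :
    Subgroup.upperCentralSeries P i < Subgroup.upperCentralSeries P (i + 1) := by
  refine lt_of_le_of_ne (Subgroup.upperCentralSeries_mono P (Nat.le_succ i)) ?_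
  intro heq
  obtain ⟨x, -, hx, hxi⟩ := exists_mem_succ hn ⊤ inferInstance i (by
    rw [heq, top_le_iff]; exact h)
  rw [← heq] at hx
  exact hxi hx

theorem card_lt_two [Finite P] {A B : Subgroup P} (h : A < B) : 2 * Nat.card A ≤ Nat.card B := by
  obtain ⟨k, hk⟩ := card_dvd_of_le h.le
  have hA : 0 < Nat.card A := Nat.card_pos
  have hlt : Nat.card A < Nat.card B := by
    rcases lt_or_eq_of_le (Nat.le_of_dvd Nat.card_pos (card_dvd_of_le h.le)) with h1 | h1
    · exact h1
    · exact absurd (eq_of_le_of_card_ge h.le h1.ge) h.ne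
  have : 2 ≤ k := by
    by_contra hcon
    have : k = 0 ∨ k = 1 := by omega
    rcases this with rfl | rfl
    · rw [hk] at hlt; simp at hlt
    · rw [hk] at hlt; simp at hlt
  rw [hk]; nlinarith

theorem cards [Finite P] (hn : Group.IsNilpotent P) (hb : Nat.card (Subgroup.upperCentralSeries P 4) = 16)
    (ha : 16 < Nat.card P) :
    Nat.card (Subgroup.upperCentralSeries P 1) = 2 ∧ Nat.card (Subgroup.upperCentralSeries P 2) = 4 ∧
      Nat.card (Subgroup.upperCentralSeries P 3) = 8 := by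
  have h4 : Subgroup.upperCentralSeries P 4 ≠ ⊤ := by
    intro h
    rw [h, card_top] at hb
    omega
  have hne : ∀ i ≤ 4, Subgroup.upperCentralSeries P i ≠ ⊤ := by
    intro i hi h
    apply h4
    rw [eq_top_iff, ← h]
    exact Subgroup.upperCentralSeries_mono P hi
  have h0 : Nat.card (Subgroup.upperCentralSeries P 0) = 1 := by
    rw [Subgroup.upperCentralSeries_zero]; exact card_bot
  have e1 := card_lt_two (ucs_lt hn 0 (hne 1 (by norm_num)))
  have e2 := card_lt_two (ucs_lt hn 1 (hne 2 (by norm_num)))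
  have e3 := card_lt_two (ucs_lt hn 2 (hne 3 (by norm_num)))
  have e4 := card_lt_two (ucs_lt hn 3 (hne 4 (by norm_num)))
  rw [hb] at e4
  simp only [Nat.reduceAdd] at *
  rw [h0] at e1
  omega

/-- If `A ≤ B` has index at most 2 (order form) and `x ∈ B \ A`, then `y ∈ A` or `x⁻¹ y ∈ A` for `y ∈ B`. -/
theorem mem_or_mem [Finite P] {A B : Subgroup P} (hAB : A ≤ B) (hc : Nat.card B = 2 * Nat.card A)
    {x y : P} (hx : x ∈ B) (hxA : x ∉ A) (hy : y ∈ B) : y ∈ A ∨ x⁻¹ * y ∈ A := by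
  have hidx : (A.subgroupOf B).index = 2 := by
    have h1 := (A.subgroupOf B).card_mul_index
    have h2 : Nat.card (A.subgroupOf B) = Nat.card A :=
      Nat.card_congr (subgroupOfEquivOfLe hAB).toEquiv
    rw [h2, hc] at h1
    have hA : 0 < Nat.card A := Nat.card_pos
    nlinarith
  have h1 := mul_mem_iff_of_index_two hidx (a := (⟨x, hx⟩ : B)⁻¹) (b := ⟨y, hy⟩)
  rw [inv_mem_iff, mem_subgroupOf, mem_subgroupOf, mem_subgroupOf] at h1
  by_cases hyA : y ∈ A
  · exact Or.inl hyA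
  · right
    have : ((⟨x, hx⟩ : B)⁻¹ * ⟨y, hy⟩ : B) = (⟨x⁻¹ * y, mul_mem (inv_mem hx) hy⟩ : B) := rfl
    rw [this] at h1
    simp only at h1
    rw [h1]
    simp [hxA, hyA]

/-- Normal subgroups and the upper central series with factors of order 2. -/
theorem ucs_le_of_normal [Finite P] (hn : Group.IsNilpotent P) (n : ℕ)
    (hc : ∀ i < n, Nat.card (Subgroup.upperCentralSeries P (i + 1)) = 2 * Nat.card (Subgroup.upperCentralSeries P i))
    (N : Subgroup P) (hN : N.Normal) : ∀ i < n, ¬ N ≤ Subgroup.upperCentralSeries P i →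
      Subgroup.upperCentralSeries P (i + 1) ≤ N := by
  intro i
  induction i with
  | zero =>
    intro hi h
    obtain ⟨x, hx, hx1, hx0⟩ := exists_mem_succ hn N hN 0 h
    intro y hy
    rcases mem_or_mem (Subgroup.upperCentralSeries_mono P (Nat.le_succ 0)) (hc 0 hi) hx1 hx0 hy with h1 | h1
    · rw [Subgroup.upperCentralSeries_zero, mem_bot] at h1
      rw [h1]; exact one_mem _
    · rw [Subgroup.upperCentralSeries_zero, mem_bot] at h1
      have : y = x := by
        have := mul_eq_one_iff_eq_inv.1 h1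
        rw [inv_inj] at this; exact this.symm
      rw [this]; exact hx
  | succ i ih =>
    intro hi h
    have h0 : ¬ N ≤ Subgroup.upperCentralSeries P i := fun hle =>
      h (hle.trans (Subgroup.upperCentralSeries_mono P (Nat.le_succ i)))
    have hle := ih (by omega) h0
    obtain ⟨x, hx, hx1, hx0⟩ := exists_mem_succ hn N hN (i + 1) h
    intro y hy
    rcases mem_or_mem (Subgroup.upperCentralSeries_mono P (Nat.le_succ (i + 1))) (hc (i + 1) hi) hx1 hx0 hy with h1 | h1
    · exact hle h1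
    · have : y = x * (x⁻¹ * y) := by group
      rw [this]
      exact mul_mem hx (hle h1)

end ucs

section fix

/-- Fixed points of an index 2 subgroup on an elementary abelian 2-group. -/
theorem card_fix_le {Q : Type*} [Group Q] [Finite Q] (A : Subgroup Q) (hA2 : ∀ a ∈ A, a * a = 1)
    (R' R : Subgroup Q) (hR : R' ≤ R) (hc : Nat.card R = 2 * Nat.card R')
    (hn : ∀ r ∈ R, ∀ a ∈ A, r * a * r⁻¹ ∈ A) :
    Nat.card (A ⊓ centralizer (R' : Set Q) : Subgroup Q) ≤
      Nat.card (A ⊓ centralizer (R : Set Q) : Subgroup Q) ^ 2 := by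
  have hAc : ∀ a ∈ A, ∀ b ∈ A, a * b = b * a := by
    intro a ha b hb
    have h1 := hA2 _ (mul_mem ha hb)
    have h2 := hA2 a ha
    have h3 := hA2 b hb
    have ha' : a⁻¹ = a := inv_eq_of_mul_eq_one_left h2
    have hb' : b⁻¹ = b := inv_eq_of_mul_eq_one_left h3
    have h4 : (a * b)⁻¹ = a * b := inv_eq_of_mul_eq_one_left h1
    rw [mul_inv_rev, ha', hb'] at h4
    exact h4.symm
  obtain ⟨τ, hτ, hτ'⟩ : ∃ τ ∈ R, τ ∉ R' := by
    by_contra h
    push Not at h
    have : R = R' := le_antisymm h hR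
    rw [this] at hc
    have : 0 < Nat.card R' := Nat.card_pos
    omega
  have hidx : (R'.subgroupOf R).index = 2 := by
    have h1 := (R'.subgroupOf R).card_mul_index
    have h2 : Nat.card (R'.subgroupOf R) = Nat.card R' :=
      Nat.card_congr (subgroupOfEquivOfLe hR).toEquiv
    rw [h2, hc] at h1
    have hA : 0 < Nat.card R' := Nat.card_pos
    nlinarith
  have hnorm : (R'.subgroupOf R).Normal := Subgroup.normal_of_index_eq_two hidx
  have hτn : ∀ r ∈ R', τ⁻¹ * r * τ ∈ R' := by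
    intro r hr
    have := hnorm.conj_mem ⟨r, hR hr⟩ (mem_subgroupOf.2 hr) ⟨τ⁻¹, inv_mem hτ⟩
    rw [mem_subgroupOf] at this
    simpa using this
  have hτ2 : τ * τ ∈ R' := by
    have h1 := mul_mem_iff_of_index_two hidx (a := (⟨τ, hτ⟩ : R)) (b := ⟨τ, hτ⟩)
    rw [mem_subgroupOf] at h1
    exact h1.2 Iff.rfl
  have hmem : ∀ r ∈ R, r ∈ R' ∨ τ⁻¹ * r ∈ R' := fun r hr => mem_or_mem hR hc hτ hτ' hr
  have hcen : ∀ (S : Subgroup Q) (x : Q), x ∈ (A ⊓ centralizer (S : Set Q) : Subgroup Q) ↔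
      x ∈ A ∧ ∀ s ∈ S, s * x = x * s := by
    intro S x
    rw [mem_inf, mem_centralizer_iff]
    rfl
  set F : Subgroup Q := A ⊓ centralizer (R' : Set Q) with hF
  set K : Subgroup Q := A ⊓ centralizer (R : Set Q) with hK
  -- the map x ↦ τ x τ⁻¹ x⁻¹
  have hval : ∀ x ∈ F, τ * x * τ⁻¹ * x⁻¹ ∈ K := by
    intro x hx
    obtain ⟨hxA, hxR⟩ := (hcen R' x).1 hx
    have hyA : τ * x * τ⁻¹ ∈ A := hn τ hτ x hxA
    have hmA : τ * x * τ⁻¹ * x⁻¹ ∈ A := mul_mem hyA (inv_mem hxA)
    rw [hK, hcen]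
    refine ⟨hmA, ?_⟩
    have hR'c : ∀ s ∈ R', s * (τ * x * τ⁻¹ * x⁻¹) = (τ * x * τ⁻¹ * x⁻¹) * s := by
      intro s hs
      have e1 := hxR _ (hτn s hs)
      have e2 := hxR _ hs
      have e3 : s * (τ * x * τ⁻¹) = (τ * x * τ⁻¹) * s := by
        calc s * (τ * x * τ⁻¹) = τ * ((τ⁻¹ * s * τ) * x) * τ⁻¹ := by group
          _ = τ * (x * (τ⁻¹ * s * τ)) * τ⁻¹ := by rw [e1]
          _ = (τ * x * τ⁻¹) * s := by group
      have e4 : s * x⁻¹ = x⁻¹ * s := by
        calc s * x⁻¹ = x⁻¹ * (x * s) * x⁻¹ := by group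
          _ = x⁻¹ * (s * x) * x⁻¹ := by rw [e2]
          _ = x⁻¹ * s := by group
      calc s * (τ * x * τ⁻¹ * x⁻¹) = (s * (τ * x * τ⁻¹)) * x⁻¹ := by group
        _ = (τ * x * τ⁻¹) * (s * x⁻¹) := by rw [e3, mul_assoc]
        _ = (τ * x * τ⁻¹ * x⁻¹) * s := by rw [e4]; group
    have hτc : τ * (τ * x * τ⁻¹ * x⁻¹) = (τ * x * τ⁻¹ * x⁻¹) * τ := by
      have e1 := hxR _ hτ2
      have e2 : τ * (τ * x * τ⁻¹ * x⁻¹) * τ⁻¹ = x * (τ * x * τ⁻¹)⁻¹ := by
        calc τ * (τ * x * τ⁻¹ * x⁻¹) * τ⁻¹ = ((τ * τ) * x) * (τ⁻¹ * x⁻¹ * τ⁻¹) := by group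
          _ = (x * (τ * τ)) * (τ⁻¹ * x⁻¹ * τ⁻¹) := by rw [e1]
          _ = x * (τ * x * τ⁻¹)⁻¹ := by group
      have e3 : x * (τ * x * τ⁻¹)⁻¹ = τ * x * τ⁻¹ * x⁻¹ := by
        have h5 : x⁻¹ = x := inv_eq_of_mul_eq_one_left (hA2 x hxA)
        have h6 : (τ * x * τ⁻¹)⁻¹ = τ * x * τ⁻¹ := inv_eq_of_mul_eq_one_left (hA2 _ hyA)
        rw [h6, hAc x hxA _ hyA]
        rw [h5]
      calc τ * (τ * x * τ⁻¹ * x⁻¹) = (τ * (τ * x * τ⁻¹ * x⁻¹) * τ⁻¹) * τ := by group
        _ = (τ * x * τ⁻¹ * x⁻¹) * τ := by rw [e2, e3]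
    intro s hs
    rcases hmem s hs with h | h
    · exact hR'c s h
    · have : s = τ * (τ⁻¹ * s) := by group
      rw [this, mul_assoc, hR'c _ h, ← mul_assoc, hτc, mul_assoc]
  let θ : F →* K :=
    { toFun := fun x => ⟨τ * x * τ⁻¹ * (x : Q)⁻¹, hval x x.2⟩
      map_one' := by
        apply Subtype.ext
        simp
      map_mul' := by
        intro x y
        apply Subtype.ext
        have hxA := ((hcen R' x).1 x.2).1
        have hyA := ((hcen R' y).1 y.2).1
        have h1 := hAc _ (inv_mem hxA) _ (mul_mem (hn τ hτ _ hyA) (inv_mem hyA))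
        show τ * ((x : Q) * y) * τ⁻¹ * ((x : Q) * y)⁻¹ = (τ * x * τ⁻¹ * (x : Q)⁻¹) * (τ * y * τ⁻¹ * (y : Q)⁻¹)
        calc τ * ((x : Q) * y) * τ⁻¹ * ((x : Q) * y)⁻¹
            = τ * x * τ⁻¹ * ((τ * y * τ⁻¹ * (y : Q)⁻¹) * (x : Q)⁻¹) := by group
          _ = τ * x * τ⁻¹ * ((x : Q)⁻¹ * (τ * y * τ⁻¹ * (y : Q)⁻¹)) := by rw [h1]
          _ = _ := by group }
  have hker : Nat.card θ.ker ≤ Nat.card K := by
    apply Nat.card_le_card_of_injective (fun x : θ.ker => (⟨((x : F) : Q), by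
      refine (hcen R _).2 ?_
      obtain ⟨hxA, hxR⟩ := (hcen R' ((x : F) : Q)).1 (x : F).2
      refine ⟨hxA, ?_⟩
      have h1 : τ * ((x : F) : Q) * τ⁻¹ * ((x : F) : Q)⁻¹ = 1 :=
        congrArg Subtype.val (MonoidHom.mem_ker.1 x.2)
      have h2 : τ * ((x : F) : Q) = ((x : F) : Q) * τ := by
        have := mul_inv_eq_one.1 h1
        exact mul_inv_eq_iff_eq_mul.1 this
      intro s hs
      rcases hmem s hs with h | h
      · exact hxR s h
      · have : s = τ * (τ⁻¹ * s) := by group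
        rw [this, mul_assoc, hxR _ h, ← mul_assoc, h2, mul_assoc]⟩ : K))
    intro x y hxy
    apply Subtype.ext
    apply Subtype.ext
    exact congrArg (fun z : K => (z : Q)) hxy
  have h1 := θ.ker.card_mul_index
  rw [index_ker] at h1
  have h2 : Nat.card θ.range ≤ Nat.card K := Nat.card_le_card_of_injective _ Subtype.val_injective
  rw [← h1, sq]
  exact Nat.mul_le_mul hker h2

/-- Fixed points of a subgroup of a 2-group on an elementary abelian normal subgroup. -/
theorem card_fix_le_pow {Q : Type*} [Group Q] [Finite Q] (hQ : IsPGroup 2 Q) (A : Subgroup Q)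
    (hA2 : ∀ a ∈ A, a * a = 1) (hn : ∀ r : Q, ∀ a ∈ A, r * a * r⁻¹ ∈ A) :
    ∀ (n : ℕ) (R : Subgroup Q), R.index = n →
      Nat.card (A ⊓ centralizer (R : Set Q) : Subgroup Q) ≤
        Nat.card (A ⊓ center Q : Subgroup Q) ^ R.index := by
  have : Fact (Nat.Prime 2) := ⟨Nat.prime_two⟩
  intro n
  induction n using Nat.strong_induction_on with
  | _ n ih =>
    intro R hRn
    by_cases hR : R = ⊤
    · subst hR
      rw [index_top, pow_one, coe_top, centralizer_univ]
    · obtain ⟨k, hk⟩ := IsPGroup.iff_card.1 (hQ.to_subgroup R)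
      obtain ⟨m, hm⟩ := IsPGroup.iff_card.1 hQ
      have hlt : k < m := by
        rcases lt_or_ge k m with h | h
        · exact h
        · exfalso
          apply hR
          apply eq_top_of_card_eq
          apply le_antisymm (card_le_card_group R)
          rw [hk, hm]
          exact Nat.pow_le_pow_right (by norm_num) h
      obtain ⟨R1, hR1, hRR1⟩ := Sylow.exists_subgroup_card_pow_succ (p := 2) (n := k)
        (by rw [hm]; exact pow_dvd_pow 2 hlt) hk
      have hc : Nat.card R1 = 2 * Nat.card R := by rw [hR1, hk, pow_succ, mul_comm]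
      have hidx : R.index = 2 * R1.index := by
        have h1 := R.card_mul_index
        have h2 := R1.card_mul_index
        have hpos : 0 < Nat.card R := Nat.card_pos
        rw [← h2, hc, mul_comm 2 (Nat.card R), mul_assoc] at h1
        exact Nat.eq_of_mul_eq_mul_left hpos h1
      have hpos1 : 0 < R1.index := Nat.pos_of_ne_zero R1.index_ne_zero_of_finite
      have h1 := ih R1.index (by omega) R1 rfl
      have h2 := card_fix_le A hA2 R R1 hRR1 hc (fun r _ a ha => hn r a ha)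
      calc Nat.card (A ⊓ centralizer (R : Set Q) : Subgroup Q) ≤
          Nat.card (A ⊓ centralizer (R1 : Set Q) : Subgroup Q) ^ 2 := h2
        _ ≤ (Nat.card (A ⊓ center Q : Subgroup Q) ^ R1.index) ^ 2 := Nat.pow_le_pow_left h1 2
        _ = Nat.card (A ⊓ center Q : Subgroup Q) ^ R.index := by rw [← pow_mul, hidx, mul_comm]

end fix

end Cfsg.Agent.H309.Ru
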