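import Mathlib.GroupTheory.Sylow
import Mathlib.GroupTheory.PGroup
import Mathlib.GroupTheory.Nilpotent
import Mathlib.GroupTheory.Frattini
import Cfsg.Agent.H309.Conj

/-!
# S3204: the data on the 2-group and its transport (helper309)

`Hyp T T1 T2 W Z4 Z Z2 Z1` records the facts on a Sylow 2-subgroup `T` of Rudvalis type that are used.
-/

set_option autoImplicit false

namespace Cfsg.Agent.H309.Ru

open Subgroup
open scoped commutatorElement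

/-- The facts on a 2-group `T` of Rudvalis type inside a group `G`. -/
structure Hyp {G : Type*} [Group G] (T T1 T2 W Z4 Z Z2 Z1 : Subgroup G) : Prop where
  Z1_le : Z1 ≤ Z2
  Z2_le : Z2 ≤ Z
  Z_le : Z ≤ Z4
  Z4_le : Z4 ≤ W
  W_le1 : W ≤ T1
  W_le2 : W ≤ T2
  T1_le : T1 ≤ T
  T2_le : T2 ≤ T
  cZ1 : Nat.card Z1 = 2
  cZ2 : Nat.card Z2 = 4
  cZ : Nat.card Z = 8
  cZ4 : Nat.card Z4 = 16
  cW : Nat.card W = 2048
  cT1 : Nat.card T1 = 8192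
  cT2 : Nat.card T2 = 8192
  cT : Nat.card T = 16384
  sqZ : ∀ z ∈ Z, z * z = 1
  cen : ∀ z ∈ Z, ∀ w ∈ W, w * z = z * w
  memW : ∀ t ∈ T, (∀ z ∈ Z, t * z = z * t) → t ∈ W
  sqW : ∀ w ∈ W, w * w ∈ Z
  comW : ∀ w ∈ W, ∀ w' ∈ W, ⁅w, w'⁆ ∈ Z
  c1 : ∀ t ∈ T, ∀ z ∈ Z1, t * z = z * t
  c2 : ∀ t ∈ T, ∀ z ∈ Z2, ⁅t, z⁆ ∈ Z1
  c3 : ∀ t ∈ T, ∀ z ∈ Z, ⁅t, z⁆ ∈ Z2
  c4 : ∀ t ∈ T, ∀ z ∈ Z4, ⁅t, z⁆ ∈ Z
  nW : ∀ t ∈ T, ∀ w ∈ W, t * w * t⁻¹ ∈ W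
  memT1 : ∀ t, t ∈ T1 ↔ t ∈ T ∧ ∀ z ∈ Z, ⁅t, z⁆ ∈ Z1
  memT2 : ∀ t, t ∈ T2 ↔ t ∈ T ∧ ∀ z ∈ Z2, t * z = z * t
  d : ∀ U : Subgroup G, U ≤ W → Nat.card W ≤ 16 * Nat.card U → Z ≤ U
  C : ∀ U : Subgroup G, U ≤ W → Nat.card W ≤ 4 * Nat.card U → ∀ H : Subgroup G,
    (∀ x ∈ U, ∀ y ∈ U, ⁅x, y⁆ ∈ H) → Z ≤ H
  up1 : ∀ x ∈ T, (∀ t ∈ T, ⁅t, x⁆ ∈ Z1) → x ∈ Z2
  norm2 : ∀ K : Subgroup G, K ≤ Z → (∀ t ∈ T, ∀ k ∈ K, t * k * t⁻¹ ∈ K) → ¬ K ≤ Z1 → Z2 ≤ K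
  norm4 : ∀ K : Subgroup G, K ≤ W → (∀ t ∈ T, ∀ k ∈ K, t * k * t⁻¹ ∈ K) → ¬ K ≤ Z → Z4 ≤ K
  full : ∀ z2 ∈ Z2, z2 ∉ Z1 → ∀ z3 ∈ Z, z3 ∉ Z2 → ∀ a ∈ Z1, ∀ b ∈ Z2,
    ∃ t ∈ T, ⁅t, z2⁆ = a ∧ ⁅t, z3⁆ = b
  b1 : ∀ A : Subgroup G, A ≤ W → Z ≤ A → (∀ t ∈ T1, ∀ a ∈ A, ⁅t, a⁆ ∈ Z) →
    (∀ t ∈ T, ∀ k ∈ A, t * k * t⁻¹ ∈ A) → Nat.card A ≤ 32
  e1 : ∀ A : Subgroup G, A ≤ T → Z1 ≤ A → (∀ a ∈ A, a * a = 1) → (∀ t ∈ T, ∀ k ∈ A, t * k * t⁻¹ ∈ A) →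
    (∀ t ∈ T1, ∀ a ∈ A, ⁅t, a⁆ ∈ Z1) → Nat.card A ≤ 8

/-- Transport of `Hyp` along an injective homomorphism. -/
theorem Hyp.map {G H : Type*} [Group G] [Group H] {T T1 T2 W Z4 Z Z2 Z1 : Subgroup G}
    (h : Hyp T T1 T2 W Z4 Z Z2 Z1) (f : G →* H) (hf : Function.Injective f) :
    Hyp (T.map f) (T1.map f) (T2.map f) (W.map f) (Z4.map f) (Z.map f) (Z2.map f) (Z1.map f) := by
  have hc : ∀ K : Subgroup G, Nat.card (K.map f) = Nat.card K := fun K =>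
    Subgroup.card_map_of_injective hf
  have hm : ∀ (K : Subgroup G) (x : G), f x ∈ K.map f ↔ x ∈ K := fun K x =>
    Subgroup.mem_map_iff_mem hf
  have hb : ∀ x y : G, ⁅f x, f y⁆ = f ⁅x, y⁆ := fun x y => (map_commutatorElement f x y).symm
  -- subgroups below an image
  have hpre : ∀ (K : Subgroup G) (U : Subgroup H), U ≤ K.map f → (U.comap f).map f = U ∧ U.comap f ≤ K := by
    intro K U hU
    constructor
    · rw [Subgroup.map_comap_eq_self]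
      exact hU.trans (Subgroup.map_le_range f K)
    · intro x hx
      exact (hm K x).1 (hU hx)
  refine
    { Z1_le := map_mono h.Z1_le
      Z2_le := map_mono h.Z2_le
      Z_le := map_mono h.Z_le
      Z4_le := map_mono h.Z4_le
      W_le1 := map_mono h.W_le1
      W_le2 := map_mono h.W_le2
      T1_le := map_mono h.T1_le
      T2_le := map_mono h.T2_le
      cZ1 := (hc _).trans h.cZ1
      cZ2 := (hc _).trans h.cZ2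
      cZ := (hc _).trans h.cZ
      cZ4 := (hc _).trans h.cZ4
      cW := (hc _).trans h.cW
      cT1 := (hc _).trans h.cT1
      cT2 := (hc _).trans h.cT2
      cT := (hc _).trans h.cT
      sqZ := ?_, cen := ?_, memW := ?_, sqW := ?_, comW := ?_, c1 := ?_, c2 := ?_, c3 := ?_, c4 := ?_
      nW := ?_, memT1 := ?_, memT2 := ?_, d := ?_, C := ?_, up1 := ?_, norm2 := ?_, norm4 := ?_
      full := ?_, b1 := ?_, e1 := ?_ }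
  · rintro _ ⟨z, hz, rfl⟩
    rw [← map_mul, h.sqZ z hz, map_one]
  · rintro _ ⟨z, hz, rfl⟩ _ ⟨w, hw, rfl⟩
    rw [← map_mul, ← map_mul, h.cen z hz w hw]
  · rintro _ ⟨t, ht, rfl⟩ hz
    rw [hm]
    refine h.memW t ht (fun z hz' => hf ?_)
    rw [map_mul, map_mul]
    exact hz _ ⟨z, hz', rfl⟩
  · rintro _ ⟨w, hw, rfl⟩
    rw [← map_mul, hm]; exact h.sqW w hw
  · rintro _ ⟨w, hw, rfl⟩ _ ⟨w', hw', rfl⟩
    rw [hb, hm]; exact h.comW w hw w' hw'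
  · rintro _ ⟨t, ht, rfl⟩ _ ⟨z, hz, rfl⟩
    rw [← map_mul, ← map_mul, h.c1 t ht z hz]
  · rintro _ ⟨t, ht, rfl⟩ _ ⟨z, hz, rfl⟩
    rw [hb, hm]; exact h.c2 t ht z hz
  · rintro _ ⟨t, ht, rfl⟩ _ ⟨z, hz, rfl⟩
    rw [hb, hm]; exact h.c3 t ht z hz
  · rintro _ ⟨t, ht, rfl⟩ _ ⟨z, hz, rfl⟩
    rw [hb, hm]; exact h.c4 t ht z hz
  · rintro _ ⟨t, ht, rfl⟩ _ ⟨w, hw, rfl⟩
    rw [← map_inv, ← map_mul, ← map_mul, hm]; exact h.nW t ht w hw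
  · intro t
    constructor
    · rintro ⟨t, ht, rfl⟩
      refine ⟨(hm _ _).2 ((h.memT1 t).1 ht).1, ?_⟩
      rintro _ ⟨z, hz, rfl⟩
      rw [hb, hm]; exact ((h.memT1 t).1 ht).2 z hz
    · rintro ⟨⟨t, ht, rfl⟩, hz⟩
      rw [hm, h.memT1]
      refine ⟨ht, fun z hz' => ?_⟩
      rw [← hm, ← hb]
      exact hz _ ⟨z, hz', rfl⟩
  · intro t
    constructor
    · rintro ⟨t, ht, rfl⟩
      refine ⟨(hm _ _).2 ((h.memT2 t).1 ht).1, ?_⟩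
      rintro _ ⟨z, hz, rfl⟩
      rw [← map_mul, ← map_mul, ((h.memT2 t).1 ht).2 z hz]
    · rintro ⟨⟨t, ht, rfl⟩, hz⟩
      rw [hm, h.memT2]
      refine ⟨ht, fun z hz' => hf ?_⟩
      rw [map_mul, map_mul]
      exact hz _ ⟨z, hz', rfl⟩
  · intro U hU hcard
    obtain ⟨h1, h2⟩ := hpre W U hU
    rw [← h1]
    apply map_mono
    apply h.d _ h2
    rw [← h1, hc, hc] at hcard
    exact hcard
  · intro U hU hcard K hK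
    obtain ⟨h1, h2⟩ := hpre W U hU
    have h3 : Z ≤ K.comap f := by
      apply h.C _ h2
      · rw [← h1, hc, hc] at hcard
        exact hcard
      · intro x hx y hy
        rw [mem_comap, ← hb]
        exact hK _ hx _ hy
    rw [map_le_iff_le_comap]
    exact h3
  · rintro _ ⟨x, hx, rfl⟩ ht
    rw [hm]
    apply h.up1 x hx
    intro t ht'
    rw [← hm, ← hb]
    exact ht _ ⟨t, ht', rfl⟩
  · intro K hK hn hle
    obtain ⟨h1, h2⟩ := hpre Z K hK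
    rw [← h1]
    apply map_mono
    apply h.norm2 _ h2
    · intro t ht k hk
      rw [mem_comap, map_mul, map_mul, map_inv]
      exact hn _ ⟨t, ht, rfl⟩ _ hk
    · intro hcon
      apply hle
      rw [← h1]; exact map_mono hcon
  · intro K hK hn hle
    obtain ⟨h1, h2⟩ := hpre W K hK
    rw [← h1]
    apply map_mono
    apply h.norm4 _ h2
    · intro t ht k hk
      rw [mem_comap, map_mul, map_mul, map_inv]
      exact hn _ ⟨t, ht, rfl⟩ _ hk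
    · intro hcon
      apply hle
      rw [← h1]; exact map_mono hcon
  · rintro _ ⟨z2, hz2, rfl⟩ hz2' _ ⟨z3, hz3, rfl⟩ hz3' _ ⟨a, ha, rfl⟩ _ ⟨b, hb', rfl⟩
    rw [hm] at hz2' hz3'
    obtain ⟨t, ht, e1, e2⟩ := h.full z2 hz2 hz2' z3 hz3 hz3' a ha b hb'
    exact ⟨f t, ⟨t, ht, rfl⟩, by rw [hb, e1], by rw [hb, e2]⟩
  · intro A hA hZA hT1 hn
    obtain ⟨h1, h2⟩ := hpre W A hA
    rw [← h1, hc]
    apply h.b1 _ h2
    · intro z hz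
      exact hZA ⟨z, hz, rfl⟩
    · intro t ht a ha
      rw [← hm, ← hb]
      exact hT1 _ ⟨t, ht, rfl⟩ _ ha
    · intro t ht k hk
      rw [mem_comap, map_mul, map_mul, map_inv]
      exact hn _ ⟨t, ht, rfl⟩ _ hk
  · intro A hA hZA hsq hn hT1
    obtain ⟨h1, h2⟩ := hpre T A hA
    rw [← h1, hc]
    apply h.e1 _ h2
    · intro z hz
      exact hZA ⟨z, hz, rfl⟩
    · intro a ha
      apply hf
      rw [map_mul, map_one]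
      exact hsq _ ha
    · intro t ht k hk
      rw [mem_comap, map_mul, map_mul, map_inv]
      exact hn _ ⟨t, ht, rfl⟩ _ hk
    · intro t ht a ha
      rw [← hm, ← hb]
      exact hT1 _ ⟨t, ht, rfl⟩ _ ha

end Cfsg.Agent.H309.Ru
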