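import Cfsg.Agent.H309.Ru.AbsC
import Cfsg.Agent.H309.Ru.Hyp

/-!
# S3204: the Sylow 2-subgroup as an abstract group (helper309)
-/

set_option autoImplicit false

namespace Cfsg.Agent.H309.Ru

open Subgroup
open scoped commutatorElement

local notation "UC" => Subgroup.upperCentralSeries

variable {P : Type*} [Group P] [Finite P]

theorem uc_mem {i : ℕ} {x : P} : x ∈ UC P (i + 1) ↔ ∀ y : P, ⁅y, x⁆ ∈ UC P i := by
  rw [Subgroup.mem_upperCentralSeries_succ_iff]
  constructor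
  · intro h y
    rw [← commutatorElement_inv]; exact inv_mem (h y)
  · intro h y
    rw [← commutatorElement_inv]; exact inv_mem (h y)

theorem uc_one_mem {x : P} : x ∈ UC P 1 ↔ ∀ y : P, y * x = x * y := by
  rw [uc_mem]
  simp only [Subgroup.upperCentralSeries_zero, mem_bot, commutatorElement_eq_one_iff_mul_comm]

theorem eq_eight (n : ℕ) (h1 : n ≤ 8) (h2 : 16384 ≤ 2 ^ n * 8 * n) : n = 8 := by
  interval_cases n <;> first | rfl | (exfalso; revert h2; norm_num)

/-- The orders: `|P| = 2^14`, `|W| = 2^11`, `|Φ(W)| = 8`. -/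
theorem orders (hP : IsPGroup 2 P) (ha : 2 ^ 14 ≤ Nat.card P) (hb : Nat.card (UC P 4) = 16)
    (W : Subgroup P) (hW : W = centralizer (UC P 3 : Set P)) (hc : Nat.card (frattini W) ≤ 8) :
    W.index = 8 ∧ Nat.card W = 2048 ∧ Nat.card P = 16384 ∧ UC P 4 ≤ W ∧
      (frattini W).map W.subtype = UC P 3 ∧
      (∀ z2 ∈ UC P 2, z2 ∉ UC P 1 → ∀ z3 ∈ UC P 3, z3 ∉ UC P 2 → ∀ a ∈ UC P 1, ∀ b ∈ UC P 2,
        ∃ t : P, ⁅t, z2⁆ = a ∧ ⁅t, z3⁆ = b) := by
  classical
  have : Fact (Nat.Prime 2) := ⟨Nat.prime_two⟩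
  have hn : Group.IsNilpotent P := hP.isNilpotent
  have ha' : 16384 ≤ Nat.card P := by norm_num at ha; exact ha
  obtain ⟨k1, k2, k3⟩ := cards hn hb (by omega)
  have m12 : UC P 1 ≤ UC P 2 := Subgroup.upperCentralSeries_mono P (by norm_num)
  have m23 : UC P 2 ≤ UC P 3 := Subgroup.upperCentralSeries_mono P (by norm_num)
  have m34 : UC P 3 ≤ UC P 4 := Subgroup.upperCentralSeries_mono P (by norm_num)
  have hcs : ∀ i < 4, Nat.card (UC P (i + 1)) = 2 * Nat.card (UC P i) := by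
    intro i hi
    have h0 : Nat.card (UC P 0) = 1 := by
      rw [Subgroup.upperCentralSeries_zero]; exact card_bot
    interval_cases i
    · rw [zero_add, k1, h0]
    · rw [k1]; exact k2
    · rw [k2]; exact k3
    · rw [k3]; exact hb
  have memW : ∀ t : P, t ∈ W ↔ ∀ z ∈ UC P 3, t * z = z * t := by
    intro t
    rw [hW, mem_centralizer_iff]
    constructor
    · intro h z hz; exact (h z hz).symm
    · intro h z hz; exact (h z hz).symm
  -- centralizing z2 and z3 is enough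
  have hcent : ∀ z2 ∈ UC P 2, z2 ∉ UC P 1 → ∀ z3 ∈ UC P 3, z3 ∉ UC P 2 → ∀ t : P,
      t * z2 = z2 * t → t * z3 = z3 * t → t ∈ W := by
    intro z2 h2 h2' z3 h3 h3' t e2 e3
    have c1 : ∀ z ∈ UC P 1, t * z = z * t := fun z hz => uc_one_mem.1 hz t
    have c2 : ∀ z ∈ UC P 2, t * z = z * t := by
      intro z hz
      rcases mem_or_mem m12 (hcs 1 (by norm_num)) h2 h2' hz with h | h
      · exact c1 z h
      · have h5 := c1 _ h
        have : z = z2 * (z2⁻¹ * z) := by group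
        rw [this, ← mul_assoc, e2, mul_assoc, h5, ← mul_assoc]
    rw [memW]
    intro z hz
    rcases mem_or_mem m23 (hcs 2 (by norm_num)) h3 h3' hz with h | h
    · exact c2 z h
    · have h5 := c2 _ h
      have : z = z3 * (z3⁻¹ * z) := by group
      rw [this, ← mul_assoc, e3, mul_assoc, h5, ← mul_assoc]
  -- existence of z2, z3
  obtain ⟨w2, hw2, hw2'⟩ : ∃ z ∈ UC P 2, z ∉ UC P 1 := by
    by_contra h
    push Not at h
    have := Nat.le_of_dvd Nat.card_pos (card_dvd_of_le (show UC P 2 ≤ UC P 1 from h))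
    omega
  obtain ⟨w3, hw3, hw3'⟩ : ∃ z ∈ UC P 3, z ∉ UC P 2 := by
    by_contra h
    push Not at h
    have := Nat.le_of_dvd Nat.card_pos (card_dvd_of_le (show UC P 3 ≤ UC P 2 from h))
    omega
  have b2 : ∀ z ∈ UC P 2, ∀ t : P, ⁅t, z⁆ ∈ UC P 1 := fun z hz t => uc_mem.1 hz t
  have b3 : ∀ z ∈ UC P 3, ∀ t : P, ⁅t, z⁆ ∈ UC P 2 := fun z hz t => uc_mem.1 hz t
  have comeq : ∀ (t t' z : P), ⁅t, z⁆ = ⁅t', z⁆ → (t'⁻¹ * t) * z = z * (t'⁻¹ * t) := by
    intro t t' z h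
    rw [commutatorElement_def, commutatorElement_def] at h
    have h1 : t * z * t⁻¹ = t' * z * t'⁻¹ := mul_right_cancel h
    calc (t'⁻¹ * t) * z = t'⁻¹ * (t * z * t⁻¹) * t := by group
      _ = t'⁻¹ * (t' * z * t'⁻¹) * t := by rw [h1]
      _ = z * (t'⁻¹ * t) := by group
  -- injectivity
  have hinj : ∀ z2 (h2 : z2 ∈ UC P 2), z2 ∉ UC P 1 → ∀ z3 (h3 : z3 ∈ UC P 3), z3 ∉ UC P 2 →
      Function.Injective (fun q : P ⧸ W => ((⟨⁅q.out, z2⁆, b2 _ h2 _⟩, ⟨⁅q.out, z3⁆, b3 _ h3 _⟩) :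
        UC P 1 × UC P 2)) := by
    intro z2 h2 h2' z3 h3 h3' q q' hqq'
    rw [Prod.mk.injEq, Subtype.mk.injEq, Subtype.mk.injEq] at hqq'
    have h4 := hcent z2 h2 h2' z3 h3 h3' (q'.out⁻¹ * q.out) (comeq _ _ _ hqq'.1) (comeq _ _ _ hqq'.2)
    have h5 : (QuotientGroup.mk q'.out : P ⧸ W) = QuotientGroup.mk q.out := QuotientGroup.eq.2 h4
    rw [QuotientGroup.out_eq', QuotientGroup.out_eq'] at h5
    exact h5.symm
  have hcardprod : Nat.card (UC P 1 × UC P 2) = 8 := by rw [Nat.card_prod, k1, k2]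
  have hidx8 : W.index ≤ 8 := by
    rw [← hcardprod]
    exact Nat.card_le_card_of_injective _ (hinj w2 hw2 hw2' w3 hw3 hw3')
  have hWn : W.Normal := by
    rw [hW]; infer_instance
  -- UC 4 ≤ W
  have hWcard : 2048 ≤ Nat.card W := by
    have h1 := W.card_mul_index
    by_contra hcon
    push Not at hcon
    have : Nat.card W * W.index ≤ 2047 * 8 := Nat.mul_le_mul (by omega) hidx8
    omega
  have h4W : UC P 4 ≤ W := by
    apply ucs_le_of_normal hn 4 hcs W hWn 3 (by norm_num)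
    intro hle
    have := Nat.le_of_dvd Nat.card_pos (card_dvd_of_le hle)
    omega
  -- Φ
  set Φ : Subgroup P := (frattini W).map W.subtype with hΦ
  have hΦn : Φ.Normal := by
    rw [hΦ]; exact ConjAct.normal_of_characteristic_of_normal
  have hΦcard : Nat.card Φ = Nat.card (frattini W) :=
    Subgroup.card_map_of_injective W.subtype_injective
  have hΦ3 : Φ ≤ UC P 3 := by
    by_contra hcon
    have := ucs_le_of_normal hn 4 hcs Φ hΦn 3 (by norm_num) hcon
    have := Nat.le_of_dvd Nat.card_pos (card_dvd_of_le this)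
    simp only [Nat.reduceAdd] at this
    omega
  have hΦW : Φ ≤ W := map_subtype_le _
  obtain ⟨j, hj, hΦj⟩ : ∃ j ≤ 3, Φ = UC P j := by
    by_cases h2 : Φ ≤ UC P 2
    · by_cases h1 : Φ ≤ UC P 1
      · by_cases h0 : Φ ≤ UC P 0
        · refine ⟨0, by norm_num, le_antisymm h0 ?_⟩
          rw [Subgroup.upperCentralSeries_zero]; exact bot_le
        · exact ⟨1, by norm_num, le_antisymm h1 (ucs_le_of_normal hn 4 hcs Φ hΦn 0 (by norm_num) h0)⟩
      · exact ⟨2, by norm_num, le_antisymm h2 (ucs_le_of_normal hn 4 hcs Φ hΦn 1 (by norm_num) h1)⟩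
    · exact ⟨3, by norm_num, le_antisymm hΦ3 (ucs_le_of_normal hn 4 hcs Φ hΦn 2 (by norm_num) h2)⟩
  -- the quotient
  have hWp : IsPGroup 2 W := hP.to_subgroup W
  have sqΦ : ∀ w ∈ W, w * w ∈ Φ := by
    intro w hw
    refine ⟨⟨w, hw⟩ * ⟨w, hw⟩, ?_, rfl⟩
    have := Cfsg.Agent.Lib.FrattiniPGroup.pow_mem_frattini hWp (⟨w, hw⟩ : W)
    rw [sq] at this
    exact this
  set A : Subgroup (P ⧸ Φ) := W.map (QuotientGroup.mk' Φ) with hA
  have hA2 : ∀ a ∈ A, a * a = 1 := by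
    rintro _ ⟨w, hw, rfl⟩
    rw [← map_mul, QuotientGroup.mk'_apply, QuotientGroup.eq_one_iff]
    exact sqΦ w hw
  have hAc : ∀ a ∈ A, ∀ b ∈ A, a * b = b * a := by
    intro a ha b hb
    have h1 := hA2 _ (mul_mem ha hb)
    have ha' : a⁻¹ = a := inv_eq_of_mul_eq_one_left (hA2 a ha)
    have hb' : b⁻¹ = b := inv_eq_of_mul_eq_one_left (hA2 b hb)
    have h4 : (a * b)⁻¹ = a * b := inv_eq_of_mul_eq_one_left h1
    rw [mul_inv_rev, ha', hb'] at h4
    exact h4.symm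
  have hAn : ∀ r : P ⧸ Φ, ∀ a ∈ A, r * a * r⁻¹ ∈ A := by
    intro r a ha
    have : A.Normal := hWn.map _ (QuotientGroup.mk'_surjective Φ)
    exact this.conj_mem a ha r
  have h5 := card_fix_le_pow (hP.to_quotient Φ) A hA2 hAn _ A rfl
  have hAA : A ⊓ centralizer (A : Set (P ⧸ Φ)) = A := by
    apply inf_of_le_left
    intro a ha
    rw [mem_centralizer_iff]
    intro b hb
    exact hAc b hb a ha
  have hAidx : A.index = W.index := by
    have h1 := A.card_mul_index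
    have h2 := card_map_mk Φ W hΦW
    have h3 := W.card_mul_index
    have h4 := Φ.card_mul_index
    have h6 : Φ.index = Nat.card (P ⧸ Φ) := rfl
    rw [h6, ← h1] at h4
    rw [← h3, ← h2] at h4
    have hpos : 0 < Nat.card Φ := Nat.card_pos
    have hpos2 : 0 < Nat.card A := Nat.card_pos
    have : (Nat.card Φ * Nat.card A) * A.index = (Nat.card Φ * Nat.card A) * W.index := by
      rw [mul_assoc, h4]; ring
    exact Nat.eq_of_mul_eq_mul_left (Nat.mul_pos hpos hpos2) this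
  have hfix : Nat.card (A ⊓ center (P ⧸ Φ) : Subgroup (P ⧸ Φ)) ≤ 2 := by
    have hle : (A ⊓ center (P ⧸ Φ) : Subgroup (P ⧸ Φ)) ≤ (UC P (j + 1)).map (QuotientGroup.mk' Φ) := by
      rintro x ⟨⟨w, hw, rfl⟩, hx⟩
      refine ⟨w, ?_, rfl⟩
      show w ∈ UC P (j + 1)
      rw [uc_mem]
      intro y
      rw [← hΦj, ← QuotientGroup.eq_one_iff]
      have h6 := mem_center_iff.1 hx (QuotientGroup.mk' Φ y)
      have : (QuotientGroup.mk' Φ) ⁅y, w⁆ = 1 := by
        rw [map_commutatorElement, commutatorElement_eq_one_iff_mul_comm]; exact h6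
      exact this
    have h7 := card_map_mk Φ (UC P (j + 1)) (by
      rw [hΦj]; exact Subgroup.upperCentralSeries_mono P (Nat.le_succ j))
    have h8 := hcs j (by omega)
    have hpos : 0 < Nat.card (UC P j) := Nat.card_pos
    have hcΦ : Nat.card Φ = Nat.card (UC P j) := by rw [hΦj]
    rw [h8, hcΦ] at h7
    have h9 : Nat.card ((UC P (j + 1)).map (QuotientGroup.mk' Φ)) = 2 :=
      Nat.eq_of_mul_eq_mul_right hpos h7
    calc _ ≤ Nat.card ((UC P (j + 1)).map (QuotientGroup.mk' Φ)) :=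
          Nat.le_of_dvd Nat.card_pos (card_dvd_of_le hle)
      _ = 2 := h9
  rw [hAA, hAidx] at h5
  have h6 : Nat.card A ≤ 2 ^ W.index := h5.trans (Nat.pow_le_pow_left hfix _)
  have h7 := card_map_mk Φ W hΦW
  have h8 := W.card_mul_index
  have h9 : Nat.card Φ ≤ 8 := by rw [hΦcard]; exact hc
  have hbig : 16384 ≤ 2 ^ W.index * 8 * W.index := by
    calc 16384 ≤ Nat.card P := ha'
      _ = Nat.card A * Nat.card Φ * W.index := by rw [← h8, ← h7]
      _ ≤ 2 ^ W.index * 8 * W.index := Nat.mul_le_mul_right _ (Nat.mul_le_mul h6 h9)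
  have hidx : W.index = 8 := eq_eight _ hidx8 hbig
  rw [hidx] at h6 h8
  have hcardW : Nat.card W = 2048 := by
    have : Nat.card A * Nat.card Φ ≤ 2 ^ 8 * 8 := Nat.mul_le_mul h6 h9
    rw [h7] at this
    norm_num at this
    omega
  have hΦ8 : Nat.card Φ = 8 := by
    have hA256 : Nat.card A ≤ 256 := by norm_num at h6; exact h6
    have : 2048 ≤ 256 * Nat.card Φ := by
      calc 2048 = Nat.card A * Nat.card Φ := by rw [h7, hcardW]
        _ ≤ 256 * Nat.card Φ := Nat.mul_le_mul_right _ hA256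
    omega
  refine ⟨hidx, hcardW, by rw [← h8, hcardW], h4W, eq_of_le_of_card_ge hΦ3 (by rw [hΦ8, k3]), ?_⟩
  intro z2 h2 h2' z3 h3 h3' a ha2 b hb2
  have hbij := (Nat.bijective_iff_injective_and_card _).2 ⟨hinj z2 h2 h2' z3 h3 h3', by
    rw [hcardprod]; exact hidx⟩
  obtain ⟨q, hq⟩ := hbij.2 (⟨a, ha2⟩, ⟨b, hb2⟩)
  rw [Prod.mk.injEq, Subtype.mk.injEq, Subtype.mk.injEq] at hq
  exact ⟨q.out, hq.1, hq.2⟩

end Cfsg.Agent.H309.Ru
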