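import Cfsg.Agent.H309.Ru.ActV

/-!
# S3204: `N_C(W)` acts trivially on `W / Z`, main step (helper309)
-/

set_option autoImplicit false

namespace Cfsg.Agent.H309.Ru

open Subgroup Pointwise
open scoped commutatorElement

variable {G : Type*} [Group G]

theorem normalizer_le_cent {Z : Subgroup G} :
    ∀ x ∈ normalizer (Z : Set G), ∀ c ∈ centralizer (Z : Set G), x * c * x⁻¹ ∈ centralizer (Z : Set G) := by
  intro x hx c hc
  rw [mem_centralizer_iff] at hc ⊢
  intro z hz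
  have h2 := hc _ (conj_of_mem_normalizer' hx hz)
  calc z * (x * c * x⁻¹) = x * ((x⁻¹ * z * x) * c) * x⁻¹ := by group
    _ = x * (c * (x⁻¹ * z * x)) * x⁻¹ := by rw [h2]
    _ = (x * c * x⁻¹) * z := by group

variable [Finite G] {T T1 T2 W Z4 Z Z2 Z1 : Subgroup G}

theorem NNC {Z : Subgroup G} : normalizer (Z : Set G) ≤ normalizer ((centralizer (Z : Set G) : Subgroup G) : Set G) :=
  fun x hx => mem_normalizer_of_conj (normalizer_le_cent x hx)

theorem NWZ (h : Hyp T T1 T2 W Z4 Z Z2 Z1) : normalizer (W : Set G) ≤ normalizer (Z : Set G) := fun n hn =>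
  mem_normalizer_iff_conj.2 (h.conjZ_of_conjW (mem_normalizer_iff_conj.1 hn))

theorem WC (h : Hyp T T1 T2 W Z4 Z Z2 Z1) : W ≤ centralizer (Z : Set G) := fun w hw =>
  mem_centralizer_iff.2 (fun z hz => (h.cen z hz w hw).symm)

theorem frattiniC (h : Hyp T T1 T2 W Z4 Z Z2 Z1) (S : Sylow 2 G) (hS : (S : Subgroup G) = T) :
    ∀ m ∈ normalizer (Z : Set G), ∃ c ∈ centralizer (Z : Set G), c * m ∈ normalizer (W : Set G) := by
  have : Fact (Nat.Prime 2) := ⟨Nat.prime_two⟩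
  intro m hm
  have hSC : (S : Subgroup G) ⊓ centralizer (Z : Set G) = W := by rw [hS]; exact cent_inf h
  obtain ⟨c, hc, e⟩ := exists_conj_eq_inf S (centralizer (Z : Set G)) (by rw [hS]; exact h.TNZ.trans NNC)
    (MulAut.conj m • W) (isPGroup_conj_smul h.pW) (by
      rw [conj_smul_le]
      exact fun w hw => normalizer_le_cent m hm w (WC h hw)) (by rw [hSC, card_conj_smul])
  refine ⟨c, hc, ?_⟩
  rw [mem_normalizer_iff_conj, conj_mul_smul, e, hSC]

theorem rho_eq_one_iff (h : Hyp T T1 T2 W Z4 Z Z2 Z1) [(Z.subgroupOf W).Normal]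
    (hNZ : normalizer (W : Set G) ≤ normalizer (Z : Set G)) (n : normalizer (W : Set G)) :
    rho hNZ n = 1 ↔ ∀ w ∈ W, ⁅(n : G), w⁆ ∈ Z := by
  have key : ∀ (w : G) (hw : w ∈ W), (rho hNZ n (QuotientGroup.mk (⟨w, hw⟩ : W)) =
      (QuotientGroup.mk (⟨w, hw⟩ : W) : W ⧸ Z.subgroupOf W)) ↔ ⁅(n : G), w⁆ ∈ Z := by
    intro w hw
    have h1 : rho hNZ n (QuotientGroup.mk (⟨w, hw⟩ : W)) =
      (QuotientGroup.mk (⟨(n : G) * w * (n : G)⁻¹, conj_of_mem_normalizer n.2 hw⟩ : W) :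
        W ⧸ Z.subgroupOf W) := rfl
    rw [h1, QuotientGroup.eq, mem_subgroupOf]
    show ((n : G) * w * (n : G)⁻¹)⁻¹ * w ∈ Z ↔ _
    have e : ((n : G) * w * (n : G)⁻¹)⁻¹ * w = w⁻¹ * ⁅(n : G), w⁆⁻¹ * w := by
      rw [commutatorElement_def]; group
    rw [e]
    constructor
    · intro h2
      have h3 := h.n3 (h.WT hw) h2
      have e2 : w * (w⁻¹ * ⁅(n : G), w⁆⁻¹ * w) * w⁻¹ = ⁅(n : G), w⁆⁻¹ := by group
      rw [e2] at h3
      exact inv_mem_iff.1 h3
    · intro h2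
      have := h.n3 (inv_mem (h.WT hw)) (inv_mem h2)
      rwa [inv_inv] at this
  constructor
  · intro h1 w hw
    rw [← key w hw, h1]; rfl
  · intro h1
    ext x
    obtain ⟨⟨w, hw⟩, rfl⟩ := QuotientGroup.mk_surjective x
    exact (key w hw).2 (h1 w hw)

theorem NC_triv (h : Hyp T T1 T2 W Z4 Z Z2 Z1) (S : Sylow 2 G) (hS : (S : Subgroup G) = T)
    (hidx : ∀ H : Subgroup G, H.index ≠ 2) :
    ∀ x ∈ normalizer (W : Set G), x ∈ centralizer (Z : Set G) → ∀ w ∈ W, ⁅x, w⁆ ∈ Z := by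
  classical
  have : Fact (Nat.Prime 2) := ⟨Nat.prime_two⟩
  have hZn := h.Zn
  have hNZ := NWZ h
  have hOct : Cfsg.Agent.StdL2.G23Aut.Oct Z := ⟨h.cZ, h.sqZ⟩
  have := hOct.finite_aut
  have hsimp := hOct.simple_aut
  let icg : CommGroup (W ⧸ Z.subgroupOf W) :=
    { (inferInstance : Group (W ⧸ Z.subgroupOf W)) with
      mul_comm := by
        intro a b
        obtain ⟨x, rfl⟩ := QuotientGroup.mk_surjective a
        obtain ⟨y, rfl⟩ := QuotientGroup.mk_surjective b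
        show (QuotientGroup.mk (x * y) : W ⧸ Z.subgroupOf W) = QuotientGroup.mk (y * x)
        rw [QuotientGroup.eq, mem_subgroupOf]
        have h1 := h.comW _ (inv_mem y.2) _ (inv_mem x.2)
        rw [commutatorElement_def, inv_inv, inv_inv] at h1
        show (((x : G) * y)⁻¹ * (y * x)) ∈ Z
        have e : ((x : G) * y)⁻¹ * ((y : G) * x) = (y : G)⁻¹ * (x : G)⁻¹ * y * x := by group
        rw [e]; exact h1 }
  let ρ : normalizer (W : Set G) →* MulAut (W ⧸ Z.subgroupOf W) := rho hNZ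
  have hρ : ∀ n, ρ n = 1 ↔ ∀ w ∈ W, ⁅(n : G), w⁆ ∈ Z := fun n => rho_eq_one_iff h hNZ n
  let g : normalizer (W : Set G) →* MulAut Z := Z.normalizerMonoidHom.comp (inclusion hNZ)
  have hg : ∀ n, g n = 1 ↔ (n : G) ∈ centralizer (Z : Set G) := by
    intro n
    rw [mem_centralizer_iff]
    constructor
    · intro h1 z hz
      have h2 := congrArg (fun f : MulAut Z => ((f ⟨z, hz⟩ : Z) : G)) h1
      have h3 : (n : G) * z * (n : G)⁻¹ = z := h2
      calc z * (n : G) = ((n : G) * z * (n : G)⁻¹) * n := by rw [h3]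
        _ = n * z := by group
    · intro h1
      ext z
      show (n : G) * z * (n : G)⁻¹ = z
      rw [← h1 z z.2]; group
  have hgsurj : Function.Surjective g := by
    intro φ
    have h1 : φ ∈ Cfsg.Agent.StdL2.G23Aut.img (normalizer (Z : Set G)) Z := by
      rw [full_aut h S hS hidx]; trivial
    rw [Cfsg.Agent.StdL2.G23Aut.mem_img] at h1
    obtain ⟨m, hm, -, e⟩ := h1
    obtain ⟨c, hc, hcm⟩ := frattiniC h S hS m hm
    refine ⟨⟨c * m, hcm⟩, ?_⟩
    ext z
    show (c * m) * z * (c * m)⁻¹ = φ z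
    rw [← e z]
    have h2 := mem_centralizer_iff.1 hc _ (conj_of_mem_normalizer hm z.2)
    calc (c * m) * z * (c * m)⁻¹ = (c * (m * z * m⁻¹)) * c⁻¹ := by group
      _ = m * z * m⁻¹ := by rw [← h2]; group
  have hkk : ∀ n, ρ n = 1 → g n = 1 := fun n hn => (hg n).2 (h.cent_of_triv ((hρ n).1 hn))
  let ψ : ρ.range →* MulAut Z := (QuotientGroup.lift ρ.ker g (fun n hn => hkk n hn)).comp
    (QuotientGroup.quotientKerEquivRange ρ).symm.toMonoidHom
  have hψv : ∀ n, ψ ⟨ρ n, ⟨n, rfl⟩⟩ = g n := by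
    intro n
    have h1 : (QuotientGroup.quotientKerEquivRange ρ).symm ⟨ρ n, ⟨n, rfl⟩⟩ = QuotientGroup.mk n := by
      rw [MulEquiv.symm_apply_eq]; rfl
    show (QuotientGroup.lift ρ.ker g (fun n hn => hkk n hn))
      ((QuotientGroup.quotientKerEquivRange ρ).symm ⟨ρ n, ⟨n, rfl⟩⟩) = g n
    rw [h1]; rfl
  have hV : Nat.card (W ⧸ Z.subgroupOf W) = 256 := by
    have h1 := (Z.subgroupOf W).card_mul_index
    rw [Nat.card_congr (subgroupOfEquivOfLe h.ZW).toEquiv, h.cZ, h.cW] at h1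
    have h2 : (Z.subgroupOf W).index = Nat.card (W ⧸ Z.subgroupOf W) := rfl
    omega
  -- the odd index
  obtain ⟨k, hk, hk2⟩ := exists_card_eq S (normalizer (W : Set G) ⊓ centralizer (Z : Set G)) (by
    rw [hS]
    intro t ht
    apply mem_normalizer_of_conj
    rintro x ⟨hx, hx'⟩
    exact mem_inf.2 ⟨mul_mem (mul_mem (h.TNW ht) hx) (inv_mem (h.TNW ht)),
      normalizer_le_cent t (h.TNZ ht) x hx'⟩)
  have hSW : (S : Subgroup G) ⊓ (normalizer (W : Set G) ⊓ centralizer (Z : Set G)) = W := by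
    rw [hS]
    apply le_antisymm
    · rw [← cent_inf h]; exact le_inf inf_le_left (inf_le_right.trans inf_le_right)
    · exact le_inf h.WT (le_inf (h.WT.trans h.TNW) (WC h))
  rw [hSW] at hk
  set K : Subgroup (MulAut (W ⧸ Z.subgroupOf W)) :=
    ((centralizer (Z : Set G)).subgroupOf (normalizer (W : Set G))).map ρ with hKdef
  have hKodd : ¬ 2 ∣ Nat.card K := by
    let f : (normalizer (W : Set G) ⊓ centralizer (Z : Set G) : Subgroup G) →*
        MulAut (W ⧸ Z.subgroupOf W) := ρ.comp (inclusion inf_le_left)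
    have hf : f.range = K := by
      ext x
      constructor
      · rintro ⟨y, rfl⟩
        exact ⟨_, mem_subgroupOf.2 y.2.2, rfl⟩
      · rintro ⟨y, hy, rfl⟩
        exact ⟨⟨y, ⟨y.2, hy⟩⟩, rfl⟩
    have h1 := f.ker.card_mul_index
    rw [index_ker, hf] at h1
    have hWN : W ≤ normalizer (W : Set G) ⊓ centralizer (Z : Set G) :=
      le_inf (h.WT.trans h.TNW) (WC h)
    have h2 : W.subgroupOf (normalizer (W : Set G) ⊓ centralizer (Z : Set G)) ≤ f.ker := by
      intro x hx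
      rw [mem_subgroupOf] at hx
      show f x = 1
      exact (hρ _).2 (fun w hw => h.comW _ hx w hw)
    have h3 := card_dvd_of_le h2
    rw [Nat.card_congr (subgroupOfEquivOfLe hWN).toEquiv] at h3
    obtain ⟨j, hj⟩ := h3
    rw [hj, hk, mul_assoc] at h1
    have h4 : j * Nat.card K = k := Nat.eq_of_mul_eq_mul_left Nat.card_pos h1
    intro h5
    exact hk2 (by rw [← h4]; exact Dvd.dvd.mul_left h5 j)
  have hbot := key (V := W ⧸ Z.subgroupOf W) hV (by
      intro v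
      obtain ⟨x, rfl⟩ := QuotientGroup.mk_surjective v
      show (QuotientGroup.mk (x * x) : W ⧸ Z.subgroupOf W) = QuotientGroup.mk 1
      rw [QuotientGroup.eq, mem_subgroupOf]
      show ((x : G) * x)⁻¹ * 1 ∈ Z
      rw [mul_one]
      exact inv_mem (h.sqW x x.2))
    ρ.range K ((T.subgroupOf (normalizer (W : Set G))).map ρ)
    (by rintro _ ⟨y, -, rfl⟩; exact ⟨y, rfl⟩)
    (by
      rintro _ ⟨b, rfl⟩ _ ⟨c, hc, rfl⟩
      refine ⟨b * c * b⁻¹, ?_, by simp⟩
      exact normalizer_le_cent (b : G) (hNZ b.2) c hc)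
    hKodd
    (by rintro _ ⟨y, -, rfl⟩; exact ⟨y, rfl⟩)
    (by
      apply IsPGroup.map
      have h1 : IsPGroup 2 T := by rw [← hS]; exact S.2
      exact h1.of_equiv (subgroupOfEquivOfLe h.TNW).symm)
    (by
      intro v v' hv hv' hv1 hv1'
      obtain ⟨x, rfl⟩ := QuotientGroup.mk_surjective v
      obtain ⟨y, rfl⟩ := QuotientGroup.mk_surjective v'
      have key2 : ∀ x : W, (∀ t ∈ (T.subgroupOf (normalizer (W : Set G))).map ρ,
          t (QuotientGroup.mk x : W ⧸ Z.subgroupOf W) = QuotientGroup.mk x) →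
          (QuotientGroup.mk x : W ⧸ Z.subgroupOf W) ≠ 1 → (x : G) ∈ Z4 ∧ (x : G) ∉ Z := by
        intro x hx hx1
        constructor
        · apply h.fixW x.2
          intro t ht
          have h1 := hx (ρ ⟨t, h.TNW ht⟩) ⟨⟨t, h.TNW ht⟩, mem_subgroupOf.2 ht, rfl⟩
          have h2 : (QuotientGroup.mk (⟨t * x * t⁻¹, h.nW t ht x x.2⟩ : W) : W ⧸ Z.subgroupOf W) =
              QuotientGroup.mk x := h1
          rw [QuotientGroup.eq, mem_subgroupOf] at h2
          have h3 : (t * x * t⁻¹)⁻¹ * (x : G) ∈ Z := h2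
          have e : ⁅t, (x : G)⁆ = (x : G) * ((t * x * t⁻¹)⁻¹ * (x : G))⁻¹ * (x : G)⁻¹ := by
            rw [commutatorElement_def]; group
          rw [e]
          exact h.n3 (h.WT x.2) (inv_mem h3)
        · intro hxZ
          apply hx1
          show (QuotientGroup.mk x : W ⧸ Z.subgroupOf W) = QuotientGroup.mk 1
          rw [QuotientGroup.eq, mem_subgroupOf]
          show (x : G)⁻¹ * 1 ∈ Z
          rw [mul_one]; exact inv_mem hxZ
      obtain ⟨hx4, hxZ⟩ := key2 x hv hv1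
      obtain ⟨hy4, hyZ⟩ := key2 y hv' hv1'
      rw [QuotientGroup.eq, mem_subgroupOf]
      exact (mem_or_mem h.Z_le (by rw [h.cZ, h.cZ4]) hx4 hxZ hy4).resolve_left hyZ)
    ψ
    (by
      intro φ
      obtain ⟨n, rfl⟩ := hgsurj φ
      exact ⟨⟨ρ n, ⟨n, rfl⟩⟩, hψv n⟩)
    (by
      rintro ⟨_, ⟨n, rfl⟩⟩
      rw [hψv n, hg]
      constructor
      · intro h1
        exact ⟨n, mem_subgroupOf.2 h1, rfl⟩
      · rintro ⟨c, hc, hcn⟩
        have h1 : ρ (c⁻¹ * n) = 1 := by rw [map_mul, map_inv, hcn, inv_mul_cancel]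
        have h2 := (hg _).1 (hkk _ h1)
        have h3 := mul_mem (mem_subgroupOf.1 hc) h2
        have e : (c : G) * ((c⁻¹ * n : normalizer (W : Set G)) : G) = n := by
          show (c : G) * ((c : G)⁻¹ * n) = n
          group
        rwa [e] at h3)
    (by rw [hOct.card_aut]; norm_num)
  intro x hx hxC
  rw [← hρ ⟨x, hx⟩]
  have h1 : ρ ⟨x, hx⟩ ∈ K := ⟨⟨x, hx⟩, mem_subgroupOf.2 hxC, rfl⟩
  rw [hbot] at h1
  exact mem_bot.1 h1

end Cfsg.Agent.H309.Ru
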