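import Cfsg.Agent.H309.Ru.Hyp
import Cfsg.Agent.H309.Ru.AbsA
import Cfsg.Agent.Lib.ProductSet
import Cfsg.Agent.Lib.FrattiniPGroup

/-!
# S3204: first consequences of `Hyp` (helper309)
-/

set_option autoImplicit false

namespace Cfsg.Agent.H309.Ru

open Subgroup Pointwise
open scoped commutatorElement

variable {G : Type*} [Group G]

theorem comm_mul_left' (t t' z : G) : ⁅t * t', z⁆ = ⁅t, ⁅t', z⁆⁆ * ⁅t', z⁆ * ⁅t, z⁆ := by
  simp only [commutatorElement_def]; group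

theorem conj_eq (t z : G) : t * z * t⁻¹ = ⁅t, z⁆ * z := by
  simp only [commutatorElement_def]; group

theorem comm_eq_one {x y : G} (h : x * y = y * x) : ⁅x, y⁆ = 1 :=
  commutatorElement_eq_one_iff_mul_comm.2 h

theorem mul_comm_of_comm {x y : G} (h : ⁅x, y⁆ = 1) : x * y = y * x :=
  commutatorElement_eq_one_iff_mul_comm.1 h

theorem conj_of_mul_comm {x y : G} (h : x * y = y * x) : x * y * x⁻¹ = y := by
  rw [h]; group

theorem comm_mem_of_conj {x y : G} {K : Subgroup G} (hy : y ∈ K) (h : x * y * x⁻¹ ∈ K) : ⁅x, y⁆ ∈ K := by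
  rw [commutatorElement_def]; exact mul_mem h (inv_mem hy)

theorem conj_mem_of_comm {x y : G} {K : Subgroup G} (hy : y ∈ K) (h : ⁅x, y⁆ ∈ K) : x * y * x⁻¹ ∈ K := by
  rw [conj_eq]; exact mul_mem h hy

theorem comm_symm_mem {x y : G} {K : Subgroup G} (h : ⁅x, y⁆ ∈ K) : ⁅y, x⁆ ∈ K := by
  rw [← commutatorElement_inv]; exact inv_mem h

theorem mem_normalizer_of_conj [Finite G] {x : G} {K : Subgroup G} (h : ∀ k ∈ K, x * k * x⁻¹ ∈ K) :
    x ∈ normalizer (K : Set G) := by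
  rw [mem_normalizer_iff_conj]
  apply eq_of_le_of_card_le
  · rw [conj_smul_le]; exact h
  · rw [card_conj_smul]

theorem conj_of_mem_normalizer {x : G} {K : Subgroup G} (h : x ∈ normalizer (K : Set G)) {k : G} (hk : k ∈ K) :
    x * k * x⁻¹ ∈ K := (mem_normalizer_iff.1 h k).1 hk

theorem conj_of_mem_normalizer' {x : G} {K : Subgroup G} (h : x ∈ normalizer (K : Set G)) {k : G} (hk : k ∈ K) :
    x⁻¹ * k * x ∈ K := by
  have := conj_of_mem_normalizer (inv_mem h) hk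
  rwa [inv_inv] at this

theorem card_mul_le [Finite G] {A B T : Subgroup G} (hA : A ≤ T) (hB : B ≤ T) :
    Nat.card A * Nat.card B ≤ Nat.card T * Nat.card (A ⊓ B : Subgroup G) := by
  rw [← Cfsg.Agent.Lib.ProductSet.card_mul_card_inf]
  apply Nat.mul_le_mul_right
  apply Nat.card_mono (Set.toFinite _)
  rintro _ ⟨a, ha, b, hb, rfl⟩
  exact mul_mem (hA ha) (hB hb)

theorem card_sup_mul [Finite G] {A B : Subgroup G} (h : A ≤ normalizer (B : Set G)) :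
    Nat.card (A ⊔ B : Subgroup G) * Nat.card (A ⊓ B : Subgroup G) = Nat.card A * Nat.card B := by
  rw [← Cfsg.Agent.Lib.ProductSet.card_mul_card_inf A B, ← coe_mul_of_left_le_normalizer_right A B h]
  rfl

theorem mem_sup_norm {A B : Subgroup G} (h : A ≤ normalizer (B : Set G)) {x : G} :
    x ∈ A ⊔ B ↔ ∃ a ∈ A, ∃ b ∈ B, a * b = x := by
  rw [← SetLike.mem_coe, coe_mul_of_left_le_normalizer_right A B h]
  exact Set.mem_mul

/-- Orders of subgroups of 2-groups of known order. -/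
theorem dvd_of_le [Finite G] {A B : Subgroup G} (h : A ≤ B) {n : ℕ} (hB : Nat.card B = 2 ^ n) :
    ∃ k ≤ n, Nat.card A = 2 ^ k := by
  have h1 := card_dvd_of_le h
  rw [hB] at h1
  exact (Nat.dvd_prime_pow Nat.prime_two).1 h1

theorem conj_index_two [Finite G] {A B : Subgroup G} (hAB : A ≤ B) (hc : Nat.card B = 2 * Nat.card A)
    {s p : G} (hs : s ∈ B) (hp : p ∈ A) : s⁻¹ * p * s ∈ A := by
  by_cases hsA : s ∈ A
  · exact mul_mem (mul_mem (inv_mem hsA) hp) hsA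
  · rcases mem_or_mem hAB hc hs hsA (mul_mem (hAB hp) hs) with h | h
    · exfalso
      apply hsA
      have := mul_mem (inv_mem hp) h
      simpa using this
    · rw [mul_assoc]; exact h

theorem comm_mem_index_two [Finite G] {A B : Subgroup G} (hAB : A ≤ B) (hc : Nat.card B = 2 * Nat.card A)
    {x y : G} (hx : x ∈ B) (hy : y ∈ B) : ⁅x, y⁆ ∈ A := by
  by_cases hxA : x ∈ A
  · have h1 := conj_index_two hAB hc (inv_mem hy) (inv_mem hxA)
    rw [inv_inv] at h1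
    have : ⁅x, y⁆ = x * (y * x⁻¹ * y⁻¹) := by rw [commutatorElement_def]; group
    rw [this]; exact mul_mem hxA h1
  · have key : ∀ z ∈ B, z ∉ A → ⁅x, z⁆ ∈ A := by
      intro z hz hzA
      have h1 : x * z ∈ A := by
        have h2 := mem_or_mem hAB hc (inv_mem hx) (by rwa [inv_mem_iff]) hz
        rw [inv_inv] at h2
        exact h2.resolve_left hzA
      have h3 : z * x ∈ A := by
        have h2 := mem_or_mem hAB hc (inv_mem hz) (by rwa [inv_mem_iff]) hx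
        rw [inv_inv] at h2
        exact h2.resolve_left hxA
      have : ⁅x, z⁆ = (x * z) * (z * x)⁻¹ := by rw [commutatorElement_def]; group
      rw [this]; exact mul_mem h1 (inv_mem h3)
    by_cases hyA : y ∈ A
    · have h1 := conj_index_two hAB hc (inv_mem hx) hyA
      rw [inv_inv] at h1
      rw [commutatorElement_def]
      exact mul_mem h1 (inv_mem hyA)
    · exact key y hy hyA

theorem sq_mem_index_two [Finite G] {A B : Subgroup G} (hAB : A ≤ B) (hc : Nat.card B = 2 * Nat.card A)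
    {x : G} (hx : x ∈ B) : x * x ∈ A := by
  by_cases hxA : x ∈ A
  · exact mul_mem hxA hxA
  · have h2 := mem_or_mem hAB hc (inv_mem hx) (by rwa [inv_mem_iff]) hx
    rw [inv_inv] at h2
    exact h2.resolve_left hxA

/-- A product of two elements outside a subgroup of index 2. -/
theorem mul_mem_index_two [Finite G] {A B : Subgroup G} (hAB : A ≤ B) (hc : Nat.card B = 2 * Nat.card A)
    {x y : G} (hx : x ∈ B) (hy : y ∈ B) (hxA : x ∉ A) (hyA : y ∉ A) : x * y ∈ A := by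
  have h2 := mem_or_mem hAB hc (inv_mem hx) (by rwa [inv_mem_iff]) hy
  rw [inv_inv] at h2
  exact h2.resolve_left hyA

/-- Proper subgroups of 2-groups lie in subgroups of index 2. -/
theorem exists_index_two_sub [Finite G] {P S : Subgroup G} {n : ℕ} (hP : Nat.card P = 2 ^ n) (hS : S ≤ P)
    (hne : ¬ P ≤ S) : ∃ P' : Subgroup G, S ≤ P' ∧ P' ≤ P ∧ Nat.card P = 2 * Nat.card P' := by
  have : Fact (Nat.Prime 2) := ⟨Nat.prime_two⟩
  have hPp : IsPGroup 2 P := IsPGroup.of_card hP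
  have h1 : S.subgroupOf P ≠ ⊤ := by
    intro h; rw [subgroupOf_eq_top] at h; exact hne h
  obtain ⟨R, hR, hle⟩ := (eq_top_or_exists_le_coatom (S.subgroupOf P)).resolve_left h1
  have hidx : R.index = 2 := Cfsg.Agent.Lib.FrattiniPGroup.index_of_coatom hPp hR
  refine ⟨R.map P.subtype, ?_, map_subtype_le R, ?_⟩
  · intro x hx
    exact ⟨⟨x, hS hx⟩, hle (by rw [mem_subgroupOf]; exact hx), rfl⟩
  · rw [card_map_of_injective P.subtype_injective, ← R.card_mul_index, hidx, mul_comm]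

namespace Hyp

variable {T T1 T2 W Z4 Z Z2 Z1 : Subgroup G}

theorem ZW (h : Hyp T T1 T2 W Z4 Z Z2 Z1) : Z ≤ W := h.Z_le.trans h.Z4_le
theorem Z2W (h : Hyp T T1 T2 W Z4 Z Z2 Z1) : Z2 ≤ W := h.Z2_le.trans h.ZW
theorem Z1W (h : Hyp T T1 T2 W Z4 Z Z2 Z1) : Z1 ≤ W := h.Z1_le.trans h.Z2W
theorem Z1Z (h : Hyp T T1 T2 W Z4 Z Z2 Z1) : Z1 ≤ Z := h.Z1_le.trans h.Z2_le
theorem WT (h : Hyp T T1 T2 W Z4 Z Z2 Z1) : W ≤ T := h.W_le1.trans h.T1_le
theorem ZT (h : Hyp T T1 T2 W Z4 Z Z2 Z1) : Z ≤ T := h.ZW.trans h.WT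
theorem Z2T (h : Hyp T T1 T2 W Z4 Z Z2 Z1) : Z2 ≤ T := h.Z2W.trans h.WT
theorem Z1T (h : Hyp T T1 T2 W Z4 Z Z2 Z1) : Z1 ≤ T := h.Z1W.trans h.WT

theorem conj (h : Hyp T T1 T2 W Z4 Z Z2 Z1) (g : G) :
    Hyp (MulAut.conj g • T) (MulAut.conj g • T1) (MulAut.conj g • T2) (MulAut.conj g • W)
      (MulAut.conj g • Z4) (MulAut.conj g • Z) (MulAut.conj g • Z2) (MulAut.conj g • Z1) :=
  h.map (MulAut.conj g).toMonoidHom (MulAut.conj g).injective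

variable (h : Hyp T T1 T2 W Z4 Z Z2 Z1)
include h

theorem commZ {a b : G} (ha : a ∈ Z) (hb : b ∈ Z) : a * b = b * a := h.cen b hb a (h.ZW ha)

theorem n1 {t z : G} (ht : t ∈ T) (hz : z ∈ Z1) : t * z * t⁻¹ ∈ Z1 := by
  rw [conj_of_mul_comm (h.c1 t ht z hz)]; exact hz
theorem n2 {t z : G} (ht : t ∈ T) (hz : z ∈ Z2) : t * z * t⁻¹ ∈ Z2 :=
  conj_mem_of_comm hz (h.Z1_le (h.c2 t ht z hz))
theorem n3 {t z : G} (ht : t ∈ T) (hz : z ∈ Z) : t * z * t⁻¹ ∈ Z :=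
  conj_mem_of_comm hz (h.Z2_le (h.c3 t ht z hz))
theorem n4 {t z : G} (ht : t ∈ T) (hz : z ∈ Z4) : t * z * t⁻¹ ∈ Z4 :=
  conj_mem_of_comm hz (h.Z_le (h.c4 t ht z hz))

theorem commW {t w : G} (ht : t ∈ T) (hw : w ∈ W) : ⁅t, w⁆ ∈ W := comm_mem_of_conj hw (h.nW t ht w hw)

theorem TNW [Finite G] : T ≤ normalizer (W : Set G) := fun t ht =>
  mem_normalizer_of_conj (fun w hw => h.nW t ht w hw)
theorem TNZ [Finite G] : T ≤ normalizer (Z : Set G) := fun _ ht =>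
  mem_normalizer_of_conj (fun _ hw => h.n3 ht hw)
theorem TNZ2 [Finite G] : T ≤ normalizer (Z2 : Set G) := fun _ ht =>
  mem_normalizer_of_conj (fun _ hw => h.n2 ht hw)
theorem TNZ1 [Finite G] : T ≤ normalizer (Z1 : Set G) := fun _ ht =>
  mem_normalizer_of_conj (fun _ hw => h.n1 ht hw)

theorem exists_z1 : ∃ z ∈ Z1, z ≠ 1 := by
  by_contra hcon
  push Not at hcon
  have : Z1 = ⊥ := by rw [eq_bot_iff]; intro z hz; exact mem_bot.2 (hcon z hz)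
  have h1 := h.cZ1
  rw [this, card_bot] at h1
  omega

theorem exists_z2 [Finite G] : ∃ z ∈ Z2, z ∉ Z1 := by
  by_contra hcon
  push Not at hcon
  have := Nat.le_of_dvd Nat.card_pos (card_dvd_of_le (show Z2 ≤ Z1 from hcon))
  have h1 := h.cZ1
  have h2 := h.cZ2
  omega

theorem exists_z3 [Finite G] : ∃ z ∈ Z, z ∉ Z2 := by
  by_contra hcon
  push Not at hcon
  have := Nat.le_of_dvd Nat.card_pos (card_dvd_of_le (show Z ≤ Z2 from hcon))
  have h1 := h.cZ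
  have h2 := h.cZ2
  omega

theorem eq_z1 [Finite G] {a b : G} (ha : a ∈ Z1) (ha' : a ≠ 1) (hb : b ∈ Z1) : b = 1 ∨ b = a := by
  have h1 := mem_or_mem (A := ⊥) (B := Z1) bot_le (by rw [h.cZ1, card_bot]) ha
    (by rwa [mem_bot]) hb
  rcases h1 with h1 | h1
  · exact Or.inl (mem_bot.1 h1)
  · right
    rw [mem_bot] at h1
    exact (inv_mul_eq_one.1 h1).symm

theorem mod2 [Finite G] {a b : G} (ha : a ∈ Z2) (ha' : a ∉ Z1) (hb : b ∈ Z2) : b ∈ Z1 ∨ a⁻¹ * b ∈ Z1 :=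
  mem_or_mem h.Z1_le (by rw [h.cZ1, h.cZ2]) ha ha' hb

theorem mod3 [Finite G] {a b : G} (ha : a ∈ Z) (ha' : a ∉ Z2) (hb : b ∈ Z) : b ∈ Z2 ∨ a⁻¹ * b ∈ Z2 :=
  mem_or_mem h.Z2_le (by rw [h.cZ2, h.cZ]) ha ha' hb

theorem comm_mul {t a b : G} (ht : t ∈ T) (ha : a ∈ Z) (hb : b ∈ Z) : ⁅t, a * b⁆ = ⁅t, a⁆ * ⁅t, b⁆ := by
  rw [commutatorElement_mul_right_eq_mul_conj, mul_assoc, mul_assoc,
    h.commZ ha (mul_mem (h.Z2_le (h.c3 t ht b hb)) (inv_mem ha)), mul_assoc, inv_mul_cancel, mul_one]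

theorem mem1 [Finite G] {t z : G} (ht : t ∈ T) (hz : z ∈ Z) (hz' : z ∉ Z2) : t ∈ T1 ↔ ⁅t, z⁆ ∈ Z1 := by
  rw [h.memT1]
  constructor
  · intro h1; exact h1.2 z hz
  · intro h1
    refine ⟨ht, fun y hy => ?_⟩
    rcases h.mod3 hz hz' hy with h2 | h2
    · exact h.c2 t ht y h2
    · have : y = z * (z⁻¹ * y) := by group
      rw [this, h.comm_mul ht hz (h.Z2_le h2)]
      exact mul_mem h1 (h.c2 t ht _ h2)

theorem mem2 [Finite G] {t z : G} (ht : t ∈ T) (hz : z ∈ Z2) (hz' : z ∉ Z1) : t ∈ T2 ↔ ⁅t, z⁆ = 1 := by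
  rw [h.memT2]
  constructor
  · intro h1; exact comm_eq_one (h1.2 z hz)
  · intro h1
    refine ⟨ht, fun y hy => ?_⟩
    apply mul_comm_of_comm
    rcases h.mod2 hz hz' hy with h2 | h2
    · exact comm_eq_one (h.c1 t ht y h2)
    · have : y = z * (z⁻¹ * y) := by group
      rw [this, h.comm_mul ht (h.Z2_le hz) (h.Z1Z h2), h1, one_mul]
      exact comm_eq_one (h.c1 t ht _ h2)

theorem comm_mem_W_iff {x y : G} (hx : x ∈ T) (hy : y ∈ T) :
    ⁅x, y⁆ ∈ W ↔ ∀ z ∈ Z, ⁅x, ⁅y, z⁆⁆ = ⁅y, ⁅x, z⁆⁆ := by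
  have h1 : ∀ z ∈ Z, (⁅x * y, z⁆ = ⁅y * x, z⁆ ↔ ⁅x, ⁅y, z⁆⁆ = ⁅y, ⁅x, z⁆⁆) := by
    intro z hz
    rw [comm_mul_left', comm_mul_left', mul_assoc, mul_assoc,
      h.commZ (h.Z2_le (h.c3 x hx z hz)) (h.Z2_le (h.c3 y hy z hz)), mul_left_inj]
  have h2 : ∀ z : G, (⁅x * y, z⁆ = ⁅y * x, z⁆ ↔
      ⁅x, y⁆ * ((y * x) * z * (y * x)⁻¹) = ((y * x) * z * (y * x)⁻¹) * ⁅x, y⁆) := by
    intro z
    have e1 : ⁅x, y⁆ * ((y * x) * z * (y * x)⁻¹) = (⁅x * y, z⁆ * z) * ⁅x, y⁆ := by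
      simp only [commutatorElement_def]; group
    have e2 : ((y * x) * z * (y * x)⁻¹) * ⁅x, y⁆ = (⁅y * x, z⁆ * z) * ⁅x, y⁆ := by
      simp only [commutatorElement_def]; group
    rw [e1, e2, mul_left_inj, mul_left_inj]
  constructor
  · intro hW z hz
    rw [← h1 z hz, h2]
    exact (h.cen _ (h.n3 (mul_mem hy hx) hz) _ hW)
  · intro hz
    apply h.memW _ (by rw [commutatorElement_def]; exact mul_mem (mul_mem (mul_mem hx hy) (inv_mem hx)) (inv_mem hy))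
    intro z hzZ
    have h3 := h.n3 (inv_mem (mul_mem hy hx)) hzZ
    have h4 := (h2 _).1 ((h1 _ h3).2 (hz _ h3))
    have h5 : (y * x) * ((y * x)⁻¹ * z * (y * x)⁻¹⁻¹) * (y * x)⁻¹ = z := by group
    rw [h5] at h4
    exact h4

theorem T1T {x : G} (hx : x ∈ T1) : x ∈ T := h.T1_le hx
theorem T2T {x : G} (hx : x ∈ T2) : x ∈ T := h.T2_le hx

theorem T1c {t z : G} (ht : t ∈ T1) (hz : z ∈ Z) : ⁅t, z⁆ ∈ Z1 := ((h.memT1 t).1 ht).2 z hz
theorem T2c {t z : G} (ht : t ∈ T2) (hz : z ∈ Z2) : ⁅t, z⁆ = 1 := comm_eq_one (((h.memT2 t).1 ht).2 z hz)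

theorem Z1c {t z : G} (ht : t ∈ T) (hz : z ∈ Z1) : ⁅t, z⁆ = 1 := comm_eq_one (h.c1 t ht z hz)

/-- F2 -/
theorem sqT1 {x : G} (hx : x ∈ T1) : x * x ∈ W := by
  apply h.memW _ (mul_mem (h.T1_le hx) (h.T1_le hx))
  intro z hz
  apply mul_comm_of_comm
  rw [comm_mul_left', h.Z1c (h.T1_le hx) (h.T1c hx hz), one_mul]
  exact h.sqZ _ (h.Z1Z (h.T1c hx hz))

theorem sqT2 {x : G} (hx : x ∈ T2) : x * x ∈ W := by
  apply h.memW _ (mul_mem (h.T2_le hx) (h.T2_le hx))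
  intro z hz
  apply mul_comm_of_comm
  rw [comm_mul_left', h.T2c hx (h.c3 x (h.T2_le hx) z hz), one_mul]
  exact h.sqZ _ (h.Z2_le (h.c3 x (h.T2_le hx) z hz))

theorem commT1 {x y : G} (hx : x ∈ T1) (hy : y ∈ T1) : ⁅x, y⁆ ∈ W := by
  rw [h.comm_mem_W_iff (h.T1_le hx) (h.T1_le hy)]
  intro z hz
  rw [h.Z1c (h.T1_le hx) (h.T1c hy hz), h.Z1c (h.T1_le hy) (h.T1c hx hz)]

theorem commT2 {x y : G} (hx : x ∈ T2) (hy : y ∈ T2) : ⁅x, y⁆ ∈ W := by
  rw [h.comm_mem_W_iff (h.T2_le hx) (h.T2_le hy)]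
  intro z hz
  rw [h.T2c hx (h.c3 y (h.T2_le hy) z hz), h.T2c hy (h.c3 x (h.T2_le hx) z hz)]

/-- F3 -/
theorem sq_not_mem [Finite G] {x : G} (hx : x ∈ T) (hx1 : x ∉ T1) (hx2 : x ∉ T2) : x * x ∉ W := by
  intro hcon
  obtain ⟨z3, hz3, hz3'⟩ := h.exists_z3
  have h1 := comm_eq_one (h.cen z3 hz3 _ hcon)
  have h3 := h.c3 x hx z3 hz3
  rw [comm_mul_left', mul_assoc, h.sqZ _ (h.Z2_le h3), mul_one] at h1
  rw [h.mem1 hx hz3 hz3'] at hx1
  exact hx2 ((h.mem2 hx h3 hx1).2 h1)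

/-- F4 -/
theorem mem_T1_of_comm [Finite G] {x y : G} (hx : x ∈ T1) (hx2 : x ∉ T2) (hy : y ∈ T) (hc : ⁅x, y⁆ ∈ W) :
    y ∈ T1 := by
  obtain ⟨z3, hz3, hz3'⟩ := h.exists_z3
  have h1 := (h.comm_mem_W_iff (h.T1_le hx) hy).1 hc z3 hz3
  rw [h.Z1c hy (h.T1c hx hz3)] at h1
  rw [h.mem1 hy hz3 hz3']
  by_contra hcon
  exact hx2 ((h.mem2 (h.T1_le hx) (h.c3 y hy z3 hz3) hcon).2 h1)

theorem mem_T2_of_comm [Finite G] {x y : G} (hx : x ∈ T2) (hx1 : x ∉ T1) (hy : y ∈ T) (hc : ⁅x, y⁆ ∈ W) :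
    y ∈ T2 := by
  obtain ⟨z3, hz3, hz3'⟩ := h.exists_z3
  have h1 := (h.comm_mem_W_iff (h.T2_le hx) hy).1 hc z3 hz3
  rw [h.T2c hx (h.c3 y hy z3 hz3)] at h1
  rw [h.mem1 (h.T2_le hx) hz3 hz3'] at hx1
  exact (h.mem2 hy (h.c3 x (h.T2_le hx) z3 hz3) hx1).2 h1.symm

/-- There is an element of `T1` outside `T2`. -/
theorem exists_T1 [Finite G] : ∃ t ∈ T1, t ∉ T2 := by
  obtain ⟨z2, hz2, hz2'⟩ := h.exists_z2
  obtain ⟨z3, hz3, hz3'⟩ := h.exists_z3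
  obtain ⟨z1, hz1, hz1'⟩ := h.exists_z1
  obtain ⟨t, ht, e1, e2⟩ := h.full z2 hz2 hz2' z3 hz3 hz3' z1 hz1 1 (one_mem _)
  refine ⟨t, ?_, ?_⟩
  · rw [h.mem1 ht hz3 hz3', e2]; exact one_mem _
  · rw [h.mem2 ht hz2 hz2', e1]; exact hz1'

theorem exists_T2 [Finite G] : ∃ t ∈ T2, t ∉ T1 := by
  obtain ⟨z2, hz2, hz2'⟩ := h.exists_z2
  obtain ⟨z3, hz3, hz3'⟩ := h.exists_z3
  obtain ⟨t, ht, e1, e2⟩ := h.full z2 hz2 hz2' z3 hz3 hz3' 1 (one_mem _) z2 hz2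
  refine ⟨t, ?_, ?_⟩
  · rw [h.mem2 ht hz2 hz2', e1]
  · rw [h.mem1 ht hz3 hz3', e2]; exact hz2'

/-- F5 -/
theorem cent_T1 [Finite G] {z : G} (hz : z ∈ Z) (hc : ∀ t ∈ T1, t * z = z * t) : z ∈ Z1 := by
  by_contra hcon
  obtain ⟨z2, hz2, hz2'⟩ := h.exists_z2
  obtain ⟨z1, hz1, hz1'⟩ := h.exists_z1
  by_cases hz2z : z ∈ Z2
  · obtain ⟨z3, hz3, hz3'⟩ := h.exists_z3
    obtain ⟨t, ht, e1, e2⟩ := h.full z hz2z hcon z3 hz3 hz3' z1 hz1 1 (one_mem _)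
    have h1 : t ∈ T1 := by rw [h.mem1 ht hz3 hz3', e2]; exact one_mem _
    rw [comm_eq_one (hc t h1)] at e1
    exact hz1' e1.symm
  · obtain ⟨t, ht, e1, e2⟩ := h.full z2 hz2 hz2' z hz hz2z 1 (one_mem _) z1 (h.Z1_le hz1)
    have h1 : t ∈ T1 := by rw [h.mem1 ht hz hz2z, e2]; exact hz1
    rw [comm_eq_one (hc t h1)] at e2
    exact hz1' e2.symm

/-- F6 -/
theorem exists_comm_T2 [Finite G] {z a : G} (hz : z ∈ Z) (hz' : z ∉ Z2) (ha : a ∈ Z2) :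
    ∃ t ∈ T2, ⁅t, z⁆ = a := by
  obtain ⟨z2, hz2, hz2'⟩ := h.exists_z2
  obtain ⟨t, ht, e1, e2⟩ := h.full z2 hz2 hz2' z hz hz' 1 (one_mem _) a ha
  exact ⟨t, (h.mem2 ht hz2 hz2').2 e1, e2⟩

theorem cent_T2 [Finite G] {z : G} (hz : z ∈ Z) (hc : ∀ t ∈ T2, t * z = z * t) : z ∈ Z2 := by
  by_contra hcon
  obtain ⟨z1, hz1, hz1'⟩ := h.exists_z1
  obtain ⟨t, ht, e⟩ := h.exists_comm_T2 hz hcon (h.Z1_le hz1)
  rw [comm_eq_one (hc t ht)] at e
  exact hz1' e.symm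

/-- An element `z2` and `t ∈ T1` with `⁅t, z2⁆ = z1`. -/
theorem exists_comm_T1 [Finite G] {z a : G} (hz : z ∈ Z2) (hz' : z ∉ Z1) (ha : a ∈ Z1) :
    ∃ t ∈ T1, ⁅t, z⁆ = a := by
  obtain ⟨z3, hz3, hz3'⟩ := h.exists_z3
  obtain ⟨t, ht, e1, e2⟩ := h.full z hz hz' z3 hz3 hz3' a ha 1 (one_mem _)
  exact ⟨t, (h.mem1 ht hz3 hz3').2 (by rw [e2]; exact one_mem _), e1⟩

theorem idx1 : Nat.card T = 2 * Nat.card T1 := by rw [h.cT, h.cT1]
theorem idx2 : Nat.card T = 2 * Nat.card T2 := by rw [h.cT, h.cT2]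

/-- Maximal subgroups of `T` over `W` with squares in `W`. -/
theorem eq_of_sq [Finite G] {P : Subgroup G} (hP : P ≤ T) (hc : Nat.card P = 8192)
    (hsq : ∀ x ∈ P, x * x ∈ W) : P = T1 ∨ P = T2 := by
  by_contra hcon
  push Not at hcon
  have h1 : ∃ x ∈ P, x ∉ T1 := by
    by_contra h2
    push Not at h2
    exact hcon.1 (eq_of_le_of_card_le h2 (by rw [h.cT1, hc]))
  have h2 : ∃ x ∈ P, x ∉ T2 := by
    by_contra h2
    push Not at h2
    exact hcon.2 (eq_of_le_of_card_le h2 (by rw [h.cT2, hc]))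
  obtain ⟨x, hx, hx1⟩ := h1
  obtain ⟨y, hy, hy2⟩ := h2
  by_cases hx2 : x ∈ T2
  · by_cases hy1 : y ∈ T1
    · refine h.sq_not_mem (mul_mem (hP hx) (hP hy)) ?_ ?_ (hsq _ (mul_mem hx hy))
      · intro h3; exact hx1 ((mul_mem_cancel_right hy1).1 h3)
      · intro h3; exact hy2 ((mul_mem_cancel_left hx2).1 h3)
    · exact h.sq_not_mem (hP hy) hy1 hy2 (hsq _ hy)
  · exact h.sq_not_mem (hP hx) hx1 hx2 (hsq _ hx)

/-- A maximal subgroup of `T` over `W` meeting `T1 ∖ T2` is `T1`. -/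
theorem eq_T1 [Finite G] {P : Subgroup G} (hP : P ≤ T) (hW : W ≤ P) (hc : Nat.card T = 2 * Nat.card P)
    {t : G} (ht : t ∈ T1) (ht2 : t ∉ T2) (htP : t ∈ P) : P = T1 := by
  by_contra hcon
  have hcP : Nat.card P = 8192 := by have := h.cT; omega
  have h1 : ∃ x ∈ P, x ∉ T1 := by
    by_contra h2
    push Not at h2
    exact hcon (eq_of_le_of_card_le h2 (by rw [h.cT1, hcP]))
  obtain ⟨y, hy, hy1⟩ := h1
  have h3 : ⁅t, y⁆ ∉ W := fun h4 => hy1 (h.mem_T1_of_comm ht ht2 (hP hy) h4)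
  have h5 : ⁅t, y⁆ ∈ T2 := comm_mem_index_two h.T2_le h.idx2 (h.T1_le ht) (hP hy)
  have h6 : ⁅t, y⁆ ∈ T1 := comm_mem_index_two h.T1_le h.idx1 (h.T1_le ht) (hP hy)
  have h7 : ⁅t, y⁆ ∈ P := by
    rw [commutatorElement_def]; exact mul_mem (mul_mem (mul_mem htP hy) (inv_mem htP)) (inv_mem hy)
  -- P ⊓ T1 has order 2^12
  have h8 : Nat.card (P ⊓ T1 : Subgroup G) = 2 * Nat.card W := by
    have h9 : P ⊓ T1 < P := by
      refine lt_of_le_of_ne inf_le_left ?_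
      intro heq; exact hy1 ((inf_eq_left.1 heq) hy)
    have h10 := card_lt_two h9
    have h11 := card_mul_le hP h.T1_le
    rw [hcP, h.cT1, h.cT] at h11
    rw [hcP] at h10
    rw [h.cW]
    omega
  have h12 : t ∉ W := fun h13 => ht2 (h.W_le2 h13)
  rcases mem_or_mem (le_inf hW h.W_le1) h8 (mem_inf.2 ⟨htP, ht⟩) h12 (mem_inf.2 ⟨h7, h6⟩) with h14 | h14
  · exact h3 h14
  · apply ht2
    have h15 := h.W_le2 h14
    have h16 := mul_mem h5 (inv_mem h15)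
    have e : ∀ a b : G, a * (b⁻¹ * a)⁻¹ = b := by intro a b; group
    rwa [e] at h16

/-- A maximal subgroup of `T` over `W` meeting `T2 ∖ T1` is `T2`. -/
theorem eq_T2 [Finite G] {P : Subgroup G} (hP : P ≤ T) (hW : W ≤ P) (hc : Nat.card T = 2 * Nat.card P)
    {t : G} (ht : t ∈ T2) (ht2 : t ∉ T1) (htP : t ∈ P) : P = T2 := by
  by_contra hcon
  have hcP : Nat.card P = 8192 := by have := h.cT; omega
  have h1 : ∃ x ∈ P, x ∉ T2 := by
    by_contra h2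
    push Not at h2
    exact hcon (eq_of_le_of_card_le h2 (by rw [h.cT2, hcP]))
  obtain ⟨y, hy, hy1⟩ := h1
  have h3 : ⁅t, y⁆ ∉ W := fun h4 => hy1 (h.mem_T2_of_comm ht ht2 (hP hy) h4)
  have h5 : ⁅t, y⁆ ∈ T1 := comm_mem_index_two h.T1_le h.idx1 (h.T2_le ht) (hP hy)
  have h6 : ⁅t, y⁆ ∈ T2 := comm_mem_index_two h.T2_le h.idx2 (h.T2_le ht) (hP hy)
  have h7 : ⁅t, y⁆ ∈ P := by
    rw [commutatorElement_def]; exact mul_mem (mul_mem (mul_mem htP hy) (inv_mem htP)) (inv_mem hy)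
  have h8 : Nat.card (P ⊓ T2 : Subgroup G) = 2 * Nat.card W := by
    have h9 : P ⊓ T2 < P := by
      refine lt_of_le_of_ne inf_le_left ?_
      intro heq; exact hy1 ((inf_eq_left.1 heq) hy)
    have h10 := card_lt_two h9
    have h11 := card_mul_le hP h.T2_le
    rw [hcP, h.cT2, h.cT] at h11
    rw [hcP] at h10
    rw [h.cW]
    omega
  have h12 : t ∉ W := fun h13 => ht2 (h.W_le1 h13)
  rcases mem_or_mem (le_inf hW h.W_le2) h8 (mem_inf.2 ⟨htP, ht⟩) h12 (mem_inf.2 ⟨h7, h6⟩) with h14 | h14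
  · exact h3 h14
  · apply ht2
    have h15 := h.W_le1 h14
    have h16 := mul_mem h5 (inv_mem h15)
    have e : ∀ a b : G, a * (b⁻¹ * a)⁻¹ = b := by intro a b; group
    rwa [e] at h16

/-- Weak closure of `W` in `T`. -/
theorem weak [Finite G] {g : G} (hg : MulAut.conj g • W ≤ T) : MulAut.conj g • W = W := by
  have h' := h.conj g
  set W' : Subgroup G := MulAut.conj g • W with hW'
  set Z' : Subgroup G := MulAut.conj g • Z with hZ'
  have cW' : Nat.card W' = 2048 := h'.cW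
  have h1 := card_mul_le h.WT hg
  rw [h.cW, cW', h.cT] at h1
  have h3 : Z' ≤ W ⊓ W' := h'.d _ inf_le_right (by rw [cW']; omega)
  -- W ⊔ W' has squares in ...: it is not T
  have hsq : ∀ x ∈ W' ⊔ W, x * x ∈ W := by
    intro x hx
    obtain ⟨a, ha, b, hb, rfl⟩ := (mem_sup_norm (hg.trans h.TNW)).1 hx
    have e : a * b * (a * b) = (a * b * a⁻¹) * (a * a) * b := by group
    rw [e]
    refine mul_mem (mul_mem (h.nW a (hg ha) b hb) (h3 (h'.sqW a ha)).1) hb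
  have h4 : W' ⊔ W < T := by
    refine lt_of_le_of_ne (sup_le hg h.WT) ?_
    intro heq
    -- T has an element whose square is not in W
    obtain ⟨a, ha, ha2⟩ := h.exists_T1
    obtain ⟨b, hb, hb1⟩ := h.exists_T2
    have hab : a * b ∈ T := mul_mem (h.T1_le ha) (h.T2_le hb)
    refine h.sq_not_mem hab ?_ ?_ (hsq _ (by rw [heq]; exact hab))
    · intro h5; exact hb1 ((mul_mem_cancel_left ha).1 h5)
    · intro h5; exact ha2 ((mul_mem_cancel_right hb).1 h5)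
  have h5 := card_lt_two h4
  rw [h.cT] at h5
  have h6 := card_sup_mul (hg.trans h.TNW)
  rw [cW', h.cW] at h6
  have h7 : 2048 ≤ 4 * Nat.card (W' ⊓ W : Subgroup G) := by
    by_contra hcon
    push Not at hcon
    have : Nat.card (W' ⊔ W : Subgroup G) ≤ 8192 := by omega
    nlinarith
  have h8 : Z ≤ Z' := by
    apply h.C (W' ⊓ W) inf_le_right (by rw [h.cW]; exact h7)
    intro x hx y hy
    exact h'.comW x hx.1 y hy.1
  have h9 : Z = Z' := eq_of_le_of_card_le h8 (by rw [h.cZ, h'.cZ])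
  apply eq_of_le_of_card_le
  · intro x hx
    apply h.memW x (hg hx)
    intro z hz
    exact h'.cen z (h8 hz) x hx
  · rw [h.cW, cW']

/-- `Z` is characteristic in `W`. -/
theorem conjZ_of_conjW [Finite G] {g : G} (hg : MulAut.conj g • W = W) : MulAut.conj g • Z = Z := by
  have h' := h.conj g
  symm
  apply eq_of_le_of_card_le
  · apply h.C W le_rfl (by omega)
    intro x hx y hy
    rw [← hg] at hx hy
    exact h'.comW x hx y hy
  · rw [h.cZ, h'.cZ]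

end Hyp

end Cfsg.Agent.H309.Ru
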