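import Mathlib.GroupTheory.GroupAction.Quotient
import Mathlib.GroupTheory.Index
import Mathlib.GroupTheory.IndexNormal
import Mathlib.Algebra.BigOperators.Finprod
import Mathlib.Data.Set.Card
import Mathlib.Tactic.Group

/-!
# S3204: transfer through a cocycle, orbit by orbit (helper309)

For `φ : M →* A` (`A` commutative) and `ω : G ⧸ M`, `kap φ g ω` is the cocycle of the transfer
and `VV φ O g = ∏ ω ∈ O, kap φ g ω`.
-/

set_option autoImplicit false

namespace Cfsg.Agent.H309.Ru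

open Subgroup

variable {G A : Type*} [Group G] [CommGroup A] {M : Subgroup G} (φ : M →* A)

theorem kap_aux (g : G) (ω : G ⧸ M) : (g • ω).out⁻¹ * (g * ω.out) ∈ M := by
  rw [← QuotientGroup.eq, QuotientGroup.out_eq', ← smul_eq_mul, MulAction.Quotient.coe_smul_out]

/-- The transfer cocycle. -/
noncomputable def kap (g : G) (ω : G ⧸ M) : A := φ ⟨(g • ω).out⁻¹ * (g * ω.out), kap_aux g ω⟩

theorem kap_mul (g h : G) (ω : G ⧸ M) : kap φ (g * h) ω = kap φ g (h • ω) * kap φ h ω := by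
  unfold kap
  rw [← map_mul]
  congr 1
  apply Subtype.ext
  show ((g * h) • ω).out⁻¹ * (g * h * ω.out) =
    ((g • h • ω).out⁻¹ * (g * (h • ω).out)) * ((h • ω).out⁻¹ * (h * ω.out))
  rw [mul_smul]
  group

theorem kap_one (ω : G ⧸ M) : kap φ 1 ω = 1 := by
  have := kap_mul φ 1 1 ω
  rw [mul_one, one_smul] at this
  exact (mul_eq_left.1 this.symm)

theorem smul_mk_eq_iff (g p : G) : p • (g : G ⧸ M) = (g : G ⧸ M) ↔ g⁻¹ * p * g ∈ M := by
  rw [← MulAction.Quotient.coe_smul_out]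
  show _
  rw [MulAction.Quotient.coe_smul_out]
  rw [eq_comm]
  show (QuotientGroup.mk g : G ⧸ M) = QuotientGroup.mk (p * g) ↔ _
  rw [QuotientGroup.eq, mul_assoc]

theorem kap_fix (g p : G) (hp : g⁻¹ * p * g ∈ M) : kap φ p (g : G ⧸ M) = φ ⟨g⁻¹ * p * g, hp⟩ := by
  have h1 : p • (g : G ⧸ M) = (g : G ⧸ M) := (smul_mk_eq_iff g p).2 hp
  obtain ⟨m, hm⟩ : ∃ m : M, ((g : G ⧸ M)).out = g * m := by
    refine ⟨⟨g⁻¹ * ((g : G ⧸ M)).out, ?_⟩, by simp⟩
    rw [← QuotientGroup.eq, QuotientGroup.out_eq']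
  have h2 : kap φ p (g : G ⧸ M) = φ (m⁻¹ * ⟨g⁻¹ * p * g, hp⟩ * m) := by
    unfold kap
    congr 1
    apply Subtype.ext
    show (p • (g : G ⧸ M)).out⁻¹ * (p * ((g : G ⧸ M)).out) = (m : G)⁻¹ * (g⁻¹ * p * g) * m
    rw [h1, hm]
    group
  rw [h2, map_mul, map_mul, map_inv, mul_comm (φ m)⁻¹, mul_assoc, inv_mul_cancel, mul_one]

/-- The product of the cocycle over a set. -/
noncomputable def VV (O : Set (G ⧸ M)) (g : G) : A := ∏ᶠ ω ∈ O, kap φ g ω

theorem VV_mul [Finite (G ⧸ M)] (O : Set (G ⧸ M)) (g h : G) (hO : (h • ·) '' O = O) :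
    VV φ O (g * h) = VV φ O g * VV φ O h := by
  unfold VV
  have h1 : ∏ᶠ ω ∈ O, kap φ (g * h) ω = ∏ᶠ ω ∈ O, (kap φ g (h • ω) * kap φ h ω) :=
    finprod_mem_congr rfl (fun ω _ => kap_mul φ g h ω)
  rw [h1, finprod_mem_mul_distrib (Set.toFinite O)]
  congr 1
  have h2 := finprod_mem_image (f := fun x => kap φ g x) (s := O) (g := fun x : G ⧸ M => h • x)
    (fun x _ y _ hxy => MulAction.injective h hxy)
  rw [← h2, hO]

theorem VV_one (O : Set (G ⧸ M)) : VV φ O 1 = 1 := by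
  unfold VV
  have h1 : ∏ᶠ ω ∈ O, kap φ 1 ω = ∏ᶠ ω ∈ O, (1 : A) :=
    finprod_mem_congr rfl (fun ω _ => kap_one φ ω)
  rw [h1]
  simp

/-- The orbit of `ω` under the subgroup `P`. -/
def orb (P : Subgroup G) (ω : G ⧸ M) : Set (G ⧸ M) := {x | ∃ p ∈ P, p • ω = x}

omit [CommGroup A] in
theorem orb_image {P : Subgroup G} {ω : G ⧸ M} {p : G} (hp : p ∈ P) : (p • ·) '' orb P ω = orb P ω := by
  ext x
  constructor
  · rintro ⟨_, ⟨q, hq, rfl⟩, rfl⟩
    exact ⟨p * q, mul_mem hp hq, by rw [mul_smul]⟩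
  · rintro ⟨q, hq, rfl⟩
    refine ⟨p⁻¹ • q • ω, ⟨p⁻¹ * q, mul_mem (inv_mem hp) hq, by rw [mul_smul]⟩, ?_⟩
    simp

theorem self_mem_orb (P : Subgroup G) (ω : G ⧸ M) : ω ∈ orb P ω := ⟨1, one_mem _, one_smul _ _⟩

theorem V_mul [Finite (G ⧸ M)] {P : Subgroup G} {ω : G ⧸ M} {p q : G} (hq : q ∈ P) :
    VV φ (orb P ω) (p * q) = VV φ (orb P ω) p * VV φ (orb P ω) q :=
  VV_mul φ _ p q (orb_image hq)

/-- Decomposition of an orbit along a subgroup of index 2 containing the stabilizer. -/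
theorem orb_step {P P' : Subgroup G} {ω : G ⧸ M} {s : G} (hP : P' ≤ P) (hs : s ∈ P) (hs' : s ∉ P')
    (hmod : ∀ p ∈ P, p ∈ P' ∨ s⁻¹ * p ∈ P')
    (hst : ∀ p ∈ P, p • ω = ω → p ∈ P') (hn : ∀ p ∈ P', s⁻¹ * p * s ∈ P') :
    orb P ω = orb P' ω ∪ (s • ·) '' orb P' ω ∧ Disjoint (orb P' ω) ((s • ·) '' orb P' ω) := by
  constructor
  · ext x
    constructor
    · rintro ⟨p, hp, rfl⟩
      rcases hmod p hp with h | h
      · exact Or.inl ⟨p, h, rfl⟩
      · right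
        refine ⟨(s⁻¹ * p) • ω, ⟨s⁻¹ * p, h, rfl⟩, ?_⟩
        show s • (s⁻¹ * p) • ω = p • ω
        rw [← mul_smul]; congr 1; group
    · rintro (⟨p, hp, rfl⟩ | ⟨_, ⟨p, hp, rfl⟩, rfl⟩)
      · exact ⟨p, hP hp, rfl⟩
      · exact ⟨s * p, mul_mem hs (hP hp), by rw [mul_smul]⟩
  · rw [Set.disjoint_left]
    rintro _ ⟨p, hp, rfl⟩ ⟨_, ⟨q, hq, rfl⟩, heq⟩
    have heq' : s • q • ω = p • ω := heq
    have h1 : (q⁻¹ * s⁻¹ * p) • ω = ω := by
      rw [mul_smul, mul_smul, ← heq']; simp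
    have h2 := hst _ (mul_mem (mul_mem (inv_mem (hP hq)) (inv_mem hs)) (hP hp)) h1
    have h3 : s⁻¹ ∈ P' := by
      have : s⁻¹ = q * (q⁻¹ * s⁻¹ * p) * p⁻¹ := by group
      rw [this]; exact mul_mem (mul_mem hq h2) (inv_mem hp)
    exact hs' (inv_mem_iff.1 h3)

/-- Index 2 step, element inside. -/
theorem V_step_mem [Finite (G ⧸ M)] {P P' : Subgroup G} {ω : G ⧸ M} {s p : G} (hP : P' ≤ P) (hs : s ∈ P)
    (hs' : s ∉ P') (hmod : ∀ p ∈ P, p ∈ P' ∨ s⁻¹ * p ∈ P')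
    (hst : ∀ p ∈ P, p • ω = ω → p ∈ P') (hn : ∀ p ∈ P', s⁻¹ * p * s ∈ P') (hp : p ∈ P') :
    VV φ (orb P ω) p = VV φ (orb P' ω) p * VV φ (orb P' ω) (s⁻¹ * p * s) := by
  obtain ⟨h1, h2⟩ := orb_step hP hs hs' hmod hst hn
  have h3 : VV φ (orb P ω) p = VV φ (orb P' ω) p * ∏ᶠ x ∈ (s • ·) '' orb P' ω, kap φ p x := by
    unfold VV
    rw [h1, finprod_mem_union h2 (Set.toFinite _) (Set.toFinite _)]
  rw [h3]
  congr 1
  have h4 := finprod_mem_image (f := fun x => kap φ p x) (s := orb P' ω) (g := fun x : G ⧸ M => s • x)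
    (fun x _ y _ hxy => MulAction.injective s hxy)
  rw [h4]
  have h5 : ∀ x : G ⧸ M, kap φ p (s • x) =
      (kap φ s ((s⁻¹ * p * s) • x) * kap φ (s⁻¹ * p * s) x) * (kap φ s x)⁻¹ := by
    intro x
    rw [← kap_mul, eq_mul_inv_iff_mul_eq, ← kap_mul]
    congr 1; group
  have h6 : ∏ᶠ x ∈ orb P' ω, kap φ p (s • x) =
      ∏ᶠ x ∈ orb P' ω, ((kap φ s ((s⁻¹ * p * s) • x) * kap φ (s⁻¹ * p * s) x) * (kap φ s x)⁻¹) :=
    finprod_mem_congr rfl (fun x _ => h5 x)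
  rw [h6, finprod_mem_mul_distrib (Set.toFinite _), finprod_mem_mul_distrib (Set.toFinite _)]
  have h7 := finprod_mem_image (f := fun x => kap φ s x) (s := orb P' ω)
    (g := fun x : G ⧸ M => (s⁻¹ * p * s) • x)
    (fun x _ y _ hxy => MulAction.injective _ hxy)
  rw [orb_image (hn p hp)] at h7
  rw [← h7, finprod_mem_inv_distrib _ (Set.toFinite _), mul_comm (∏ᶠ x ∈ orb P' ω, kap φ s x), mul_assoc,
    mul_inv_cancel, mul_one]
  rfl

/-- Index 2 step, element outside. -/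
theorem V_step_not [Finite (G ⧸ M)] {P P' : Subgroup G} {ω : G ⧸ M} {p : G} (hP : P' ≤ P) (hp : p ∈ P)
    (hp' : p ∉ P') (hmod : ∀ q ∈ P, q ∈ P' ∨ p⁻¹ * q ∈ P')
    (hst : ∀ q ∈ P, q • ω = ω → q ∈ P') (hn : ∀ q ∈ P', p⁻¹ * q * p ∈ P') :
    VV φ (orb P ω) p = VV φ (orb P' ω) (p * p) := by
  obtain ⟨h1, h2⟩ := orb_step hP hp hp' hmod hst hn
  have h3 : VV φ (orb P ω) p = VV φ (orb P' ω) p * ∏ᶠ x ∈ (p • ·) '' orb P' ω, kap φ p x := by
    unfold VV
    rw [h1, finprod_mem_union h2 (Set.toFinite _) (Set.toFinite _)]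
  rw [h3]
  have h4 := finprod_mem_image (f := fun x => kap φ p x) (s := orb P' ω) (g := fun x : G ⧸ M => p • x)
    (fun x _ y _ hxy => MulAction.injective p hxy)
  rw [h4]
  unfold VV
  rw [← finprod_mem_mul_distrib (Set.toFinite _)]
  apply finprod_mem_congr rfl
  intro x _
  rw [mul_comm, ← kap_mul]

theorem V_fixed {P : Subgroup G} {ω : G ⧸ M} (hfix : ∀ p ∈ P, p • ω = ω) (p : G) :
    VV φ (orb P ω) p = kap φ p ω := by
  have : orb P ω = {ω} := by
    ext x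
    constructor
    · rintro ⟨q, hq, rfl⟩
      exact hfix q hq
    · rintro rfl
      exact self_mem_orb P _
  unfold VV
  rw [this, finprod_mem_singleton]

/-- The transfer homomorphism. -/
noncomputable def trans [Finite (G ⧸ M)] : G →* A where
  toFun := VV φ Set.univ
  map_one' := VV_one φ _
  map_mul' := fun g h => VV_mul φ _ g h (by
    ext x
    constructor
    · intro _; trivial
    · intro _
      exact ⟨h⁻¹ • x, trivial, by simp⟩)

/-- If the contributions of all orbits in an invariant set are trivial, then so is the product. -/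
theorem VV_eq_one_of_orb [Finite (G ⧸ M)] (T : Subgroup G) (t : G) :
    ∀ (n : ℕ) (O : Set (G ⧸ M)), O.ncard = n → (∀ p ∈ T, ∀ x ∈ O, p • x ∈ O) →
      (∀ ω ∈ O, VV φ (orb T ω) t = 1) → VV φ O t = 1 := by
  intro n
  induction n using Nat.strong_induction_on with
  | _ n ih =>
    intro O hn hO h1
    rcases Set.eq_empty_or_nonempty O with rfl | ⟨ω, hω⟩
    · unfold VV; simp
    · have hsub : orb T ω ⊆ O := by
        rintro _ ⟨p, hp, rfl⟩
        exact hO p hp ω hω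
      have hO' : O = orb T ω ∪ (O \ orb T ω) := by rw [Set.union_sdiff_cancel hsub]
      have h2 : VV φ O t = VV φ (orb T ω) t * VV φ (O \ orb T ω) t := by
        unfold VV
        conv_lhs => rw [hO']
        rw [finprod_mem_union Set.disjoint_sdiff_right (Set.toFinite _) (Set.toFinite _)]
      rw [h2, h1 ω hω, one_mul]
      apply ih (O \ orb T ω).ncard _ _ rfl
      · rintro p hp x ⟨hx, hxo⟩
        refine ⟨hO p hp x hx, ?_⟩
        rintro ⟨q, hq, hqx⟩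
        apply hxo
        refine ⟨p⁻¹ * q, mul_mem (inv_mem hp) hq, ?_⟩
        rw [mul_smul, hqx]; simp
      · intro x hx
        exact h1 x hx.1
      · rw [← hn]
        apply Set.ncard_lt_ncard _ (Set.toFinite _)
        rw [Set.ssubset_iff_subset_ne]
        refine ⟨Set.sdiff_subset, ?_⟩
        intro heq
        have : ω ∈ O \ orb T ω := by rw [heq]; exact hω
        exact this.2 (self_mem_orb T ω)

end Cfsg.Agent.H309.Ru
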