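import Cfsg.Agent.H309.Ru.ActW
import Cfsg.Agent.S0087
import Cfsg.Agent.Transfer.TateComplement

/-!
# S3204: `C(Z)` has a normal 2-complement (helper309)
-/

set_option autoImplicit false

namespace Cfsg.Agent.H309.Ru

open Subgroup Pointwise
open scoped commutatorElement

variable {G : Type*} [Group G] [Finite G] {T T1 T2 W Z4 Z Z2 Z1 : Subgroup G}

theorem exists_compl (h : Hyp T T1 T2 W Z4 Z Z2 Z1) (S : Sylow 2 G) (hS : (S : Subgroup G) = T)
    (hidx : ∀ H : Subgroup G, H.index ≠ 2) :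
    ∃ R : Subgroup G, R ≤ centralizer (Z : Set G) ∧ (Nat.card R).Coprime 2 ∧
      (∀ m ∈ normalizer (Z : Set G), ∀ r ∈ R, m * r * m⁻¹ ∈ R) ∧
      ∀ c ∈ centralizer (Z : Set G), ∃ r ∈ R, ∃ w ∈ W, c = r * w := by
  classical
  have : Fact (Nat.Prime 2) := ⟨Nat.prime_two⟩
  set C : Subgroup G := centralizer (Z : Set G) with hC
  have hZC : Z ≤ C := h.ZW.trans (WC h)
  have hWC : W ≤ C := WC h
  have hZc : ∀ c ∈ C, ∀ z ∈ Z, c * z = z * c := fun c hc z hz => (mem_centralizer_iff.1 hc z hz).symm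
  have hZn : (Z.subgroupOf C).Normal := by
    constructor
    intro n hn c
    rw [mem_subgroupOf] at hn ⊢
    show (c : G) * n * (c : G)⁻¹ ∈ Z
    rw [hZc c c.2 _ hn, mul_inv_cancel_right]; exact hn
  have hNT := NC_triv h S hS hidx
  -- the Sylow subgroup of C
  obtain ⟨k, hk, hk2⟩ := exists_card_eq S C (by rw [hS]; exact h.TNZ.trans NNC)
  have hSC : (S : Subgroup G) ⊓ C = W := by rw [hS]; exact cent_inf h
  rw [hSC] at hk
  have hcWC : Nat.card (W.subgroupOf C) = 2048 := by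
    rw [Nat.card_congr (subgroupOfEquivOfLe hWC).toEquiv, h.cW]
  have hidxW : (W.subgroupOf C).index = k := by
    have h1 := (W.subgroupOf C).card_mul_index
    rw [hcWC, hk, h.cW] at h1
    omega
  let P : Sylow 2 C := (h.pW.of_equiv (subgroupOfEquivOfLe hWC).symm :
    IsPGroup 2 (W.subgroupOf C)).toSylow (by rw [hidxW]; exact hk2)
  have hP : (P : Subgroup C) = W.subgroupOf C := rfl
  let π := QuotientGroup.mk' (Z.subgroupOf C)
  have hπ : Function.Surjective π := QuotientGroup.mk'_surjective _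
  have hπ1 : ∀ x : C, π x = 1 ↔ (x : G) ∈ Z := by
    intro x
    show (QuotientGroup.mk x : C ⧸ Z.subgroupOf C) = 1 ↔ _
    rw [QuotientGroup.eq_one_iff, mem_subgroupOf]
  set Wb : Subgroup (C ⧸ Z.subgroupOf C) := (W.subgroupOf C).map π with hWb
  have hcomapW : Wb.comap π = W.subgroupOf C := by
    rw [hWb, comap_map_eq_self]
    rw [QuotientGroup.ker_mk']
    intro x hx
    exact h.ZW hx
  have hidxWb : Wb.index = k := by
    rw [← hidxW, ← hcomapW, index_comap_of_surjective _ hπ]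
  have hWb2 : IsPGroup 2 Wb := P.2.map π
  obtain ⟨n, hn⟩ := IsPGroup.iff_card.1 hWb2
  obtain ⟨N0, hN0n, hN0c⟩ := Cfsg.Agent.S0087.result Wb (by
      rw [hn, hidxWb]
      exact Nat.Coprime.pow_left _ ((Nat.Prime.coprime_iff_not_dvd Nat.prime_two).2 hk2)) (by
    intro x hx
    obtain ⟨c, rfl⟩ := hπ x
    have hcN : (c : G) ∈ normalizer (W : Set G) := by
      apply mem_normalizer_of_conj
      intro w hw
      have h1 : π ⟨w, hWC hw⟩ ∈ Wb := ⟨⟨w, hWC hw⟩, hw, rfl⟩
      have h2 := (mem_normalizer_iff.1 hx _).1 h1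
      have h3 : c * ⟨w, hWC hw⟩ * c⁻¹ ∈ Wb.comap π := by
        rw [mem_comap]; simpa using h2
      rw [hcomapW] at h3
      exact h3
    rw [mem_centralizer_iff]
    rintro _ ⟨w, hw, rfl⟩
    have h1 := hNT c hcN c.2 w hw
    have h2 : π ⁅c, w⁆ = 1 := (hπ1 _).2 h1
    rw [map_commutatorElement, commutatorElement_eq_one_iff_mul_comm] at h2
    exact h2.symm)
  -- the preimage
  have hK1n : (N0.comap π).Normal := hN0n.comap π
  have hsup : N0.comap π ⊔ (P : Subgroup C) = ⊤ := by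
    rw [eq_top_iff]
    intro x _
    have h1 : π x ∈ (N0 : Set (C ⧸ Z.subgroupOf C)) * (Wb : Set (C ⧸ Z.subgroupOf C)) := by
      rw [hN0c.mul_eq]; trivial
    obtain ⟨a, ha, b, hb, hab⟩ := h1
    obtain ⟨w, hw, rfl⟩ := hb
    have h2 : x * w⁻¹ ∈ N0.comap π := by
      rw [mem_comap, map_mul, map_inv, ← hab]
      simpa using ha
    have e : x = (x * w⁻¹) * w := by group
    rw [e]
    exact mul_mem (mem_sup_left h2) (mem_sup_right hw)
  obtain ⟨K, hKn, hKle, hKc⟩ := Cfsg.Agent.Transfer.TateComplement.exists_normal_complement P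
    (N0.comap π) hsup (by
      intro δ x hx
      -- x ∈ Z
      have hxZ : ((x : C) : G) ∈ Z := by
        rw [← hπ1]
        have h1 : π (x : C) ∈ N0 ⊓ Wb := ⟨hx, ⟨x, x.2, rfl⟩⟩
        rw [hN0c.disjoint.eq_bot] at h1
        exact mem_bot.1 h1
      -- the kernel of δ
      let D : Subgroup G := (δ.ker.map (P : Subgroup C).subtype).map C.subtype
      have h1 : Z ≤ D := by
        apply h.C W le_rfl (by omega)
        intro a ha b hb
        refine ⟨⁅(⟨a, hWC ha⟩ : C), ⟨b, hWC hb⟩⁆, ⟨⁅(⟨⟨a, hWC ha⟩, ha⟩ : P), ⟨⟨b, hWC hb⟩, hb⟩⁆, ?_, rfl⟩, rfl⟩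
        rw [SetLike.mem_coe, MonoidHom.mem_ker, map_commutatorElement]
        exact comm_eq_one (mul_comm _ _)
      obtain ⟨_, ⟨y, hy, rfl⟩, hyx⟩ := h1 hxZ
      have h2 : y = x := Subtype.ext (Subtype.ext hyx)
      rw [← h2]; exact hy)
  -- orders
  have hcP : Nat.card P = 2048 := by rw [← hcWC]; rfl
  have hcK : Nat.card K = k := by
    have h1 := hKc.card_mul_card
    rw [hcP, hk, h.cW, mul_comm] at h1
    exact Nat.eq_of_mul_eq_mul_left (by norm_num) h1
  have hKidx : K.index = 2048 := by rw [hKc.symm.index_eq_card, hcP]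
  have hmem : ∀ x : C, (orderOf x).Coprime 2 → x ∈ K := by
    intro x hx
    rw [← QuotientGroup.eq_one_iff, ← orderOf_eq_one_iff]
    have h1 : orderOf (QuotientGroup.mk x : C ⧸ K) ∣ orderOf x := orderOf_map_dvd (QuotientGroup.mk' K) x
    have h2 : orderOf (QuotientGroup.mk x : C ⧸ K) ∣ 2 ^ 11 := by
      have h3 : Nat.card (C ⧸ K) = 2 ^ 11 := by
        have h4 : K.index = Nat.card (C ⧸ K) := rfl
        rw [← h4, hKidx]; norm_num
      rw [← h3]; exact orderOf_dvd_natCard _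
    have h3 : (orderOf x).Coprime (2 ^ 11) := Nat.Coprime.pow_right _ hx
    exact Nat.eq_one_of_dvd_coprimes h3 h1 h2
  refine ⟨K.map C.subtype, map_subtype_le K, ?_, ?_, ?_⟩
  · rw [card_map_of_injective C.subtype_injective, hcK]
    exact ((Nat.Prime.coprime_iff_not_dvd Nat.prime_two).2 hk2).symm
  · rintro m hm _ ⟨x, hx, rfl⟩
    have h1 : m * (x : G) * m⁻¹ ∈ C := normalizer_le_cent m hm x x.2
    refine ⟨⟨m * (x : G) * m⁻¹, h1⟩, hmem _ ?_, rfl⟩
    have h2 : orderOf (⟨m * (x : G) * m⁻¹, h1⟩ : C) = orderOf (m * (x : G) * m⁻¹) := by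
      rw [← Subgroup.orderOf_coe]
    have h3 : orderOf (m * (x : G) * m⁻¹) = orderOf (x : G) := by
      have := MulEquiv.orderOf_eq (MulAut.conj m) (x : G)
      rwa [MulAut.conj_apply] at this
    rw [h2, h3, Subgroup.orderOf_coe]
    have h4 : orderOf x ∣ Nat.card K := by
      have h5 : orderOf (⟨x, hx⟩ : K) = orderOf x := by rw [← Subgroup.orderOf_coe]
      rw [← h5]; exact orderOf_dvd_natCard _
    rw [hcK] at h4
    exact Nat.Coprime.coprime_dvd_left h4 ((Nat.Prime.coprime_iff_not_dvd Nat.prime_two).2 hk2).symm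
  · intro c hc
    have h1 : (⟨c, hc⟩ : C) ∈ (K : Set C) * ((P : Subgroup C) : Set C) := by
      rw [hKc.mul_eq]; trivial
    obtain ⟨a, ha, b, hb, hab⟩ := h1
    exact ⟨a, ⟨a, ha, rfl⟩, b, hb, (congrArg Subtype.val hab).symm⟩

end Cfsg.Agent.H309.Ru
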