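import Cfsg.Agent.H309.Ru.Pair

/-!
# S3204: the counting argument on `W / Z` (helper309)
-/

set_option autoImplicit false

namespace Cfsg.Agent.H309.Ru

open Subgroup Pointwise
open scoped commutatorElement

variable {G : Type*} [Group G]

/-- Elements of `K` on which `S` acts trivially modulo `N`. -/
def modC (K : Subgroup G) (S : Set G) (N : Subgroup G) (hn : ∀ k ∈ K, ∀ n ∈ N, k * n * k⁻¹ ∈ N) :
    Subgroup G where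
  carrier := {x | x ∈ K ∧ ∀ t ∈ S, ⁅t, x⁆ ∈ N}
  one_mem' := ⟨one_mem _, fun t _ => by rw [commutatorElement_one_right]; exact one_mem _⟩
  mul_mem' := by
    rintro x y ⟨hx, hx'⟩ ⟨hy, hy'⟩
    refine ⟨mul_mem hx hy, fun t ht => ?_⟩
    have e : ⁅t, x * y⁆ = ⁅t, x⁆ * (x * ⁅t, y⁆ * x⁻¹) := by simp only [commutatorElement_def]; group
    rw [e]
    exact mul_mem (hx' t ht) (hn x hx _ (hy' t ht))
  inv_mem' := by
    rintro x ⟨hx, hx'⟩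
    refine ⟨inv_mem hx, fun t ht => ?_⟩
    have e : ⁅t, x⁻¹⁆ = x⁻¹ * ⁅t, x⁆⁻¹ * x⁻¹⁻¹ := by simp only [commutatorElement_def]; group
    rw [e]
    exact hn _ (inv_mem hx) _ (inv_mem (hx' t ht))

theorem mem_modC {K : Subgroup G} {S : Set G} {N : Subgroup G} {hn : ∀ k ∈ K, ∀ n ∈ N, k * n * k⁻¹ ∈ N}
    {x : G} : x ∈ modC K S N hn ↔ x ∈ K ∧ ∀ t ∈ S, ⁅t, x⁆ ∈ N := Iff.rfl

theorem modC_conj {K : Subgroup G} {S : Set G} {N : Subgroup G} {hn : ∀ k ∈ K, ∀ n ∈ N, k * n * k⁻¹ ∈ N}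
    {g : G} (hK : ∀ k ∈ K, g * k * g⁻¹ ∈ K) (hS : ∀ t ∈ S, g⁻¹ * t * g ∈ S)
    (hN : ∀ n ∈ N, g * n * g⁻¹ ∈ N) {x : G} (hx : x ∈ modC K S N hn) : g * x * g⁻¹ ∈ modC K S N hn := by
  refine ⟨hK x hx.1, fun t ht => ?_⟩
  have e : ⁅t, g * x * g⁻¹⁆ = g * ⁅g⁻¹ * t * g, x⁆ * g⁻¹ := by simp only [commutatorElement_def]; group
  rw [e]
  exact hN _ (hx.2 _ (hS t ht))

/-- Elements of `S` acting trivially on `x` modulo `N`. -/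
def centMod (S N : Subgroup G) (hn : ∀ s ∈ S, ∀ n ∈ N, s * n * s⁻¹ ∈ N) (x : G) : Subgroup G where
  carrier := {t | t ∈ S ∧ ⁅t, x⁆ ∈ N}
  one_mem' := ⟨one_mem _, by rw [commutatorElement_one_left]; exact one_mem _⟩
  mul_mem' := by
    rintro s t ⟨hs, hs'⟩ ⟨ht, ht'⟩
    refine ⟨mul_mem hs ht, ?_⟩
    have e : ⁅s * t, x⁆ = (s * ⁅t, x⁆ * s⁻¹) * ⁅s, x⁆ := by simp only [commutatorElement_def]; group
    rw [e]
    exact mul_mem (hn s hs _ ht') hs'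
  inv_mem' := by
    rintro s ⟨hs, hs'⟩
    refine ⟨inv_mem hs, ?_⟩
    have e : ⁅s⁻¹, x⁆ = s⁻¹ * ⁅s, x⁆⁻¹ * s⁻¹⁻¹ := by simp only [commutatorElement_def]; group
    rw [e]
    exact hn _ (inv_mem hs) _ (inv_mem hs')

theorem mem_centMod {S N : Subgroup G} {hn : ∀ s ∈ S, ∀ n ∈ N, s * n * s⁻¹ ∈ N} {x t : G} :
    t ∈ centMod S N hn x ↔ t ∈ S ∧ ⁅t, x⁆ ∈ N := Iff.rfl

theorem le_of_index_two [Finite G] {A B K : Subgroup G} (hAB : A ≤ B) (hc : Nat.card B = 2 * Nat.card A)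
    {s : G} (hs : s ∈ B) (hsA : s ∉ A) (hAK : A ≤ K) (hsK : s ∈ K) : B ≤ K := by
  intro y hy
  rcases mem_or_mem hAB hc hs hsA hy with h | h
  · exact hAK h
  · have := mul_mem hsK (hAK h)
    rwa [mul_inv_cancel_left] at this

namespace Hyp

variable {T T1 T2 W Z4 Z Z2 Z1 : Subgroup G} (h : Hyp T T1 T2 W Z4 Z Z2 Z1)
include h

theorem comm_sq {a w : G} (ha : a ∈ T1) (hw : w ∈ W) : ⁅a, ⁅a, w⁆⁆ ∈ Z := by
  have h1 := comm_mul_left' a a w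
  have h2 : ⁅a * a, w⁆ ∈ Z := h.comW _ (h.sqT1 ha) _ hw
  have h3 := h.commW (h.T1_le ha) hw
  have h4 := h.sqW _ h3
  rw [mul_assoc] at h1
  rw [h1] at h2
  exact (mul_mem_cancel_right h4).1 h2

theorem comm_swap {a b w : G} (ha : a ∈ T1) (hb : b ∈ T1) (hw : w ∈ W) (hab : ⁅a, ⁅b, w⁆⁆ ∈ Z) :
    ⁅b, ⁅a, w⁆⁆ ∈ Z := by
  have haT := h.T1_le ha
  have hbT := h.T1_le hb
  have hx := h.commW hbT hw
  have hy := h.commW haT hw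
  have hc := h.commT1 ha hb
  have hba : ⁅b * a, w⁆ ∈ W := h.commW (mul_mem hbT haT) hw
  have e1 := comm_mul_left' a b w
  have e2 := comm_mul_left' b a w
  have e3 := comm_mul_left' ⁅a, b⁆ (b * a) w
  have e4 : ⁅a, b⁆ * (b * a) = a * b := by simp only [commutatorElement_def]; group
  rw [e4] at e3
  have hz1 : ⁅⁅a, b⁆, ⁅b * a, w⁆⁆ ∈ Z := h.comW _ hc _ hba
  have hz2 : ⁅⁅a, b⁆, w⁆ ∈ Z := h.comW _ hc _ hw
  -- ⁅b*a, w⁆ = z1⁻¹ ⁅a*b,w⁆ z2⁻¹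
  have e5 : ⁅b * a, w⁆ = ⁅⁅a, b⁆, ⁅b * a, w⁆⁆⁻¹ * ⁅a * b, w⁆ * ⁅⁅a, b⁆, w⁆⁻¹ := by
    rw [e3]
    simp only [mul_assoc, inv_mul_cancel_left, mul_inv_cancel, mul_one]
  set z1 := ⁅⁅a, b⁆, ⁅b * a, w⁆⁆ with hz1d
  set z2 := ⁅⁅a, b⁆, w⁆ with hz2d
  have e6 : ⁅b, ⁅a, w⁆⁆ = ⁅b * a, w⁆ * ⁅b, w⁆⁻¹ * ⁅a, w⁆⁻¹ := by
    rw [e2]
    simp only [mul_assoc, mul_inv_cancel, mul_one, mul_inv_cancel_left]
  rw [e5, e1] at e6
  have e7 : z1⁻¹ * (⁅a, ⁅b, w⁆⁆ * ⁅b, w⁆ * ⁅a, w⁆) * z2⁻¹ * ⁅b, w⁆⁻¹ * ⁅a, w⁆⁻¹ =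
      z1⁻¹ * ⁅a, ⁅b, w⁆⁆ * ((⁅b, w⁆ * ⁅a, w⁆) * z2⁻¹ * (⁅b, w⁆ * ⁅a, w⁆)⁻¹) * ⁅⁅b, w⁆, ⁅a, w⁆⁆ := by
    rw [commutatorElement_def ⁅b, w⁆ ⁅a, w⁆]; group
  rw [e6, e7]
  refine mul_mem (mul_mem (mul_mem (inv_mem hz1) hab) ?_) (h.comW _ hx _ hy)
  exact h.n3 (h.WT (mul_mem hx hy)) (inv_mem hz2)

end Hyp

namespace Pair0

variable [Finite G] {T T1 T2 W Z4 Z Z2 Z1 T' T1' T2' W' Z4' Z' Z2' Z1' W1 : Subgroup G}
  (p : Pair0 T T1 T2 W Z4 Z Z2 Z1 T' T1' T2' W' Z4' Z' Z2' Z1' W1)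
include p

theorem Z'NZ : Z' ≤ normalizer (Z : Set G) := p.Z'W.trans p.h.WNZ

theorem cA (hinf : Z ⊓ Z' = Z1) : Nat.card (Z' ⊔ Z : Subgroup G) = 32 := by
  have h1 := card_sup_mul p.Z'NZ
  rw [p.h'.cZ, p.h.cZ, inf_comm, hinf, p.h.cZ1] at h1
  omega

theorem A_le : (Z' ⊔ Z : Subgroup G) ≤ W := sup_le p.Z'W p.h.ZW

theorem cD (hD : (T ⊓ W') ⊔ W = T1) : Nat.card (T ⊓ W' : Subgroup G) = 1024 := by
  have h1 := card_sup_mul (A := T ⊓ W') (B := W) (inf_le_left.trans p.h.TNW)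
  have h2 : (T ⊓ W' ⊓ W : Subgroup G) = W ⊓ W' := by
    apply le_antisymm
    · exact le_inf inf_le_right (inf_le_left.trans inf_le_right)
    · exact le_inf (le_inf (inf_le_left.trans p.h.WT) inf_le_right) inf_le_left
  rw [hD, h2, p.h.cT1, p.cU, p.h.cW] at h1
  omega

/-- `A = Z Z'` is the set of elements of `W` on which `T1` acts trivially modulo `Z`. -/
theorem mem_A (hD : (T ⊓ W') ⊔ W = T1) (hinf : Z ⊓ Z' = Z1) {x : G} :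
    x ∈ Z' ⊔ Z ↔ x ∈ W ∧ ∀ t ∈ T1, ⁅t, x⁆ ∈ Z := by
  have hn : ∀ k ∈ W, ∀ n ∈ Z, k * n * k⁻¹ ∈ Z := fun k hk n hn => p.h.n3 (p.h.WT hk) hn
  have hle : Z' ⊔ Z ≤ modC W (T1 : Set G) Z hn := by
    apply sup_le
    · intro x hx
      refine ⟨p.Z'W hx, fun t ht => ?_⟩
      rw [SetLike.mem_coe, ← hD] at ht
      obtain ⟨d, hd, w, hw, rfl⟩ := (mem_sup_norm (inf_le_left.trans p.h.TNW)).1 ht
      rw [comm_mul_left', p.h'.cenc hx hd.2, mul_one]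
      have h1 : ⁅w, x⁆ ∈ Z := p.h.comW _ hw _ (p.Z'W hx)
      exact mul_mem (comm_mem_of_conj h1 (p.h.n3 hd.1 h1)) h1
    · intro x hx
      refine ⟨p.h.ZW hx, fun t ht => p.h.Z1Z (p.h.T1c ht hx)⟩
  have hB : Nat.card (modC W (T1 : Set G) Z hn) ≤ 32 := by
    apply p.h.b1
    · intro x hx; exact hx.1
    · exact le_sup_right.trans hle
    · intro t ht a ha
      exact ha.2 t ht
    · intro t ht a ha
      apply modC_conj (fun k hk => p.h.nW t ht k hk) _ (fun n hn => p.h.n3 ht hn) ha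
      intro y hy
      exact conj_index_two p.h.T1_le p.h.idx1 ht hy
  have heq : Z' ⊔ Z = modC W (T1 : Set G) Z hn := by
    apply eq_of_le_of_card_le hle
    rw [p.cA hinf]; exact hB
  rw [heq, mem_modC]
  rfl

/-- There is an element `d` of `D` outside `U` with `⁅d, s⁆ ∈ U`. -/
theorem exists_d (hD : (T ⊓ W') ⊔ W = T1) (hinf : Z ⊓ Z' = Z1) {s : G} (hs : s ∈ W) :
    ∃ d ∈ T ⊓ W', d ∉ W ∧ ⁅d, s⁆ ∈ W ⊓ W' := by
  have hcD := p.cD hD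
  have hUD : (W ⊓ W' : Subgroup G) ≤ T ⊓ W' := inf_le_inf_right _ p.h.WT
  obtain ⟨a, ha, b, hb, haU, hbU, habU⟩ := exists_gen4 (n := 10) (by rw [hcD]; norm_num) hUD
    (by rw [hcD, p.cU])
  have hDT1 : (T ⊓ W' : Subgroup G) ≤ T1 := by rw [← hD]; exact le_sup_left
  have hnW : ∀ d ∈ T ⊓ W', d ∉ W ⊓ W' → d ∉ W := fun d hd hd' hdW => hd' ⟨hdW, hd.2⟩
  have haT1 := hDT1 ha
  have hbT1 := hDT1 hb
  have haT := p.h.T1_le haT1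
  have hbT := p.h.T1_le hbT1
  have hn : ∀ k ∈ T, ∀ n ∈ Z, k * n * k⁻¹ ∈ Z := fun k hk n hn => p.h.n3 hk hn
  have habD : a⁻¹ * b ∈ T ⊓ W' := mul_mem (inv_mem ha) hb
  -- membership in A
  have hA : ∀ w ∈ W, ⁅a, w⁆ ∈ Z → ⁅b, w⁆ ∈ Z → w ∈ Z' ⊔ Z := by
    intro w hw h1 h2
    rw [p.mem_A hD hinf]
    refine ⟨hw, fun t ht => ?_⟩
    have h3 : T1 ≤ centMod T Z hn w := by
      apply gen4 p.h.W_le1 (by rw [p.h.cT1, p.h.cW]) haT1 hbT1 (hnW a ha haU) (hnW b hb hbU)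
        (hnW _ habD habU)
      · intro w' hw'
        exact ⟨p.h.WT hw', p.h.comW _ hw' _ hw⟩
      · exact ⟨haT, h1⟩
      · exact ⟨hbT, h2⟩
    exact (h3 ht).2
  have hAc : ∀ x ∈ Z' ⊔ Z, ∀ t ∈ T1, ⁅t, x⁆ ∈ Z := fun x hx => ((p.mem_A hD hinf).1 hx).2
  have hnA : ∀ k ∈ W, ∀ n ∈ Z' ⊔ Z, k * n * k⁻¹ ∈ Z' ⊔ Z := by
    intro k hk n hn
    exact conj_mem_of_comm hn ((le_sup_right : Z ≤ Z' ⊔ Z) (hAc n hn k (p.h.W_le1 hk)))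
  have hnA' : ∀ k ∈ W, ∀ n ∈ Z, k⁻¹ * n * k ∈ Z := by
    intro k hk n hn
    have := p.h.n3 (inv_mem (p.h.WT hk)) hn
    rwa [inv_inv] at this
  set W2 : Subgroup G := modC W ({a, b} : Set G) (Z' ⊔ Z) hnA with hW2
  have hnZ : ∀ k ∈ W2, ∀ n ∈ Z, k * n * k⁻¹ ∈ Z := fun k hk n hn => p.h.n3 (p.h.WT hk.1) hn
  have hcW2 : Nat.card W2 ≤ 512 := by
    set K0 : Subgroup G := modC W2 ({a} : Set G) Z hnZ with hK0
    have h1 := card_comm_le (K := W2) (K0 := K0) (L := Z' ⊔ Z) (N := Z) a (fun x hx => hx.1) le_sup_right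
      (fun w hw => hw.2 a (by simp))
      (fun w hw hw' => ⟨hw, fun t ht => by rw [Set.mem_singleton_iff] at ht; rw [ht]; exact hw'⟩)
      (fun w hw n hn => hnA' w hw.1 n hn)
    have h2 := card_comm_le (K := K0) (K0 := (Z' ⊔ Z) ⊓ K0) (L := Z' ⊔ Z) (N := Z) b inf_le_right le_sup_right
      (fun w hw => hw.1.2 b (by simp))
      (fun w hw hw' => mem_inf.2 ⟨hA w hw.1.1 (hw.2 a rfl) hw', hw⟩)
      (fun w hw n hn => hnA' w hw.1.1 n hn)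
    have h3 : Nat.card ((Z' ⊔ Z) ⊓ K0 : Subgroup G) ≤ 32 := by
      rw [← p.cA hinf]
      exact Nat.le_of_dvd Nat.card_pos (card_dvd_of_le inf_le_left)
    rw [p.cA hinf, p.h.cZ] at h1 h2
    omega
  -- elements of W2
  have hUW2 : (W ⊓ W' : Subgroup G) ≤ W2 := by
    intro u hu
    refine ⟨hu.1, fun t ht => ?_⟩
    apply (le_sup_left : Z' ≤ Z' ⊔ Z)
    rcases ht with rfl | ht
    · exact p.h'.comW _ ha.2 _ hu.2
    · rw [Set.mem_singleton_iff] at ht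
      rw [ht]; exact p.h'.comW _ hb.2 _ hu.2
  have hZA : Z ≤ Z' ⊔ Z := le_sup_right
  have haW2 : ⁅a, s⁆ ∈ W2 := by
    have h0 := p.h.commW haT hs
    refine ⟨h0, fun t ht => ?_⟩
    rcases ht with rfl | ht
    · exact hZA (p.h.comm_sq haT1 hs)
    · rw [Set.mem_singleton_iff] at ht
      rw [ht]
      apply hA _ (p.h.commW hbT h0)
      · apply p.h.comm_swap hbT1 haT1 h0
        have := p.h.comm_sq haT1 hs
        exact comm_mem_of_conj this (p.h.n3 hbT this)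
      · exact p.h.comm_sq hbT1 h0
  have hbW2 : ⁅b, s⁆ ∈ W2 := by
    have h0 := p.h.commW hbT hs
    refine ⟨h0, fun t ht => ?_⟩
    rcases ht with rfl | ht
    · apply hA _ (p.h.commW haT h0)
      · exact p.h.comm_sq haT1 h0
      · apply p.h.comm_swap haT1 hbT1 h0
        have := p.h.comm_sq hbT1 hs
        exact comm_mem_of_conj this (p.h.n3 haT this)
    · rw [Set.mem_singleton_iff] at ht
      rw [ht]
      exact hZA (p.h.comm_sq hbT1 hs)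
  by_cases h1 : ⁅a, s⁆ ∈ W ⊓ W'
  · exact ⟨a, ha, hnW a ha haU, h1⟩
  by_cases h2 : ⁅b, s⁆ ∈ W ⊓ W'
  · exact ⟨b, hb, hnW b hb hbU, h2⟩
  refine ⟨a⁻¹ * b, habD, hnW _ habD habU, ?_⟩
  have h3 : (W ⊓ W' : Subgroup G) < W2 := by
    refine lt_of_le_of_ne hUW2 ?_
    intro heq; exact h1 (by rw [heq]; exact haW2)
  have h4 := card_lt_two h3
  rw [p.cU] at h4
  have h5 : ⁅a, s⁆⁻¹ * ⁅b, s⁆ ∈ W ⊓ W' :=
    (mem_or_mem hUW2 (by rw [p.cU]; omega) haW2 h1 hbW2).resolve_left h2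
  have e : ⁅a⁻¹ * b, s⁆ = a⁻¹ * (⁅a, s⁆ * (⁅a, s⁆⁻¹ * ⁅b, s⁆) * ⁅a, s⁆⁻¹) * a := by
    simp only [commutatorElement_def]; group
  rw [e]
  -- W normalizes U
  have hWU : ∀ w ∈ W, ∀ u ∈ W ⊓ W', w * u * w⁻¹ ∈ W ⊓ W' := by
    intro w hw u hu
    apply conj_mem_of_comm hu
    have := p.h.comW w hw u hu.1
    exact ⟨p.h.ZW this, p.ZW' this⟩
  have h6 := hWU _ (p.h.commW haT hs) _ h5
  have h7 := mul_mem (mul_mem (inv_mem (mem_inf.1 ha).2) h6.2) (mem_inf.1 ha).2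
  have h8 := p.h.nW _ (inv_mem haT) _ h6.1
  rw [inv_inv] at h8
  exact ⟨h8, h7⟩

/-- The V-argument. -/
theorem lemV (hD : (T ⊓ W') ⊔ W = T1) (hinf : Z ⊓ Z' = Z1) {s : G} (hs : s ∈ W) :
    ∃ x ∈ Z', x ∉ Z1 ∧ ⁅s, x⁆ ∈ Z1 := by
  obtain ⟨d, hd, hdW, hdU⟩ := p.exists_d hD hinf (inv_mem hs)
  -- d commutes with ⁅s, x⁆
  have hds : ∀ x ∈ Z', d * ⁅s, x⁆ = ⁅s, x⁆ * d := by
    intro x hx
    have h1 : s⁻¹ * d * s ∈ W' := by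
      have e : s⁻¹ * d * s = (d⁻¹ * ⁅d, s⁻¹⁆)⁻¹ := by simp only [commutatorElement_def]; group
      rw [e]; exact inv_mem (mul_mem (inv_mem hd.2) hdU.2)
    have h2 := p.h'.cen x hx _ h1
    have h3 : d * (s * x * s⁻¹) = (s * x * s⁻¹) * d := by
      calc d * (s * x * s⁻¹) = s * ((s⁻¹ * d * s) * x) * s⁻¹ := by group
        _ = s * (x * (s⁻¹ * d * s)) * s⁻¹ := by rw [h2]
        _ = (s * x * s⁻¹) * d := by group
    have h4 := p.h'.cen x⁻¹ (inv_mem hx) d hd.2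
    rw [commutatorElement_def]
    calc d * (s * x * s⁻¹ * x⁻¹) = (d * (s * x * s⁻¹)) * x⁻¹ := by group
      _ = (s * x * s⁻¹) * (d * x⁻¹) := by rw [h3]; group
      _ = (s * x * s⁻¹ * x⁻¹) * d := by rw [h4]; group
  set CZ : Subgroup G := Z ⊓ centralizer ({d} : Set G) with hCZ
  have hCZ1 : Z1 ≤ CZ := by
    intro z hz
    refine mem_inf.2 ⟨p.h.Z1Z hz, mem_centralizer_iff.2 (fun y hy => ?_)⟩
    rw [Set.mem_singleton_iff] at hy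
    rw [hy]; exact p.h.c1 d hd.1 z hz
  have hlt : CZ < Z := by
    refine lt_of_le_of_ne inf_le_left ?_
    intro heq
    apply hdW
    apply p.h.memW d hd.1
    intro z hz
    rw [← heq] at hz
    exact (mem_centralizer_iff.1 hz.2 d rfl)
  have h1 := card_lt_two hlt
  rw [p.h.cZ] at h1
  have hn : ∀ k ∈ Z', ∀ n ∈ Z1, k * n * k⁻¹ ∈ Z1 := fun k hk n hn => p.h.n1 (p.h.WT (p.Z'W hk)) hn
  have h2 := card_comm_le (K := Z') (K0 := modC Z' ({s} : Set G) Z1 hn) (L := CZ) (N := Z1) s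
    (fun x hx => hx.1) hCZ1
    (fun x hx => mem_inf.2 ⟨p.h.comW _ hs _ (p.Z'W hx), mem_centralizer_iff.2 (fun y hy => by
      rw [Set.mem_singleton_iff] at hy
      rw [hy]; exact hds x hx)⟩)
    (fun x hx hx' => ⟨hx, fun t ht => by rw [Set.mem_singleton_iff] at ht; rw [ht]; exact hx'⟩)
    (fun x hx n hn' => by
      have := hn x⁻¹ (inv_mem hx) n hn'
      rwa [inv_inv] at this)
  rw [p.h'.cZ, p.h.cZ1] at h2
  by_contra hcon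
  push Not at hcon
  have h3 : modC Z' ({s} : Set G) Z1 hn ≤ Z1 := by
    intro x hx
    by_contra hx1
    exact hcon x hx.1 hx1 (hx.2 s rfl)
  have h4 := Nat.le_of_dvd Nat.card_pos (card_dvd_of_le h3)
  rw [p.h.cZ1] at h4
  have h5 : Nat.card (modC Z' ({s} : Set G) Z1 hn) * Nat.card CZ ≤ 2 * 4 := Nat.mul_le_mul h4 (by omega)
  omega

end Pair0

end Cfsg.Agent.H309.Ru
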