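import Cfsg.Agent.H309.Ru.Basic
import Cfsg.Agent.H309.Ru.Cocycle

/-!
# S3204: contributions of the `T`-orbits to the transfer (helper309)
-/

set_option autoImplicit false

namespace Cfsg.Agent.H309.Ru

open Subgroup Pointwise
open scoped commutatorElement

variable {G : Type*} [Group G] {M : Subgroup G} (φ : M →* ℤˣ)

theorem sq_unit (x : ℤˣ) : x * x = 1 := by
  rcases Int.units_eq_one_or x with rfl | rfl <;> rfl

/-- The kernel of the local homomorphism. -/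
def kerAt (ω : G ⧸ M) : Subgroup G where
  carrier := {x | x • ω = ω ∧ kap φ x ω = 1}
  one_mem' := ⟨one_smul _ _, kap_one φ ω⟩
  mul_mem' := by
    rintro x y ⟨hx, hx1⟩ ⟨hy, hy1⟩
    refine ⟨by rw [mul_smul, hy, hx], ?_⟩
    rw [kap_mul, hy, hx1, hy1, one_mul]
  inv_mem' := by
    rintro x ⟨hx, hx1⟩
    have h1 : x⁻¹ • ω = ω := by rw [inv_smul_eq_iff, hx]
    refine ⟨h1, ?_⟩
    have h2 := kap_mul φ x⁻¹ x ω
    rw [inv_mul_cancel, kap_one, hx, hx1, mul_one] at h2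
    exact h2.symm

theorem mem_kerAt {ω : G ⧸ M} {x : G} : x ∈ kerAt φ ω ↔ x • ω = ω ∧ kap φ x ω = 1 := Iff.rfl

theorem kap_inv_fix {ω : G ⧸ M} {x : G} (hx : x • ω = ω) : kap φ x⁻¹ ω = (kap φ x ω)⁻¹ := by
  have h2 := kap_mul φ x⁻¹ x ω
  rw [inv_mul_cancel, kap_one, hx] at h2
  exact eq_inv_of_mul_eq_one_left h2.symm

theorem comm_mem_kerAt {ω : G ⧸ M} {x y : G} (hx : x • ω = ω) (hy : y • ω = ω) : ⁅x, y⁆ ∈ kerAt φ ω := by
  have hx' : x⁻¹ • ω = ω := by rw [inv_smul_eq_iff, hx]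
  have hy' : y⁻¹ • ω = ω := by rw [inv_smul_eq_iff, hy]
  rw [commutatorElement_def]
  refine ⟨by rw [mul_smul, mul_smul, mul_smul, hy', hx', hy, hx], ?_⟩
  rw [kap_mul, kap_mul, kap_mul, hy', hx', hy, kap_inv_fix φ hx, kap_inv_fix φ hy]
  rw [mul_comm (kap φ x ω) (kap φ y ω)]
  group

variable [Finite G]

theorem step_mem {P P' : Subgroup G} {ω : G ⧸ M} (hle : P' ≤ P) (hc : Nat.card P = 2 * Nat.card P')
    (hst : P ⊓ MulAction.stabilizer G ω ≤ P') {s p : G} (hs : s ∈ P) (hs' : s ∉ P') (hp : p ∈ P') :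
    VV φ (orb P ω) p = VV φ (orb P' ω) (p * (s⁻¹ * p * s)) := by
  rw [V_mul φ (conj_index_two hle hc hs hp)]
  exact V_step_mem φ hle hs hs' (fun q hq => mem_or_mem hle hc hs hs' hq)
    (fun q hq hq' => hst ⟨hq, hq'⟩) (fun q hq => conj_index_two hle hc hs hq) hp

theorem step_not {P P' : Subgroup G} {ω : G ⧸ M} (hle : P' ≤ P) (hc : Nat.card P = 2 * Nat.card P')
    (hst : P ⊓ MulAction.stabilizer G ω ≤ P') {p : G} (hp : p ∈ P) (hp' : p ∉ P') :
    VV φ (orb P ω) p = VV φ (orb P' ω) (p * p) :=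
  V_step_not φ hle hp hp' (fun q hq => mem_or_mem hle hc hp hp' hq)
    (fun q hq hq' => hst ⟨hq, hq'⟩) (fun q hq => conj_index_two hle hc hp hq)

theorem V_one (P : Subgroup G) (ω : G ⧸ M) : VV φ (orb P ω) 1 = 1 := VV_one φ _

theorem V_sq {P : Subgroup G} {ω : G ⧸ M} {x : G} (hx : x ∈ P) : VV φ (orb P ω) (x * x) = 1 := by
  rw [V_mul φ hx, sq_unit]

variable {T T1 T2 W Z4 Z Z2 Z1 : Subgroup G} (h : Hyp T T1 T2 W Z4 Z Z2 Z1)
include h

theorem cW' : Nat.card W = 2 ^ 11 := by rw [h.cW]; norm_num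
theorem cT' : Nat.card T = 2 ^ 14 := by rw [h.cT]; norm_num

theorem V_Z {ω : G ⧸ M} {X : Subgroup G} (hX : X ≤ W) (hXs : ¬ X ≤ MulAction.stabilizer G ω) {z : G}
    (hz : z ∈ Z) (hzX : z ∈ X) : VV φ (orb X ω) z = 1 := by
  obtain ⟨n, -, hn⟩ := dvd_of_le hX (cW' h)
  obtain ⟨X', h1, h2, h3⟩ := exists_index_two_sub hn (inf_le_left : X ⊓ MulAction.stabilizer G ω ≤ X)
    (fun h4 => hXs (h4.trans inf_le_right))
  by_cases hz' : z ∈ X'
  · have hlt : ∃ s ∈ X, s ∉ X' := by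
      by_contra hcon
      push Not at hcon
      have h5 := Nat.le_of_dvd Nat.card_pos (card_dvd_of_le (show X ≤ X' from hcon))
      have h6 : 0 < Nat.card X' := Nat.card_pos
      omega
    obtain ⟨s, hs, hs'⟩ := hlt
    rw [step_mem φ h2 h3 h1 hs hs' hz']
    have h5 : s⁻¹ * z * s = z := by
      rw [mul_assoc, ← h.cen z hz s (hX hs)]; group
    rw [h5, h.sqZ z hz, V_one]
  · rw [step_not φ h2 h3 h1 hzX hz', h.sqZ z hz, V_one]

theorem V_W {ω : G ⧸ M} {X : Subgroup G} (hX : X ≤ W) (hXs : ¬ X ≤ MulAction.stabilizer G ω)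
    (halt : 4 * Nat.card (X ⊓ MulAction.stabilizer G ω : Subgroup G) ≤ Nat.card X ∨
      ∀ z ∈ Z, z • ω = ω → kap φ z ω = 1) {x : G} (hx : x ∈ X) : VV φ (orb X ω) x = 1 := by
  obtain ⟨n, -, hn⟩ := dvd_of_le hX (cW' h)
  obtain ⟨X', h1, h2, h3⟩ := exists_index_two_sub hn (inf_le_left : X ⊓ MulAction.stabilizer G ω ≤ X)
    (fun h4 => hXs (h4.trans inf_le_right))
  have key : ∀ u ∈ Z, u ∈ X' → VV φ (orb X' ω) u = 1 := by
    intro u hu huX
    by_cases hX's : X' ≤ MulAction.stabilizer G ω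
    · have h4 : X ⊓ MulAction.stabilizer G ω = X' := le_antisymm h1 (le_inf h2 hX's)
      rcases halt with h5 | h5
      · rw [h4, h3] at h5
        have h6 : 0 < Nat.card X' := Nat.card_pos
        omega
      · rw [V_fixed φ (fun p hp => hX's hp)]
        exact h5 u hu (hX's huX)
    · exact V_Z φ h (h2.trans hX) hX's hu huX
  by_cases hx' : x ∈ X'
  · have hlt : ∃ s ∈ X, s ∉ X' := by
      by_contra hcon
      push Not at hcon
      have h5 := Nat.le_of_dvd Nat.card_pos (card_dvd_of_le (show X ≤ X' from hcon))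
      have h6 : 0 < Nat.card X' := Nat.card_pos
      omega
    obtain ⟨s, hs, hs'⟩ := hlt
    rw [step_mem φ h2 h3 h1 hs hs' hx']
    apply key _ _ (mul_mem hx' (conj_index_two h2 h3 hs hx'))
    have e : x * (s⁻¹ * x * s) = (x * x) * ⁅x⁻¹, s⁻¹⁆ := by simp only [commutatorElement_def]; group
    rw [e]
    exact mul_mem (h.sqW x (hX hx)) (h.comW _ (inv_mem (hX hx)) _ (inv_mem (hX hs)))
  · rw [step_not φ h2 h3 h1 hx hx']
    exact key _ (h.sqW x (hX hx)) (sq_mem_index_two h2 h3 hx)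

/-- `φ` kills `Z` at `ω` if the stabilizer of `ω` in `W` is large. -/
theorem kill {ω : G ⧸ M} (hc : Nat.card W ≤ 4 * Nat.card (W ⊓ MulAction.stabilizer G ω : Subgroup G)) :
    ∀ z ∈ Z, z • ω = ω ∧ kap φ z ω = 1 := by
  intro z hz
  exact h.C (W ⊓ MulAction.stabilizer G ω) inf_le_left hc (kerAt φ ω)
    (fun x hx y hy => comm_mem_kerAt φ hx.2 hy.2) hz

theorem V_WW {ω : G ⧸ M} (hWs : ¬ W ≤ MulAction.stabilizer G ω) {w : G} (hw : w ∈ W) :
    VV φ (orb W ω) w = 1 := by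
  apply V_W φ h le_rfl hWs _ hw
  by_cases hc : 4 * Nat.card (W ⊓ MulAction.stabilizer G ω : Subgroup G) ≤ Nat.card W
  · exact Or.inl hc
  · right
    intro z hz _
    exact (kill φ h (by omega) z hz).2

omit [Finite G] h in
theorem orb_eq {P X : Subgroup G} {ω : G ⧸ M} (hXP : X ≤ P)
    (hPS : ∀ p ∈ P, ∃ w ∈ X, w⁻¹ * p ∈ MulAction.stabilizer G ω) : orb P ω = orb X ω := by
  ext x
  constructor
  · rintro ⟨p, hp, rfl⟩
    obtain ⟨w, hw, hwp⟩ := hPS p hp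
    refine ⟨w, hw, ?_⟩
    have : (w⁻¹ * p) • ω = ω := hwp
    rw [mul_smul, inv_smul_eq_iff] at this
    exact this.symm
  · rintro ⟨p, hp, rfl⟩
    exact ⟨p, hXP hp, rfl⟩

theorem V_PW {P : Subgroup G} {ω : G ⧸ M} (hWP : W ≤ P) (hWs : ¬ W ≤ MulAction.stabilizer G ω)
    (hPS : ∀ p ∈ P, ∃ w ∈ W, w⁻¹ * p ∈ MulAction.stabilizer G ω) {w : G} (hw : w ∈ W) :
    VV φ (orb P ω) w = 1 := by
  rw [orb_eq hWP hPS]; exact V_WW φ h hWs hw

/-- Lemma P, index at least 4. -/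
theorem V_P4 {P : Subgroup G} {ω : G ⧸ M} (hPT : P ≤ T) (hWP : W ≤ P)
    (hWs : ¬ W ≤ MulAction.stabilizer G ω)
    (hPS : ∀ p ∈ P, ∃ w ∈ W, w⁻¹ * p ∈ MulAction.stabilizer G ω)
    (hc : 4 * Nat.card (W ⊓ MulAction.stabilizer G ω : Subgroup G) ≤ Nat.card W) {p : G} (hp : p ∈ P) :
    VV φ (orb P ω) p = 1 := by
  have key : ∀ y ∈ P, y ∈ MulAction.stabilizer G ω → VV φ (orb P ω) y = 1 := by
    intro y hy hyS
    obtain ⟨n, -, hn⟩ := dvd_of_le hPT (cT' h)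
    obtain ⟨P', h1, h2, h3⟩ := exists_index_two_sub hn (inf_le_left : P ⊓ MulAction.stabilizer G ω ≤ P)
      (fun h4 => hWs ((hWP.trans h4).trans inf_le_right))
    have hlt : ∃ s ∈ W, s ∉ P' := by
      by_contra hcon
      push Not at hcon
      have h7 : P ≤ P' := by
        intro q hq
        obtain ⟨w, hw, hwq⟩ := hPS q hq
        have : q = w * (w⁻¹ * q) := by group
        rw [this]
        exact mul_mem (hcon w hw) (h1 (mem_inf.2 ⟨mul_mem (inv_mem (hWP hw)) hq, hwq⟩))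
      have h5 := Nat.le_of_dvd Nat.card_pos (card_dvd_of_le h7)
      have h6 : 0 < Nat.card P' := Nat.card_pos
      omega
    obtain ⟨s, hs, hs'⟩ := hlt
    have hyP' : y ∈ P' := h1 ⟨hy, hyS⟩
    rw [step_mem φ h2 h3 h1 (hWP hs) hs' hyP']
    have e : y * (s⁻¹ * y * s) = (y * y) * (y⁻¹ * s⁻¹ * y⁻¹⁻¹ * s) := by group
    have hxW : y⁻¹ * s⁻¹ * y⁻¹⁻¹ * s ∈ W := mul_mem (h.nW _ (inv_mem (hPT hy)) _ (inv_mem hs)) hs
    have hxP' : y⁻¹ * s⁻¹ * y⁻¹⁻¹ * s ∈ P' := by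
      have h5 := mul_mem (inv_mem hyP') (conj_index_two h2 h3 (hWP hs) hyP')
      have e2 : y⁻¹ * s⁻¹ * y⁻¹⁻¹ * s = y⁻¹ * (s⁻¹ * y * s) := by group
      rw [e2]; exact h5
    rw [e, V_mul φ hxP', V_sq φ hyP', one_mul]
    -- restrict to X = W ⊓ P'
    have hX1 : (W ⊓ P' : Subgroup G) ≤ P' := inf_le_right
    have horb : orb P' ω = orb (W ⊓ P' : Subgroup G) ω := by
      apply orb_eq hX1
      intro q hq
      obtain ⟨w, hw, hwq⟩ := hPS q (h2 hq)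
      refine ⟨w, ⟨hw, ?_⟩, hwq⟩
      have h5 := h1 (mem_inf.2 ⟨mul_mem (inv_mem (hWP hw)) (h2 hq), hwq⟩)
      have h6 := mul_mem hq (inv_mem h5)
      have e2 : q * (w⁻¹ * q)⁻¹ = w := by group
      rwa [e2] at h6
    rw [horb]
    have hcX : Nat.card W ≤ 2 * Nat.card (W ⊓ P' : Subgroup G) := by
      have h5 := card_mul_le hWP h2
      rw [h3] at h5
      have h6 : 0 < Nat.card P' := Nat.card_pos
      nlinarith
    have hstle : (W ⊓ MulAction.stabilizer G ω : Subgroup G) ≤ P' := fun x hx => h1 ⟨hWP hx.1, hx.2⟩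
    have hposS : 0 < Nat.card (W ⊓ MulAction.stabilizer G ω : Subgroup G) := Nat.card_pos
    have heqS : (W ⊓ P' ⊓ MulAction.stabilizer G ω : Subgroup G) = W ⊓ MulAction.stabilizer G ω := by
      apply le_antisymm
      · exact le_inf (inf_le_left.trans inf_le_left) inf_le_right
      · exact le_inf (le_inf inf_le_left hstle) inf_le_right
    apply V_W φ h inf_le_left _ _ ⟨hxW, hxP'⟩
    · intro h5
      have h6 : (W ⊓ P' : Subgroup G) ≤ W ⊓ MulAction.stabilizer G ω := le_inf inf_le_left h5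
      have h7 := Nat.le_of_dvd Nat.card_pos (card_dvd_of_le h6)
      omega
    · rw [heqS]
      by_cases h8 : 8 * Nat.card (W ⊓ MulAction.stabilizer G ω : Subgroup G) ≤ Nat.card W
      · left; omega
      · right
        intro z hz _
        refine (kill φ h ?_ z hz).2
        obtain ⟨k, hk, hck⟩ := dvd_of_le (inf_le_left : (W ⊓ MulAction.stabilizer G ω : Subgroup G) ≤ W)
          (cW' h)
        rw [hck, h.cW] at h8 ⊢
        interval_cases k <;> omega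
  obtain ⟨w, hw, hwp⟩ := hPS p hp
  have e : p = w * (w⁻¹ * p) := by group
  have hq : w⁻¹ * p ∈ P := mul_mem (inv_mem (hWP hw)) hp
  rw [e, V_mul φ hq, V_PW φ h hWP hWs hPS hw, key _ hq hwp, one_mul]

/-- Lemma P, index 2. -/
theorem V_P2 {P : Subgroup G} {ω : G ⧸ M} (hWP : W ≤ P)
    (hPS : ∀ p ∈ P, ∃ w ∈ W, w⁻¹ * p ∈ MulAction.stabilizer G ω)
    (hc : Nat.card W = 2 * Nat.card (W ⊓ MulAction.stabilizer G ω : Subgroup G))
    {s : G} (hs : s ∈ W) (hs' : s ∉ MulAction.stabilizer G ω) {y : G} (hy : y ∈ P)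
    (hyS : y ∈ MulAction.stabilizer G ω) :
    VV φ (orb P ω) y = kap φ (y⁻¹ * s⁻¹ * y * s) ω := by
  set P' : Subgroup G := P ⊓ MulAction.stabilizer G ω with hP'
  have hmod : ∀ p ∈ P, p ∈ P' ∨ s⁻¹ * p ∈ P' := by
    intro p hp
    obtain ⟨w, hw, hwp⟩ := hPS p hp
    rcases mem_or_mem inf_le_left hc hs (fun h1 => hs' h1.2) hw with h1 | h1
    · left
      refine mem_inf.2 ⟨hp, ?_⟩
      have e : p = w * (w⁻¹ * p) := by group
      rw [e]; exact mul_mem h1.2 hwp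
    · right
      refine mem_inf.2 ⟨mul_mem (inv_mem (hWP hs)) hp, ?_⟩
      have e : s⁻¹ * p = (s⁻¹ * w) * (w⁻¹ * p) := by group
      rw [e]; exact mul_mem h1.2 hwp
  have hs'' : s ∉ P' := fun h1 => hs' h1.2
  have hn : ∀ p ∈ P', s⁻¹ * p * s ∈ P' := by
    intro p hp
    rcases hmod (p * s) (mul_mem hp.1 (hWP hs)) with h1 | h1
    · exact absurd ((mul_mem_cancel_left hp).1 h1) hs''
    · rw [mul_assoc]; exact h1
  have hyP' : y ∈ P' := ⟨hy, hyS⟩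
  rw [V_step_mem φ inf_le_left (hWP hs) hs'' hmod (fun p hp hp' => mem_inf.2 ⟨hp, hp'⟩) hn hyP',
    ← V_mul φ (hn y hyP'), V_fixed φ (P := P') (fun p hp => (mem_inf.1 hp).2)]
  have e : y * (s⁻¹ * y * s) = (y * y) * (y⁻¹ * s⁻¹ * y * s) := by group
  have hx : (y⁻¹ * s⁻¹ * y * s) • ω = ω := by
    have h1 := mul_mem (inv_mem hyP') (hn y hyP')
    have e2 : y⁻¹ * s⁻¹ * y * s = y⁻¹ * (s⁻¹ * y * s) := by group
    rw [e2]; exact h1.2
  have hyy : y • ω = ω := hyS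
  rw [e, kap_mul, hx, kap_mul, hyy, sq_unit, one_mul]

/-- The subgroup `(T ∩ St ω) W`. -/
theorem XX_spec {ω : G ⧸ M} : ∀ p ∈ ((T ⊓ MulAction.stabilizer G ω) ⊔ W : Subgroup G),
    ∃ w ∈ W, w⁻¹ * p ∈ MulAction.stabilizer G ω := by
  intro p hp
  obtain ⟨a, ha, w, hw, rfl⟩ := (mem_sup_norm (inf_le_left.trans h.TNW)).1 hp
  refine ⟨a * w * a⁻¹, h.nW a ha.1 w hw, ?_⟩
  have e : (a * w * a⁻¹)⁻¹ * (a * w) = a := by group
  rw [e]; exact ha.2

theorem XX_le {ω : G ⧸ M} : ((T ⊓ MulAction.stabilizer G ω) ⊔ W : Subgroup G) ≤ T :=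
  sup_le inf_le_left h.WT

/-- Lemma Q. -/
theorem V_Q {ω : G ⧸ M} (hWs : ¬ W ≤ MulAction.stabilizer G ω) :
    ∀ (n : ℕ) (P : Subgroup G), Nat.card P = n → P ≤ T →
      ((T ⊓ MulAction.stabilizer G ω) ⊔ W : Subgroup G) ≤ P → ∀ w ∈ W, VV φ (orb P ω) w = 1 := by
  intro n
  induction n using Nat.strong_induction_on with
  | _ n ih =>
    intro P hn hPT hXP w hw
    by_cases hPX : P ≤ (T ⊓ MulAction.stabilizer G ω) ⊔ W
    · exact V_PW φ h (le_sup_right.trans hXP) hWs (fun p hp => XX_spec h p (hPX hp)) hw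
    · obtain ⟨m, -, hm⟩ := dvd_of_le hPT (cT' h)
      obtain ⟨P', h1, h2, h3⟩ := exists_index_two_sub hm hXP hPX
      have hlt : ∃ s ∈ P, s ∉ P' := by
        by_contra hcon
        push Not at hcon
        have h5 := Nat.le_of_dvd Nat.card_pos (card_dvd_of_le (show P ≤ P' from hcon))
        have h6 : 0 < Nat.card P' := Nat.card_pos
        omega
      obtain ⟨s, hs, hs'⟩ := hlt
      have hwP' : w ∈ P' := h1 (le_sup_right (a := T ⊓ MulAction.stabilizer G ω) hw)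
      have h4 : P ⊓ MulAction.stabilizer G ω ≤ P' := fun x hx =>
        h1 (le_sup_left (a := T ⊓ MulAction.stabilizer G ω) (b := W) ⟨hPT hx.1, hx.2⟩)
      have h5 : Nat.card P' < n := by
        have h6 : 0 < Nat.card P' := Nat.card_pos
        omega
      have h6 := h.nW _ (inv_mem (hPT hs)) _ hw
      rw [inv_inv] at h6
      rw [step_mem φ h2 h3 h4 hs hs' hwP', ih _ h5 P' rfl (h2.trans hPT) h1 _ (mul_mem hw h6)]

/-- Lemma R. -/
theorem V_R {ω : G ⧸ M} (hWs : ¬ W ≤ MulAction.stabilizer G ω) {P : Subgroup G} (hPT : P ≤ T)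
    (hXP : ((T ⊓ MulAction.stabilizer G ω) ⊔ W : Subgroup G) ≤ P)
    (hPX : ¬ P ≤ (T ⊓ MulAction.stabilizer G ω) ⊔ W) (hsq : ∀ x ∈ P, x * x ∈ W)
    (hcm : ∀ x ∈ P, ∀ y ∈ P, ⁅x, y⁆ ∈ W) {u : G} (hu : u ∈ P) : VV φ (orb P ω) u = 1 := by
  obtain ⟨m, -, hm⟩ := dvd_of_le hPT (cT' h)
  obtain ⟨P', h1, h2, h3⟩ := exists_index_two_sub hm hXP hPX
  have h4 : P ⊓ MulAction.stabilizer G ω ≤ P' := fun x hx =>
    h1 (le_sup_left (a := T ⊓ MulAction.stabilizer G ω) (b := W) ⟨hPT hx.1, hx.2⟩)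
  by_cases hu' : u ∈ P'
  · have hlt : ∃ s ∈ P, s ∉ P' := by
      by_contra hcon
      push Not at hcon
      have h5 := Nat.le_of_dvd Nat.card_pos (card_dvd_of_le (show P ≤ P' from hcon))
      have h6 : 0 < Nat.card P' := Nat.card_pos
      omega
    obtain ⟨s, hs, hs'⟩ := hlt
    rw [step_mem φ h2 h3 h4 hs hs' hu']
    apply V_Q φ h hWs _ P' rfl (h2.trans hPT) h1
    have e : u * (s⁻¹ * u * s) = (u * u) * ⁅u⁻¹, s⁻¹⁆ := by simp only [commutatorElement_def]; group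
    rw [e]
    exact mul_mem (hsq u hu) (hcm _ (inv_mem hu) _ (inv_mem hs))
  · rw [step_not φ h2 h3 h4 hu hu']
    exact V_Q φ h hWs _ P' rfl (h2.trans hPT) h1 _ (hsq u hu)

/-- Lemma T. -/
theorem V_T {ω : G ⧸ M} (hWs : ¬ W ≤ MulAction.stabilizer G ω) {Ta : Subgroup G} (hTa : Ta ≤ T)
    (hc : Nat.card T = 2 * Nat.card Ta) (hsq : ∀ x ∈ Ta, x * x ∈ W)
    (hcm : ∀ x ∈ Ta, ∀ y ∈ Ta, ⁅x, y⁆ ∈ W) {t : G} (ht : t ∈ Ta)
    (huniq : ∀ P : Subgroup G, P ≤ T → W ≤ P → Nat.card T = 2 * Nat.card P → t ∈ P → P = Ta)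
    (hX : ¬ Ta ≤ (T ⊓ MulAction.stabilizer G ω) ⊔ W) : VV φ (orb T ω) t = 1 := by
  have hXT := XX_le (ω := ω) h
  obtain ⟨P, h1, h2, h3⟩ := exists_index_two_sub (cT' h) hXT (fun h4 => hX (hTa.trans h4))
  have h4 : T ⊓ MulAction.stabilizer G ω ≤ P := le_sup_left.trans h1
  by_cases htP : t ∈ P
  · have h5 := huniq P h2 (le_sup_right.trans h1) h3 htP
    subst h5
    have hlt : ∃ s ∈ T, s ∉ P := by
      by_contra hcon
      push Not at hcon
      have h5 := Nat.le_of_dvd Nat.card_pos (card_dvd_of_le (show T ≤ P from hcon))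
      have h6 : 0 < Nat.card P := Nat.card_pos
      omega
    obtain ⟨s, hs, hs'⟩ := hlt
    rw [step_mem φ h2 h3 h4 hs hs' ht]
    exact V_R φ h hWs hTa h1 hX hsq hcm (mul_mem ht (conj_index_two h2 h3 hs ht))
  · rw [step_not φ h2 h3 h4 (hTa ht) htP]
    exact V_Q φ h hWs _ P rfl h2 h1 _ (hsq t ht)

/-- Lemma T when `X = Ta`. -/
theorem V_T_of_X {ω : G ⧸ M} {Ta : Subgroup G} (hTa : Ta ≤ T)
    (hc : Nat.card T = 2 * Nat.card Ta) (hX : (T ⊓ MulAction.stabilizer G ω) ⊔ W = Ta)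
    (hV : ∀ x ∈ Ta, VV φ (orb Ta ω) x = 1) {t : G} (ht : t ∈ Ta) : VV φ (orb T ω) t = 1 := by
  have hlt : ∃ s ∈ T, s ∉ Ta := by
    by_contra hcon
    push Not at hcon
    have h5 := Nat.le_of_dvd Nat.card_pos (card_dvd_of_le (show T ≤ Ta from hcon))
    have h6 : 0 < Nat.card Ta := Nat.card_pos
    omega
  obtain ⟨s, hs, hs'⟩ := hlt
  have h4 : T ⊓ MulAction.stabilizer G ω ≤ Ta := by rw [← hX]; exact le_sup_left
  rw [step_mem φ hTa hc h4 hs hs' ht]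
  exact hV _ (mul_mem ht (conj_index_two hTa hc hs ht))

end Cfsg.Agent.H309.Ru
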