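import Cfsg.Agent.H309.Ru.Transfer
import Mathlib.GroupTheory.Perm.Sign
import Mathlib.GroupTheory.Subgroup.Centralizer

/-!
# S3204: `N(Z)` does not normalize `Z1` or `Z2` (helper309)
-/

set_option autoImplicit false

namespace Cfsg.Agent.H309.Ru

open Subgroup Pointwise
open scoped commutatorElement

variable {G : Type*} [Group G]

theorem sign_of_swap {X : Type*} [Fintype X] [DecidableEq X] (f : Equiv.Perm X) (a b : X) (hab : a ≠ b)
    (h1 : f a = b) (h2 : f b = a) (h3 : ∀ x, x ≠ a → x ≠ b → f x = x) : Equiv.Perm.sign f = -1 := by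
  have : f = Equiv.swap a b := by
    ext x
    by_cases hxa : x = a
    · rw [hxa, h1, Equiv.swap_apply_left]
    · by_cases hxb : x = b
      · rw [hxb, h2, Equiv.swap_apply_right]
      · rw [h3 x hxa hxb, Equiv.swap_apply_of_ne_of_ne hxa hxb]
  rw [this, Equiv.Perm.sign_swap hab]

variable [Finite G] {T T1 T2 W Z4 Z Z2 Z1 : Subgroup G} (h : Hyp T T1 T2 W Z4 Z Z2 Z1)
  (S : Sylow 2 G) (hS : (S : Subgroup G) = T) (hidx : ∀ H : Subgroup G, H.index ≠ 2)
include h hS hidx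

theorem not_norm2 (hM : normalizer (Z : Set G) ≤ normalizer (Z2 : Set G)) : False := by
  classical
  letI : Fintype Z2 := Fintype.ofFinite _
  let φ : normalizer (Z : Set G) →* ℤˣ :=
    Equiv.Perm.sign.comp ((MulAut.toPerm Z2).comp ((Z2.normalizerMonoidHom).comp (inclusion hM)))
  obtain ⟨t, ht, ht2⟩ := h.exists_T1
  have htT := h.T1_le ht
  obtain ⟨z, hz, hz'⟩ := h.exists_z2
  have hc : ⁅t, z⁆ ∈ Z1 := h.c2 t htT z hz
  have hc1 : ⁅t, z⁆ ≠ 1 := fun h1 => ht2 ((h.mem2 htT hz hz').2 h1)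
  have hφt : φ ⟨t, h.TNZ htT⟩ ≠ 1 := by
    have h1 : φ ⟨t, h.TNZ htT⟩ = -1 := by
      show Equiv.Perm.sign _ = -1
      apply sign_of_swap _ (⟨z, hz⟩ : Z2) ⟨t * z * t⁻¹, h.n2 htT hz⟩
      · intro heq
        have h2 : z = t * z * t⁻¹ := congrArg Subtype.val heq
        apply hc1
        rw [commutatorElement_def, ← h2, mul_inv_cancel]
      · rfl
      · apply Subtype.ext
        show t * (t * z * t⁻¹) * t⁻¹ = z
        rw [conj_eq t z]
        have e : t * (⁅t, z⁆ * z) * t⁻¹ = (t * ⁅t, z⁆ * t⁻¹) * (t * z * t⁻¹) := by group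
        rw [e, conj_of_mul_comm (h.c1 t htT _ hc), conj_eq t z, ← mul_assoc, h.sqZ _ (h.Z1Z hc), one_mul]
      · rintro ⟨x, hx⟩ hxa hxb
        apply Subtype.ext
        show t * x * t⁻¹ = x
        rcases h.mod2 hz hz' hx with h2 | h2
        · exact conj_of_mul_comm (h.c1 t htT x h2)
        · exfalso
          rcases h.eq_z1 hc hc1 h2 with h3 | h3
          · apply hxa
            apply Subtype.ext
            exact (inv_mul_eq_one.1 h3).symm
          · apply hxb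
            apply Subtype.ext
            show x = t * z * t⁻¹
            rw [conj_eq t z, h.commZ (h.Z1Z hc) (h.Z2_le hz), ← h3]
            group
    rw [h1]; decide
  refine no_transfer φ T h.TNZ htT hφt (fun ω hω => ?_) hidx
  refine orbB h S hS φ ?_ ω hω ht ht2
  intro m hm
  have h1 : Z2.normalizerMonoidHom (inclusion hM m) = 1 := by
    ext x
    show (m : G) * x * (m : G)⁻¹ = x
    exact conj_of_mul_comm (hm x x.2)
  show Equiv.Perm.sign (MulAut.toPerm Z2 (Z2.normalizerMonoidHom (inclusion hM m))) = 1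
  rw [h1, map_one, map_one]

omit [Finite G] h hS hidx in
/-- The action of `N(Z)` on `Z / Z1`. -/
def actQ {Z Z1 : Subgroup G} (hM : normalizer (Z : Set G) ≤ normalizer (Z1 : Set G)) :
    MulAction (normalizer (Z : Set G)) (Z ⧸ Z1.subgroupOf Z) where
  smul m := Quotient.map' (fun z : Z => (⟨m * z * (m : G)⁻¹, conj_of_mem_normalizer m.2 z.2⟩ : Z)) (by
    intro a b hab
    rw [QuotientGroup.leftRel_apply, mem_subgroupOf] at hab ⊢
    have h1 := conj_of_mem_normalizer (hM m.2) hab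
    have e : ((⟨m * a * (m : G)⁻¹, conj_of_mem_normalizer m.2 a.2⟩ : Z)⁻¹ *
        (⟨m * b * (m : G)⁻¹, conj_of_mem_normalizer m.2 b.2⟩ : Z) : Z) = (m : G) * ((a⁻¹ * b : Z) : G) *
          (m : G)⁻¹ := by
      show ((m : G) * (a : G) * (m : G)⁻¹)⁻¹ * ((m : G) * (b : G) * (m : G)⁻¹) =
        (m : G) * ((a : G)⁻¹ * b) * (m : G)⁻¹
      group
    rw [e]; exact h1)
  one_smul := by
    rintro ⟨z⟩
    show (QuotientGroup.mk _ : Z ⧸ Z1.subgroupOf Z) = QuotientGroup.mk z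
    congr 1
    apply Subtype.ext
    show (1 : G) * z * (1 : G)⁻¹ = z
    group
  mul_smul := by
    rintro a b ⟨z⟩
    show (QuotientGroup.mk _ : Z ⧸ Z1.subgroupOf Z) = QuotientGroup.mk _
    congr 1
    apply Subtype.ext
    show (a * b : G) * z * (a * b : G)⁻¹ = a * (b * z * (b : G)⁻¹) * (a : G)⁻¹
    group

theorem not_norm1 (hM : normalizer (Z : Set G) ≤ normalizer (Z1 : Set G)) : False := by
  classical
  letI := actQ hM
  letI : Fintype (Z ⧸ Z1.subgroupOf Z) := Fintype.ofFinite _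
  let φ : normalizer (Z : Set G) →* ℤˣ :=
    Equiv.Perm.sign.comp (MulAction.toPermHom (normalizer (Z : Set G)) (Z ⧸ Z1.subgroupOf Z))
  have hsmul : ∀ (m : normalizer (Z : Set G)) (z : Z), m • (QuotientGroup.mk z : Z ⧸ Z1.subgroupOf Z) =
      QuotientGroup.mk ⟨m * z * (m : G)⁻¹, conj_of_mem_normalizer m.2 z.2⟩ := fun m z => rfl
  have hmk : ∀ a b : Z, (QuotientGroup.mk a : Z ⧸ Z1.subgroupOf Z) = QuotientGroup.mk b ↔
      (a : G)⁻¹ * b ∈ Z1 := by
    intro a b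
    rw [QuotientGroup.eq, mem_subgroupOf]; rfl
  have hφT : ∀ (t : G) (ht : t ∈ T), φ ⟨t, h.TNZ ht⟩ = 1 → t ∈ T1 := by
    intro t htT h1
    by_contra ht1
    obtain ⟨z, hz, hz'⟩ := h.exists_z3
    have hc : ⁅t, z⁆ ∈ Z2 := h.c3 t htT z hz
    have hc1 : ⁅t, z⁆ ∉ Z1 := fun h1 => ht1 ((h.mem1 htT hz hz').2 h1)
    have h2 : φ ⟨t, h.TNZ htT⟩ = -1 := by
      show Equiv.Perm.sign _ = -1
      have hzc : z⁻¹ * (t * z * t⁻¹) = ⁅t, z⁆ := by
        rw [conj_eq, h.commZ (h.Z2_le hc) hz]; group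
      apply sign_of_swap _ (QuotientGroup.mk (⟨z, hz⟩ : Z)) (QuotientGroup.mk ⟨t * z * t⁻¹, h.n3 htT hz⟩)
      · rw [Ne, hmk]
        intro h3
        apply hc1
        rw [← hzc]; exact h3
      · rw [MulAction.toPermHom_apply, MulAction.toPerm_apply, hsmul]
      · rw [MulAction.toPermHom_apply, MulAction.toPerm_apply, hsmul, hmk]
        show (t * (t * z * t⁻¹) * t⁻¹)⁻¹ * z ∈ Z1
        have e : t * (t * z * t⁻¹) * t⁻¹ = ⁅t, ⁅t, z⁆⁆ * z := by
          have e1 : t * (t * z * t⁻¹) * t⁻¹ = ⁅t * t, z⁆ * z := by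
            simp only [commutatorElement_def]; group
          rw [e1, comm_mul_left', mul_assoc ⁅t, ⁅t, z⁆⁆, h.sqZ _ (h.Z2_le hc), mul_one]
        rw [e]
        have h3 := h.c2 t htT _ hc
        have e2 : (⁅t, ⁅t, z⁆⁆ * z)⁻¹ * z = z⁻¹ * (⁅t, ⁅t, z⁆⁆)⁻¹ * z⁻¹⁻¹ := by group
        rw [e2]
        exact h.n1 (inv_mem (h.ZT hz)) (inv_mem h3)
      · intro q hqa hqb
        obtain ⟨x, rfl⟩ := QuotientGroup.mk_surjective q
        rw [MulAction.toPermHom_apply, MulAction.toPerm_apply, hsmul, hmk]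
        rw [Ne, hmk] at hqa hqb
        show (t * x * t⁻¹)⁻¹ * x ∈ Z1
        have e : (t * x * t⁻¹)⁻¹ * x = ((x : G)⁻¹ * ⁅t, (x : G)⁆ * (x : G)⁻¹⁻¹)⁻¹ := by
          rw [commutatorElement_def]; group
        rw [e]
        apply inv_mem
        apply h.n1 (inv_mem (h.ZT x.2))
        rcases h.mod3 hz hz' x.2 with h3 | h3
        · exact h.c2 t htT _ h3
        · exfalso
          -- z⁻¹ x ∈ Z2; not in Z1 since q ≠ [z]; then q = [t z t⁻¹]
          have h4 : z⁻¹ * (x : G) ∉ Z1 := by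
            intro h5
            apply hqa
            have e2 : (x : G)⁻¹ * z = (z⁻¹ * (x : G))⁻¹ := by group
            show (x : G)⁻¹ * z ∈ Z1
            rw [e2]; exact inv_mem h5
          have h5 : (z⁻¹ * (x : G))⁻¹ * ⁅t, z⁆ ∈ Z1 := (h.mod2 h3 h4 hc).resolve_left hc1
          apply hqb
          show (x : G)⁻¹ * (t * z * t⁻¹) ∈ Z1
          have e2 : (x : G)⁻¹ * (t * z * t⁻¹) = (z⁻¹ * (x : G))⁻¹ * ⁅t, z⁆ := by
            rw [← hzc]; group
          rw [e2]; exact h5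
    rw [h2] at h1
    exact absurd h1 (by decide)
  obtain ⟨t, ht, ht1⟩ := h.exists_T2
  refine no_transfer φ T h.TNZ (h.T2_le ht) (fun h1 => ht1 (hφT t (h.T2_le ht) h1)) (fun ω hω => ?_) hidx
  refine orbA h S hS φ ?_ hφT hM ω hω ht ht1
  intro m hm
  show Equiv.Perm.sign (MulAction.toPermHom (normalizer (Z : Set G)) (Z ⧸ Z1.subgroupOf Z) m) = 1
  have h1 : MulAction.toPermHom (normalizer (Z : Set G)) (Z ⧸ Z1.subgroupOf Z) m = 1 := by
    ext q
    obtain ⟨x, rfl⟩ := QuotientGroup.mk_surjective q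
    rw [MulAction.toPermHom_apply, MulAction.toPerm_apply, hsmul, Equiv.Perm.one_apply, hmk]
    show ((m : G) * (x : G) * (m : G)⁻¹)⁻¹ * (x : G) ∈ Z1
    have e : ((m : G) * (x : G) * (m : G)⁻¹)⁻¹ * (x : G) = ((x : G)⁻¹ * ⁅(m : G), (x : G)⁆ * (x : G)⁻¹⁻¹)⁻¹ := by
      rw [commutatorElement_def]; group
    rw [e]
    exact inv_mem (h.n1 (inv_mem (h.ZT x.2)) (hm x x.2))
  rw [h1, map_one]

end Cfsg.Agent.H309.Ru
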