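import Cfsg.Agent.H309.Ru.Basic

/-!
# S3204: Sylow subgroups of normalized subgroups, conjugates of `Z` (helper309)
-/

set_option autoImplicit false

namespace Cfsg.Agent.H309.Ru

open Subgroup Pointwise

variable {G : Type*} [Group G]

/-- If the Sylow subgroup `S` normalizes `C`, then every `p`-subgroup of `C` is `C`-conjugate into `S ⊓ C`. -/
theorem exists_conj_le_inf [Finite G] {p : ℕ} [Fact p.Prime] (S : Sylow p G) (C : Subgroup G)
    (hSC : (S : Subgroup G) ≤ normalizer (C : Set G)) (Q : Subgroup G) (hQ : IsPGroup p Q) (hQC : Q ≤ C) :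
    ∃ c ∈ C, MulAut.conj c • Q ≤ (S : Subgroup G) ⊓ C := by
  have h1 := card_sup_mul hSC
  obtain ⟨k, hk⟩ := card_dvd_of_le (le_sup_left : (S : Subgroup G) ≤ (S : Subgroup G) ⊔ C)
  have hSpos : 0 < Nat.card S := Nat.card_pos
  have hIpos : 0 < Nat.card ((S : Subgroup G) ⊓ C : Subgroup G) := Nat.card_pos
  have h2 : Nat.card C = Nat.card ((S : Subgroup G) ⊓ C : Subgroup G) * k := by
    rw [hk] at h1
    have h3 : Nat.card S * (k * Nat.card ((S : Subgroup G) ⊓ C : Subgroup G)) = Nat.card S * Nat.card C := by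
      rw [← mul_assoc]; exact h1
    rw [mul_comm, ← Nat.eq_of_mul_eq_mul_left hSpos h3]
  have h4 : k ∣ (S : Subgroup G).index := by
    have h5 := ((S : Subgroup G) ⊔ C).card_mul_index
    rw [← (S : Subgroup G).card_mul_index, hk, mul_assoc] at h5
    exact ⟨_, (Nat.eq_of_mul_eq_mul_left hSpos h5).symm⟩
  have hp : ¬ p ∣ k := fun h => S.not_dvd_index (h.trans h4)
  set P1 : Subgroup C := ((S : Subgroup G) ⊓ C).subgroupOf C with hP1
  have hP1p : IsPGroup p P1 := by
    refine (S.2.to_le (inf_le_left : (S : Subgroup G) ⊓ C ≤ (S : Subgroup G))).of_equiv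
      (subgroupOfEquivOfLe inf_le_right).symm
  have hidx : P1.index = k := by
    have h5 := P1.card_mul_index
    have h6 : Nat.card P1 = Nat.card ((S : Subgroup G) ⊓ C : Subgroup G) :=
      Nat.card_congr (subgroupOfEquivOfLe inf_le_right).toEquiv
    rw [h6, h2] at h5
    exact Nat.eq_of_mul_eq_mul_left hIpos h5
  have hQ1 : IsPGroup p (Q.subgroupOf C) := hQ.of_equiv (subgroupOfEquivOfLe hQC).symm
  obtain ⟨R, hR⟩ := hQ1.exists_le_sylow
  obtain ⟨c, hc⟩ := MulAction.exists_smul_eq C R (hP1p.toSylow (by rwa [hidx]))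
  refine ⟨c, c.2, ?_⟩
  intro x hx
  rw [mem_conj_smul] at hx
  have hxC : x ∈ C := by
    have := C.mul_mem (C.mul_mem c.2 (hQC hx)) (C.inv_mem c.2)
    simpa [mul_assoc] using this
  have hy : (⟨(c : G)⁻¹ * x * c, hQC hx⟩ : C) ∈ (R : Subgroup C) := hR (by
    rw [mem_subgroupOf]; exact hx)
  have hz : (⟨x, hxC⟩ : C) ∈ ((c • R : Sylow p C) : Subgroup C) := by
    rw [Sylow.coe_subgroup_smul, mem_conj_smul]
    exact hy
  rw [hc] at hz
  exact mem_subgroupOf.1 hz

theorem exists_conj_eq_inf [Finite G] {p : ℕ} [Fact p.Prime] (S : Sylow p G) (C : Subgroup G)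
    (hSC : (S : Subgroup G) ≤ normalizer (C : Set G)) (Q : Subgroup G) (hQ : IsPGroup p Q) (hQC : Q ≤ C)
    (hc : Nat.card ((S : Subgroup G) ⊓ C : Subgroup G) ≤ Nat.card Q) :
    ∃ c ∈ C, MulAut.conj c • Q = (S : Subgroup G) ⊓ C := by
  obtain ⟨c, hc', h⟩ := exists_conj_le_inf S C hSC Q hQ hQC
  refine ⟨c, hc', eq_of_le_of_card_le h ?_⟩
  rw [card_conj_smul]; exact hc

namespace Hyp

variable [Finite G] {T T1 T2 W Z4 Z Z2 Z1 : Subgroup G} (h : Hyp T T1 T2 W Z4 Z Z2 Z1)
include h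

theorem pW : IsPGroup 2 W := IsPGroup.of_card (n := 11) (by rw [h.cW]; norm_num)
theorem pT2 : IsPGroup 2 T2 := IsPGroup.of_card (n := 13) (by rw [h.cT2]; norm_num)

variable (S : Sylow 2 G) (hS : (S : Subgroup G) = T)
include hS

theorem conjZ_of_le {g : G} (hg : MulAut.conj g • W ≤ normalizer (Z : Set G)) :
    MulAut.conj g • Z = Z := by
  have : Fact (Nat.Prime 2) := ⟨Nat.prime_two⟩
  obtain ⟨n, hn, hle⟩ := exists_conj_le S (normalizer (Z : Set G)) (by rw [hS]; exact h.TNZ)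
    (MulAut.conj g • W) (isPGroup_conj_smul h.pW) hg
  rw [hS, ← conj_mul_smul] at hle
  have h1 := h.conjZ_of_conjW (h.weak hle)
  rw [conj_mul_smul] at h1
  have h2 := mem_normalizer_iff_conj.1 hn
  have h3 : MulAut.conj n • MulAut.conj g • Z = MulAut.conj n • Z := by rw [h1, h2]
  exact conj_smul_inj.1 h3

theorem conjZ_of_le' {g : G} (hg : W ≤ normalizer ((MulAut.conj g • Z : Subgroup G) : Set G)) :
    MulAut.conj g • Z = Z := by
  have h1 : MulAut.conj g⁻¹ • W ≤ normalizer (Z : Set G) := by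
    rw [← conj_smul_normalizer] at hg
    have := conj_smul_mono (g := g⁻¹) hg
    rwa [conj_inv_smul_smul] at this
  have h2 := h.conjZ_of_le S hS h1
  rw [← h2, conj_smul_inv_smul, h2]

/-- If `N(Z)` normalizes `Z1`, so does `N(Z2)`. -/
theorem NZ2_le (hM1 : normalizer (Z : Set G) ≤ normalizer (Z1 : Set G)) :
    normalizer (Z2 : Set G) ≤ normalizer (Z1 : Set G) := by
  have : Fact (Nat.Prime 2) := ⟨Nat.prime_two⟩
  intro n hn
  set C : Subgroup G := centralizer (Z2 : Set G) with hC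
  have hNC : normalizer (Z2 : Set G) ≤ normalizer (C : Set G) := by
    intro x hx
    apply mem_normalizer_of_conj
    intro c hc
    rw [hC, mem_centralizer_iff] at hc ⊢
    intro z hz
    have h1 := conj_of_mem_normalizer' hx hz
    have h2 := hc _ h1
    calc z * (x * c * x⁻¹) = x * ((x⁻¹ * z * x) * c) * x⁻¹ := by group
      _ = x * (c * (x⁻¹ * z * x)) * x⁻¹ := by rw [h2]
      _ = (x * c * x⁻¹) * z := by group
  have hT2 : (S : Subgroup G) ⊓ C = T2 := by
    rw [hS]
    ext x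
    rw [h.memT2, mem_inf, hC, mem_centralizer_iff]
    constructor
    · rintro ⟨h1, h2⟩
      exact ⟨h1, fun z hz => (h2 z hz).symm⟩
    · rintro ⟨h1, h2⟩
      exact ⟨h1, fun z hz => (h2 z hz).symm⟩
  have hT2C : T2 ≤ C := by rw [← hT2]; exact inf_le_right
  have hnC := mem_normalizer_iff_conj.1 (hNC hn)
  obtain ⟨c, hc, hcQ⟩ := exists_conj_eq_inf S C (by rw [hS]; exact h.TNZ2.trans hNC)
    (MulAut.conj n • T2) (isPGroup_conj_smul h.pT2) (by
      have := conj_smul_mono (g := n) hT2C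
      rwa [hnC] at this) (by rw [hT2, card_conj_smul])
  rw [hT2, ← conj_mul_smul] at hcQ
  have h1 : MulAut.conj (c * n) • W ≤ T := by
    refine (conj_smul_mono h.W_le2).trans ?_
    rw [hcQ]; exact h.T2_le
  have h2 := h.conjZ_of_conjW (h.weak h1)
  have h3 : c * n ∈ normalizer (Z1 : Set G) := hM1 (mem_normalizer_iff_conj.2 h2)
  have h4 : c ∈ normalizer (Z1 : Set G) := by
    apply mem_normalizer_of_conj
    intro z hz
    have h5 := mem_centralizer_iff.1 hc z (h.Z1_le hz)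
    rw [conj_of_mul_comm h5.symm]; exact hz
  have h5 := mul_mem (inv_mem h4) h3
  rwa [inv_mul_cancel_left] at h5

end Hyp

end Cfsg.Agent.H309.Ru
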