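import Cfsg.Agent.H309.Ru.Types

/-!
# S3204: the type analysis, case a (helper309)
-/

set_option autoImplicit false

namespace Cfsg.Agent.H309.Ru

open Subgroup Pointwise
open scoped commutatorElement

variable {G : Type*} [Group G]

/-- `α(v) ∉ Z2`. -/
theorem Pair0.alpha_not [Finite G] {T T1 T2 W Z4 Z Z2 Z1 T' T1' T2' W' Z4' Z' Z2' Z1' W1 : Subgroup G}
    (p : Pair0 T T1 T2 W Z4 Z Z2 Z1 T' T1' T2' W' Z4' Z' Z2' Z1' W1) (hZ2 : Z2' = Z2)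
    {s v : G} (hs : s ∈ W) (hs' : s ∉ W1) (hv : v ∈ Z') (hv' : v ∉ Z2') : ⁅s, v⁆ ∉ Z2 := by
  intro hcon
  apply hs'
  rw [p.eqW1]
  refine ⟨hs, mem_normalizer_of_conj (fun k hk => ?_)⟩
  have hZ : ∀ k ∈ Z2', ⁅s, k⁆ = 1 := fun k hk => p.h.cenc (p.h.Z2_le (by rwa [← hZ2])) hs
  apply conj_mem_of_comm hk
  rcases p.h'.mod3 hv hv' hk with h1 | h1
  · rw [hZ k h1]; exact one_mem _
  · have e : k = v * (v⁻¹ * k) := by group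
    have h2 : ⁅s, v * (v⁻¹ * k)⁆ = ⁅s, v⁆ * ⁅s, v⁻¹ * k⁆ :=
      Pair.comm_mul_W p.h (p.Z'W hv) (by rw [hZ _ h1]; exact one_mem _)
    rw [e, h2, hZ _ h1, mul_one]
    rw [← hZ2] at hcon
    exact p.h'.Z2_le hcon

namespace Pair

variable [Finite G] {T T1 T2 W Z4 Z Z2 Z1 T' T1' T2' W' Z4' Z' Z2' Z1' W1 : Subgroup G}
  (q : Pair T T1 T2 W Z4 Z Z2 Z1 T' T1' T2' W' Z4' Z' Z2' Z1' W1)
include q

theorem Z2_eq (hX : T2 ≤ (T ⊓ normalizer (Z' : Set G)) ⊔ W) (hT : W1 ⊔ W' = T2') : Z2' = Z2 := by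
  have hinf := q.p.inf2 hT
  have hle : Z2' ≤ Z := by rw [← hinf]; exact inf_le_left
  have hinv : ∀ t ∈ T2, ∀ z ∈ Z2', t * z * t⁻¹ ∈ Z2' := by
    intro t ht z hz
    obtain ⟨y, hy, w, hw, rfl⟩ := (mem_sup_norm (inf_le_left.trans q.p.h.TNW)).1 (hX ht)
    have e : y * w * z * (y * w)⁻¹ = y * (w * z * w⁻¹) * y⁻¹ := by group
    rw [e, conj_of_mul_comm (q.p.h.cen z (hle hz) w hw)]
    exact q.p.h'.n2 (q.YT hy) hz
  apply eq_of_le_of_card_le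
  · intro z hz
    by_contra hcon
    have h1 : Z2 ≤ Z2' := by
      intro a ha
      obtain ⟨t, ht, e⟩ := q.p.h.exists_comm_T2 (hle hz) hcon ha
      rw [← e]
      exact comm_mem_of_conj hz (hinv t ht z hz)
    have h2 := eq_of_le_of_card_le h1 (by rw [q.p.h.cZ2, q.p.h'.cZ2])
    exact hcon (by rw [h2]; exact hz)
  · rw [q.p.h.cZ2, q.p.h'.cZ2]

theorem caseA_not_T (hXT : (T ⊓ normalizer (Z' : Set G)) ⊔ W = T) (hT : W1 ⊔ W' = T2')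
    (hZ2 : Z2' = Z2) : False := by
  have hinf : Z ⊓ Z' = Z2 := (q.p.inf2 hT).trans hZ2
  have hW1T2 : W1 ≤ T2' := by rw [← hT]; exact le_sup_left
  have h1 := q.cX
  have h2 := q.cX'
  have h3 := q.cD_le
  rw [hXT, q.p.h.cT] at h1
  have hcD : Nat.card (T ⊓ W' : Subgroup G) = 1024 := by
    have h4 := Nat.le_of_dvd Nat.card_pos (card_dvd_of_le q.sup_le_T')
    rw [q.p.h'.cT] at h4
    have h5 : Nat.card (T ⊓ normalizer (Z' : Set G) : Subgroup G) = 8192 := by omega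
    rw [h5] at h2
    have h6 : 8192 * 2048 ≤ 16384 * Nat.card (T ⊓ W' : Subgroup G) := by
      rw [← h2]; exact Nat.mul_le_mul_right _ h4
    omega
  have p' := q.swap hcD
  -- A = Z' Z
  set A : Subgroup G := Z' ⊔ Z with hA
  have hcA : Nat.card A = 16 := by
    have h4 := card_sup_mul q.p.Z'NZ
    rw [← hA, q.p.h'.cZ, q.p.h.cZ, inf_comm, hinf, q.p.h.cZ2] at h4
    omega
  have hAW : A ≤ W := q.p.A_le
  have hAinv : ∀ t ∈ T, ∀ k ∈ A, t * k * t⁻¹ ∈ A := by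
    intro t ht k hk
    rw [← hXT] at ht
    obtain ⟨y, hy, w, hw, rfl⟩ := (mem_sup_norm (inf_le_left.trans q.p.h.TNW)).1 ht
    have e : y * w * k * (y * w)⁻¹ = y * (w * k * w⁻¹) * y⁻¹ := by group
    rw [e]
    have h4 : w * k * w⁻¹ ∈ A :=
      conj_mem_of_comm hk ((le_sup_right : Z ≤ Z' ⊔ Z) (q.p.h.comW _ hw _ (hAW hk)))
    obtain ⟨a, ha, b, hb, e2⟩ := (mem_sup_norm q.p.Z'NZ).1 h4
    rw [← e2]
    have e3 : y * (a * b) * y⁻¹ = (y * a * y⁻¹) * (y * b * y⁻¹) := by group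
    rw [e3]
    exact mul_mem ((le_sup_left : Z' ≤ Z' ⊔ Z) (conj_of_mem_normalizer hy.2 ha))
      ((le_sup_right : Z ≤ Z' ⊔ Z) (q.p.h.n3 hy.1 hb))
  obtain ⟨v, hv, hv'⟩ := q.p.h'.exists_z3
  have hv2 : v ∉ Z2 := by rwa [← hZ2]
  have hvZ : v ∉ Z := by
    intro h4
    apply hv2
    rw [← hinf]; exact ⟨h4, hv⟩
  have hZ4A : Z4 = A := by
    apply eq_of_le_of_card_le
    · apply q.p.h.norm4 A hAW hAinv
      intro h4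
      exact hvZ (h4 ((le_sup_left : Z' ≤ Z' ⊔ Z) hv))
    · rw [hcA, q.p.h.cZ4]
  obtain ⟨z, hz, hz'⟩ := q.p.h.exists_z3
  obtain ⟨s, hs, hs'⟩ := exists_s q.p
  obtain ⟨r, hr, hr'⟩ := exists_s p'
  have hZW' := q.p.ZW'
  have hZ'W := q.p.Z'W
  -- U and E
  have hZ2U : Z2 ≤ W ⊓ W' := le_inf q.p.h.Z2W ((q.p.h.Z2_le).trans hZW')
  have hZ2Z' : Z2 ≤ Z' := by rw [← hZ2]; exact q.p.h'.Z2_le
  have hWn : ∀ k ∈ W, ∀ n ∈ Z2, k * n * k⁻¹ ∈ Z2 := fun k hk n hn => q.p.h.n2 (q.p.h.WT hk) hn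
  have hW'n : ∀ k ∈ W', ∀ n ∈ Z2, k * n * k⁻¹ ∈ Z2 := fun k hk n hn => by
    rw [conj_of_mul_comm (q.p.h'.cen n (hZ2Z' hn) k hk)]; exact hn
  have hUn : ∀ k ∈ (W ⊓ W' : Subgroup G), ∀ n ∈ Z2, k * n * k⁻¹ ∈ Z2 := fun k hk n hn => hWn k hk.1 n hn
  set E : Subgroup G := modC (W ⊓ W') ((W : Set G) ∪ (W' : Set G)) Z2 hUn with hE
  have hZ2E : Z2 ≤ E := by
    intro x hx
    refine ⟨hZ2U hx, fun t ht => ?_⟩
    rcases ht with ht | ht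
    · rw [q.p.h.cenc (q.p.h.Z2_le hx) ht]; exact one_mem _
    · rw [q.p.h'.cenc (hZ2Z' hx) ht]; exact one_mem _
  have hEinv : ∀ t ∈ T, ∀ k ∈ E, t * k * t⁻¹ ∈ E := by
    intro t ht k hk
    rw [← hXT] at ht
    obtain ⟨y, hy, w, hw, rfl⟩ := (mem_sup_norm (inf_le_left.trans q.p.h.TNW)).1 ht
    have e : y * w * k * (y * w)⁻¹ = y * (w * k * w⁻¹) * y⁻¹ := by group
    rw [e]
    have h4 : w * k * w⁻¹ ∈ E := conj_mem_of_comm hk (hZ2E (hk.2 w (Or.inl hw)))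
    apply modC_conj _ _ (fun n hn => q.p.h.n2 hy.1 hn) h4
    · intro u hu
      exact ⟨q.p.h.nW y hy.1 u hu.1, q.p.h'.nW y (q.YT hy) u hu.2⟩
    · intro u hu
      rcases hu with hu | hu
      · left
        have := q.p.h.nW _ (inv_mem hy.1) u hu
        rwa [inv_inv] at this
      · right
        have := q.p.h'.nW _ (inv_mem (q.YT hy)) u hu
        rwa [inv_inv] at this
  -- it suffices to find an element of E outside Z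
  suffices hEZ : ¬ E ≤ Z by
    have h4 : Z4 ≤ E := q.p.h.norm4 E (fun x hx => hx.1.1) hEinv hEZ
    have h5 : v ∈ E := h4 (by rw [hZ4A]; exact (le_sup_left : Z' ≤ Z' ⊔ Z) hv)
    exact q.p.alpha_not hZ2 hs hs' hv hv' (h5.2 s (Or.inl hs))
  -- U0'
  set D : Subgroup G := T ⊓ W' with hD
  have hUD : (W ⊓ W' : Subgroup G) ≤ D := inf_le_inf_right _ q.p.h.WT
  obtain ⟨a, ha, b, hb, haU, hbU, habU⟩ := exists_gen4 (n := 10) (by rw [hcD]; norm_num) hUD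
    (by rw [hcD, q.p.cU])
  have hUU : ∀ x ∈ W ⊓ W', ∀ y ∈ W ⊓ W', ⁅x, y⁆ ∈ Z2 := by
    intro x hx y hy
    rw [← hinf]; exact q.p.commU hx hy
  have hDn : ∀ k ∈ D, ∀ n ∈ Z2, k * n * k⁻¹ ∈ Z2 := fun k hk n hn => q.p.h.n2 hk.1 hn
  have hgen : ∀ u ∈ W ⊓ W', ⁅a, u⁆ ∈ Z2 → ⁅b, u⁆ ∈ Z2 → ∀ d ∈ D, ⁅d, u⁆ ∈ Z2 := by
    intro u hu h4 h5 d hd
    have h6 : D ≤ centMod D Z2 hDn u := by
      apply gen4 hUD (by rw [hcD, q.p.cU]) ha hb haU hbU habU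
      · intro x hx; exact ⟨hUD hx, hUU x hx u hu⟩
      · exact ⟨ha, h4⟩
      · exact ⟨hb, h5⟩
    exact (h6 hd).2
  have hnU' : ∀ k ∈ (W ⊓ W' : Subgroup G), ∀ n ∈ Z2', k⁻¹ * n * k ∈ Z2' := by
    intro k hk n hn
    have h4 := q.p.h'.cen n (q.p.h'.Z2_le hn) _ (inv_mem hk.2)
    rw [h4]; simpa using hn
  have hnex : ∃ u ∈ W ⊓ W', u ∉ A ∧ ∀ d ∈ D, ⁅d, u⁆ ∈ Z2 := by
    by_contra hcon
    push Not at hcon
    set K0 : Subgroup G := modC (W ⊓ W') ({a} : Set G) Z2 hUn with hK0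
    set K1 : Subgroup G := K0 ⊓ A with hK1
    have h4 := card_comm_le (K := W ⊓ W') (K0 := K0) (L := Z') (N := Z2') a (fun x hx => hx.1)
      q.p.h'.Z2_le (fun w hw => q.p.h'.comW _ ha.2 _ hw.2)
      (fun w hw hw' => ⟨hw, fun t ht => by
        rw [Set.mem_singleton_iff] at ht; rw [ht, ← hZ2]; exact hw'⟩) hnU'
    have h5 := card_comm_le (K := K0) (K0 := K1) (L := Z') (N := Z2') b inf_le_left
      q.p.h'.Z2_le (fun w hw => q.p.h'.comW _ hb.2 _ hw.1.2)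
      (fun w hw hw' => by
        refine mem_inf.2 ⟨hw, ?_⟩
        by_contra hwA
        obtain ⟨d, hd, hd'⟩ := hcon w hw.1 hwA
        exact hd' (hgen w hw.1 (hw.2 a rfl) (by rw [← hZ2]; exact hw') d hd))
      (fun w hw n hn => hnU' w hw.1 n hn)
    have h6 : Nat.card K1 ≤ 16 := by
      rw [← hcA]; exact Nat.le_of_dvd Nat.card_pos (card_dvd_of_le inf_le_right)
    rw [q.p.cU, q.p.h'.cZ, q.p.h'.cZ2] at h4
    rw [q.p.h'.cZ, q.p.h'.cZ2] at h5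
    omega
  obtain ⟨u, hu, huA, hud⟩ := hnex
  -- commutators with W1
  have hW1N : ∀ w ∈ W1, ∀ d ∈ W', w * d * w⁻¹ ∈ W' := fun w hw d hd => q.p.h'.nW w (q.p.le' hw) d hd
  have huw : ∀ w ∈ W1, ⁅w, u⁆ ∈ Z2 := by
    intro w hw
    have hwW := q.p.W1W hw
    by_contra hcon
    have he : ⁅w, u⁆ ∈ Z := q.p.h.comW _ hwW _ hu.1
    have h4 : ⁅r, ⁅w, u⁆⁆ ∉ Z2' := p'.alpha_not hZ2.symm hr hr' he hcon
    apply h4
    set e := ⁅w, u⁆ with hed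
    have hc : ⁅r, u⁆ ∈ Z' := q.p.h'.comW _ hr _ hu.2
    set c := ⁅r, u⁆ with hcd
    have hw' : ⁅w, r⁆ ∈ D := by
      rw [commutatorElement_def]
      apply mul_mem_index_two p'.W1W p'.idx (hW1N w hw r hr) (inv_mem hr) _ (by rwa [inv_mem_iff])
      intro h5
      apply hr'
      rw [p'.eqW1] at h5 ⊢
      refine ⟨hr, ?_⟩
      have hwN : w ∈ normalizer (Z : Set G) := q.p.h.WNZ hwW
      have h6 := mul_mem (mul_mem (inv_mem hwN) h5.2) hwN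
      have e : w⁻¹ * (w * r * w⁻¹) * w = r := by group
      rwa [e] at h6
    set w' := ⁅w, r⁆ with hw'd
    have heW' : e ∈ W' := hZW' he
    have hre : ⁅r, e⁆ ∈ Z' := q.p.h'.comW _ hr _ heW'
    have hw'e : ⁅w', e⁆ ∈ Z2 := q.p.h.c3 _ hw'.1 e he
    have hw'u : ⁅w', u⁆ ∈ Z2 := hud w' hw'
    have hwc : ⁅w, c⁆ ∈ Z2 := by
      rw [← hZ2]; exact q.p.h'.c3 w (q.p.le' hw) c hc
    have E1 : ⁅w' * r, e * u⁆ = ⁅w, c⁆ * c := by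
      rw [hw'd, hed, hcd, ← conj_eq w ⁅r, u⁆]
      simp only [commutatorElement_def]; group
    have E2 : ⁅w' * r, e * u⁆ = ⁅w' * r, e⁆ * (e * ⁅w' * r, u⁆ * e⁻¹) := by
      simp only [commutatorElement_def]; group
    have E3 : ⁅w' * r, e⁆ = ⁅r, e⁆ * ⁅w', e⁆ := by
      rw [comm_mul_left', q.p.h'.cenc hre hw'.2, one_mul]
    have E4 : ⁅w' * r, u⁆ = c * ⁅w', u⁆ := by
      rw [comm_mul_left', q.p.h'.cenc hc hw'.2, one_mul]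
    have hcu : c * ⁅w', u⁆ ∈ Z' := mul_mem hc (hZ2Z' hw'u)
    rw [E2, E3, E4, conj_of_mul_comm (q.p.h'.cen _ hcu e heW')] at E1
    -- ⁅r,e⁆ * a * (c * b) = d * c
    have E5 : ⁅r, e⁆ = ⁅w, c⁆ * (c * ⁅w', u⁆⁻¹ * c⁻¹) * ⁅w', e⁆⁻¹ := by
      calc ⁅r, e⁆ = (⁅r, e⁆ * ⁅w', e⁆ * (c * ⁅w', u⁆)) * (⁅w', u⁆⁻¹ * c⁻¹) * ⁅w', e⁆⁻¹ := by group
        _ = (⁅w, c⁆ * c) * (⁅w', u⁆⁻¹ * c⁻¹) * ⁅w', e⁆⁻¹ := by rw [E1]
        _ = _ := by group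
    rw [hZ2, E5]
    refine mul_mem (mul_mem hwc ?_) (inv_mem hw'e)
    exact hWn c (hZ'W hc) _ (inv_mem hw'u)
  -- adjust by v
  have hvW := hZ'W hv
  have hsv : ⁅s, v⁆ ∈ Z := q.p.h.comW _ hs _ hvW
  have hsv2 : ⁅s, v⁆ ∉ Z2 := q.p.alpha_not hZ2 hs hs' hv hv'
  have hmod : ∀ a ∈ Z, ∀ b ∈ Z, a ∉ Z2 → b ∉ Z2 → a * b ∈ Z2 := fun a ha b hb ha' hb' =>
    mul_mem_index_two q.p.h.Z2_le (by rw [q.p.h.cZ2, q.p.h.cZ]) ha hb ha' hb'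
  have hmod' : ∀ a ∈ Z', ∀ b ∈ Z', a ∉ Z2 → b ∉ Z2 → a * b ∈ Z2 := fun a ha b hb ha' hb' => by
    rw [← hZ2] at ha' hb' ⊢
    exact mul_mem_index_two q.p.h'.Z2_le (by rw [q.p.h'.cZ2, q.p.h'.cZ]) ha hb ha' hb'
  have step1 : ∃ u1 ∈ W ⊓ W', u1 ∉ A ∧ (∀ d ∈ D, ⁅d, u1⁆ ∈ Z2) ∧ ∀ w ∈ W, ⁅w, u1⁆ ∈ Z2 := by
    by_cases h4 : ⁅s, u⁆ ∈ Z2
    · exact ⟨u, hu, huA, hud, comm_W_of_s q.p.W1W q.p.idx hWn hs hs' huw h4⟩
    · refine ⟨u * v, mul_mem hu (mem_inf.2 ⟨hvW, q.p.h'.ZW hv⟩), ?_, ?_, ?_⟩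
      · intro h5
        exact huA ((mul_mem_cancel_right ((le_sup_left : Z' ≤ Z' ⊔ Z) hv)).1 h5)
      · intro d hd
        have e : ⁅d, u * v⁆ = ⁅d, u⁆ * (u * ⁅d, v⁆ * u⁻¹) := by simp only [commutatorElement_def]; group
        rw [e, q.p.h'.cenc hv hd.2]
        simpa using hud d hd
      · apply comm_W_of_s q.p.W1W q.p.idx hWn hs hs'
        · intro w hw
          have e : ⁅w, u * v⁆ = ⁅w, u⁆ * (u * ⁅w, v⁆ * u⁻¹) := by simp only [commutatorElement_def]; group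
          rw [e]
          apply mul_mem (huw w hw) (hWn u hu.1 _ _)
          rw [← hZ2]; exact q.p.h'.c3 w (q.p.le' hw) v hv
        · rw [comm_mul_W q.p.h hu.1 hsv]
          exact hmod _ (q.p.h.comW _ hs _ hu.1) _ hsv h4 hsv2
  obtain ⟨u1, hu1, hu1A, hud1, huw1⟩ := step1
  have hzW := q.p.h.ZW hz
  have hzW' := hZW' hz
  have hrz : ⁅r, z⁆ ∈ Z' := q.p.h'.comW _ hr _ hzW'
  have hrz2 : ⁅r, z⁆ ∉ Z2 := by
    have := p'.alpha_not hZ2.symm hr hr' hz hz'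
    rwa [hZ2] at this
  have step2 : ∃ u2 ∈ W ⊓ W', u2 ∉ A ∧ (∀ d ∈ W', ⁅d, u2⁆ ∈ Z2) ∧ ∀ w ∈ W, ⁅w, u2⁆ ∈ Z2 := by
    by_cases h4 : ⁅r, u1⁆ ∈ Z2
    · exact ⟨u1, hu1, hu1A, comm_W_of_s p'.W1W p'.idx hW'n hr hr' hud1 h4, huw1⟩
    · refine ⟨u1 * z, mul_mem hu1 (mem_inf.2 ⟨hzW, hzW'⟩), ?_, ?_, ?_⟩
      · intro h5
        exact hu1A ((mul_mem_cancel_right ((le_sup_right : Z ≤ Z' ⊔ Z) hz)).1 h5)
      · apply comm_W_of_s p'.W1W p'.idx hW'n hr hr'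
        · intro d hd
          have e : ⁅d, u1 * z⁆ = ⁅d, u1⁆ * (u1 * ⁅d, z⁆ * u1⁻¹) := by
            simp only [commutatorElement_def]; group
          rw [e]
          exact mul_mem (hud1 d hd) (hWn u1 hu1.1 _ (q.p.h.c3 d hd.1 z hz))
        · rw [comm_mul_W q.p.h' hu1.2 hrz]
          exact hmod' _ (q.p.h'.comW _ hr _ hu1.2) _ hrz h4 hrz2
      · intro w hw
        have e : ⁅w, u1 * z⁆ = ⁅w, u1⁆ * (u1 * ⁅w, z⁆ * u1⁻¹) := by simp only [commutatorElement_def]; group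
        rw [e, q.p.h.cenc hz hw]
        simpa using huw1 w hw
  obtain ⟨u2, hu2, hu2A, hud2, huw2⟩ := step2
  intro hcon
  apply hu2A
  apply (le_sup_right : Z ≤ Z' ⊔ Z)
  apply hcon
  refine ⟨hu2, fun t ht => ?_⟩
  rcases ht with ht | ht
  · exact huw2 t ht
  · exact hud2 t ht

theorem valueA (hZ2 : Z2' = Z2) (hZ1 : Z1' = Z1) {s y : G} (hs : s ∈ W) (hs' : s ∉ W1)
    (hy : y ∈ T ⊓ normalizer (Z' : Set G)) (hx : y⁻¹ * s⁻¹ * y * s ∈ W1) :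
    y⁻¹ * s⁻¹ * y * s ∈ T1' ↔ y ∈ T1 := by
  obtain ⟨v, hv, hv'⟩ := q.p.h'.exists_z3
  have hsv : ⁅s, v⁆ ∈ Z := q.p.h.comW _ hs _ (q.p.Z'W hv)
  have hsv2 : ⁅s, v⁆ ∉ Z2 := q.p.alpha_not hZ2 hs hs' hv hv'
  have h3 : ⁅y, v⁆ ∈ Z := q.p.h.Z2_le (by rw [← hZ2]; exact q.p.h'.c3 y (q.YT hy) v hv)
  have h5 : ⁅s, y * v * y⁻¹⁆ = ⁅s, v⁆ := by
    rw [conj_eq, comm_mul_W q.p.h (q.p.h.ZW h3) hsv, q.p.h.cenc h3 hs, one_mul]
  rw [q.p.h'.mem1 (q.p.le' hx) hv hv', q.p.xcomm hs hy.1 hy.2 hv, h5, hZ1]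
  have h6 : ⁅s, v⁆ * (y⁻¹ * ⁅s, v⁆ * y)⁻¹ = ⁅y⁻¹, ⁅s, v⁆⁆⁻¹ := by
    rw [commutatorElement_def y⁻¹]; group
  rw [h6, inv_mem_iff, ← q.p.h.mem1 (inv_mem (mem_inf.1 hy).1) hsv hsv2, inv_mem_iff]

end Pair

end Cfsg.Agent.H309.Ru
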